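import Cfsg.Agent.Lib.Core.Basic

/-! Central extensions of alternating groups: canonical lifts of 3-cycles. -/

set_option autoImplicit false

namespace Cfsg.Agent.Lib.Forms

open Equiv Subgroup
open scoped commutatorElement

variable {Ω : Type} [Fintype Ω] [DecidableEq Ω] {H : Type*} [Group H]

/-- The 3-cycle `a → b → c → a`. -/
def c3 {α : Type*} [DecidableEq α] (a b c : α) : Perm α := swap a c * swap a b

/-- Three distinct points. -/
structure D3 {α : Type*} (a b c : α) : Prop where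
  ab : a ≠ b
  ac : a ≠ c
  bc : b ≠ c

theorem D3.rot {α : Type*} {a b c : α} (h : D3 a b c) : D3 b c a := ⟨h.bc, h.ab.symm, h.ac.symm⟩
theorem D3.swap {α : Type*} {a b c : α} (h : D3 a b c) : D3 a c b := ⟨h.ac, h.ab, h.bc.symm⟩
theorem D3.map {α β : Type*} {a b c : α} (h : D3 a b c) {f : α → β} (hf : Function.Injective f) :
    D3 (f a) (f b) (f c) := ⟨hf.ne h.ab, hf.ne h.ac, hf.ne h.bc⟩

omit [Fintype Ω] in
theorem c3_conj (σ : Perm Ω) (a b c : Ω) : σ * c3 a b c * σ⁻¹ = c3 (σ a) (σ b) (σ c) := by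
  simp only [c3, swap_apply_apply]; group

omit [Fintype Ω] in
theorem c3_a {a b c : Ω} (h : D3 a b c) : c3 a b c a = b := by
  simp [c3, swap_apply_of_ne_of_ne h.ab.symm h.bc]

omit [Fintype Ω] in
theorem c3_b (a b c : Ω) : c3 a b c b = c := by simp [c3]

omit [Fintype Ω] in
theorem c3_c {a b c : Ω} (h : D3 a b c) : c3 a b c c = a := by
  simp [c3, swap_apply_of_ne_of_ne h.ac.symm h.bc.symm]

omit [Fintype Ω] in
theorem c3_of_ne {a b c x : Ω} (ha : x ≠ a) (hb : x ≠ b) (hc : x ≠ c) : c3 a b c x = x := by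
  simp [c3, swap_apply_of_ne_of_ne, ha, hb, hc]

omit [Fintype Ω] in
theorem eq_c3 {a b c : Ω} (h : D3 a b c) {σ : Perm Ω} (h1 : σ a = b) (h2 : σ b = c) (h3 : σ c = a)
    (h4 : ∀ x, x ≠ a → x ≠ b → x ≠ c → σ x = x) : σ = c3 a b c := by
  ext x
  by_cases ha : x = a; · rw [ha, h1, c3_a h]
  by_cases hb : x = b; · rw [hb, h2, c3_b]
  by_cases hc : x = c; · rw [hc, h3, c3_c h]
  rw [h4 x ha hb hc, c3_of_ne ha hb hc]

omit [Fintype Ω] in
theorem c3_rot {a b c : Ω} (h : D3 a b c) : c3 a b c = c3 b c a :=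
  eq_c3 h.rot (c3_b ..) (c3_c h) (c3_a h) fun _ h1 h2 h3 => c3_of_ne h3 h1 h2

omit [Fintype Ω] in
theorem c3_inv {a b c : Ω} (h : D3 a b c) : (c3 a b c)⁻¹ = c3 a c b :=
  eq_c3 h.swap (Perm.inv_eq_iff_eq.mpr (c3_c h).symm) (Perm.inv_eq_iff_eq.mpr (c3_b ..).symm)
    (Perm.inv_eq_iff_eq.mpr (c3_a h).symm) fun _ h1 h2 h3 => Perm.inv_eq_iff_eq.mpr (c3_of_ne h1 h3 h2).symm

omit [Fintype Ω] in
theorem c3_sq {a b c : Ω} (h : D3 a b c) : c3 a b c ^ 2 = c3 a c b :=
  eq_c3 h.swap (by simp [sq, c3_a h, c3_b]) (by simp [sq, c3_a h, c3_c h]) (by simp [sq, c3_c h, c3_b])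
    fun _ h1 h2 h3 => by simp [sq, c3_of_ne h1 h3 h2]

theorem sign_c3 {a b c : Ω} (h : D3 a b c) : Perm.sign (c3 a b c) = 1 := by simp [c3, h.ab, h.ac]

theorem exists_notMem (l : List Ω) (h : l.length < Fintype.card Ω) : ∃ x, x ∉ l := by
  by_contra! h1
  have := Finset.card_le_card (fun x _ => List.mem_toFinset.mpr (h1 x) : Finset.univ ⊆ l.toFinset)
  have := l.toFinset_card_le
  rw [← Finset.card_univ] at h
  omega

theorem card_notMem (l : List Ω) : Fintype.card Ω ≤ l.length + Fintype.card {x // x ∉ l} := by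
  have h1 : Fintype.card {x // x ∈ l} ≤ l.length := by
    rw [Fintype.card_subtype]
    exact (Finset.card_le_card fun x hx => by simpa using hx).trans l.toFinset_card_le
  rw [Fintype.card_subtype_compl]
  omega

/-- `π : H → Sym(Ω)` has image the alternating group and central kernel. -/
structure ACov (π : H →* Perm Ω) : Prop where
  surj : ∀ σ, Perm.sign σ = 1 → ∃ h, π h = σ
  even : ∀ h, Perm.sign (π h) = 1
  cent : ∀ z, π z = 1 → ∀ h, Commute z h
  card : 9 ≤ Fintype.card Ω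

variable {π : H →* Perm Ω}

omit [Fintype Ω] [DecidableEq Ω] in
theorem exists_lift_pow (hc : ∀ z, π z = 1 → ∀ h, Commute z h) {x g : H} {j l : ℕ}
    (h1 : π g * π x * (π g)⁻¹ = π x ^ (j + 1)) (h2 : π x ^ l = 1) :
    ∃ d, π d = π x ^ j ∧ d ^ l = 1 ∧ g * d * g⁻¹ = d ^ (j + 1) := by
  have h3 := hc (g * x * g⁻¹ * (x ^ (j + 1))⁻¹) (by simp [h1])
  have h4 : g * x * g⁻¹ = (g * x * g⁻¹ * (x ^ (j + 1))⁻¹) * x ^ (j + 1) := by group
  have h5 : π (g * x * g⁻¹ * (x ^ (j + 1))⁻¹) = 1 := by simp [h1]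
  generalize g * x * g⁻¹ * (x ^ (j + 1))⁻¹ = z at *
  refine ⟨z * x ^ j, by simp [h5], ?_, ?_⟩
  · have h6 : g * x ^ l * g⁻¹ = x ^ l := by rw [← (hc _ (by simpa using h2) g).eq]; simp
    rw [← conj_pow, h4, (h3 _).mul_pow, ← pow_mul, add_mul, pow_add, one_mul, ← mul_assoc, mul_eq_right] at h6
    rw [(h3 _).mul_pow, ← pow_mul, h6]
  · calc g * (z * x ^ j) * g⁻¹ = z * (g * x * g⁻¹) ^ j := by rw [conj_pow, ← mul_assoc, ← (h3 g).eq]; group
      _ = _ := by rw [h4, (h3 _).mul_pow, (h3 _).mul_pow, ← pow_mul, ← pow_mul, pow_succ' z, mul_assoc, mul_comm j]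

theorem ACov.commute_of_fix (h : ACov π) (l : List Ω) (hl : l.length + 5 ≤ Fintype.card Ω) {x y : H}
    (hx : ∀ a, a ∉ l → π x a = a) (hy : ∀ a ∈ l, π y a = a) : Commute x y := by
  let j : alternatingGroup {a // a ∉ l} →* Perm Ω := Perm.ofSubtype.comp (Subgroup.subtype _)
  have h1 : ∀ σ, ∃ y, π y = j σ ∧ ∀ g, Commute (x * y * x⁻¹ * y⁻¹) g := fun σ => by
    obtain ⟨y, hy⟩ := h.surj (j σ) ((Perm.sign_ofSubtype _).trans σ.2)
    refine ⟨y, hy, h.cent _ ?_⟩
    have : Perm.Disjoint (π x) (j σ) := fun a =>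
      (em (a ∈ l)).elim (fun h => .inr (Perm.ofSubtype_apply_of_not_mem _ (not_not.mpr h))) fun h => .inl (hx a h)
    simp [hy, this.commute.eq]
  have h2 : commutator _ ≤ ((centralizer {x}).map π).comap j := by
    rw [commutator_def, commutator_le]
    rintro σ - τ -
    obtain ⟨a, ha, ha'⟩ := h1 σ
    obtain ⟨b, hb, hb'⟩ := h1 τ
    refine ⟨⁅a, b⁆, mem_centralizer_singleton_iff.mpr ?_, by simp [ha, hb]⟩
    have h2 : x * a * x⁻¹ = (x * a * x⁻¹ * a⁻¹) * a := by group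
    have h3 : x * b * x⁻¹ = (x * b * x⁻¹ * b⁻¹) * b := by group
    have h4 : x * ⁅a, b⁆ * x⁻¹ = ⁅x * a * x⁻¹, x * b * x⁻¹⁆ := by simp only [commutatorElement_def]; group
    rw [h2, h3] at h4
    generalize x * a * x⁻¹ * a⁻¹ = z at *
    generalize x * b * x⁻¹ * b⁻¹ = w at *
    rw [eq_comm, ← mul_inv_eq_iff_eq_mul, h4, commutatorElement_def, commutatorElement_def]
    calc z * a * (w * b) * (z * a)⁻¹ * (w * b)⁻¹ = z * (a * w * b * a⁻¹) * z⁻¹ * (b⁻¹ * w⁻¹) := by group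
      _ = w * (a * b * a⁻¹ * b⁻¹) * w⁻¹ := by rw [(ha' _).eq, ← (hb' a).eq]; group
      _ = _ := by rw [(hb' _).eq]; group
  have h3 : ∀ a, π y a ∉ l ↔ a ∉ l := fun a => not_congr
    ⟨fun h => (π y).injective (hy _ h) ▸ h, fun h => (hy a h).symm ▸ h⟩
  have h4 : ∀ a, π y a ≠ a → a ∉ l := fun a h1 h2 => h1 (hy a h2)
  rw [commutator_alternatingGroup_eq_top (by have := card_notMem l; rw [Nat.card_eq_fintype_card]; omega)] at h2
  obtain ⟨y', hy', h5⟩ := h2 (mem_top ⟨(π y).subtypePerm h3, (Perm.sign_subtypePerm _ h3 h4).trans (h.even y)⟩)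
  have h6 : π y' = π y := h5.trans (Perm.ofSubtype_subtypePerm h3 h4)
  have h7 := ((h.cent (y'⁻¹ * y) (by simp [h6]) x).symm)
  simpa using (show Commute x y' from (mem_centralizer_singleton_iff.mp hy').symm).mul_right h7

theorem ACov.commute_c3 (h : ACov π) {a b c : Ω} (habc : D3 a b c) {t y : H} (ht : π t = c3 a b c)
    (hy : π y * c3 a b c = c3 a b c * π y) : Commute t y := by
  have key : ∀ y : H, π y * c3 a b c = c3 a b c * π y → π y a = a → Commute t y := fun y hy h1 => by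
    have h2 : π y b = b := by simpa [c3_a habc, h1] using DFunLike.congr_fun hy a
    have h3 : π y c = c := by simpa [c3_b, h2] using DFunLike.congr_fun hy b
    refine h.commute_of_fix [a, b, c] (by have := h.card; simp; omega) (fun x hx => ?_) (by simp [h1, h2, h3])
    simp only [List.mem_cons, List.not_mem_nil, or_false, not_or] at hx
    rw [ht, c3_of_ne hx.1 hx.2.1 hx.2.2]
  have key2 : ∀ y : H, π y * c3 a b c = c3 a b c * π y → Commute t (t * y) → Commute t y := fun y _ h => by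
    simpa using (Commute.refl t).inv_right.mul_right h
  have key3 : ∀ y : H, π y * c3 a b c = c3 a b c * π y → π (t * y) * c3 a b c = c3 a b c * π (t * y) :=
    fun y hy => by rw [map_mul, ht, mul_assoc, hy]
  by_cases ha : π y a = a; · exact key y hy ha
  by_cases hb : π y a = b
  · exact key2 y hy (key2 _ (key3 y hy) (key _ (key3 _ (key3 y hy)) (by simp [ht, hb, c3_b, c3_c habc])))
  by_cases hc : π y a = c
  · exact key2 y hy (key _ (key3 y hy) (by simp [ht, hc, c3_c habc]))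
  have := DFunLike.congr_fun hy a
  simp only [Perm.mul_apply, c3_a habc, c3_of_ne ha hb hc] at this
  exact absurd ((π y).injective this) habc.ab.symm

open Classical in
/-- The canonical lift of an element of order 3. -/
noncomputable def tauP (π : H →* Perm Ω) (σ : Perm Ω) : H :=
  if h : ∃ t, π t = σ ∧ t ^ 3 = 1 ∧ ∃ g, g * t * g⁻¹ = t ^ 2 then h.choose else 1

/-- The canonical lift of a 3-cycle. -/
noncomputable def tau (π : H →* Perm Ω) (a b c : Ω) : H := tauP π (c3 a b c)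

theorem ACov.exists_inv (h : ACov π) {a b c : Ω} (habc : D3 a b c) (l : List Ω) (hl : l.length + 5 ≤ Fintype.card Ω)
    (hb : b ∉ l) (hc : c ∉ l) : ∃ g, π g a = a ∧ π g b = c ∧ π g c = b ∧ ∀ x ∈ l, π g x = x := by
  obtain ⟨d, hd⟩ := exists_notMem (a :: b :: c :: l) (by simp; omega)
  obtain ⟨e, he⟩ := exists_notMem (d :: a :: b :: c :: l) (by simp; omega)
  simp only [List.mem_cons, not_or] at hd he
  obtain ⟨g, hg⟩ := h.surj (swap b c * swap d e) (by simp [habc.bc, Ne.symm he.1])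
  have := habc.ab; have := habc.ac
  refine ⟨g, ?_, ?_, ?_, fun x hx => ?_⟩ <;> rw [hg] <;> grind [Perm.mul_apply, swap_apply_def]

theorem ACov.tau_spec (h : ACov π) {a b c : Ω} (habc : D3 a b c) :
    π (tau π a b c) = c3 a b c ∧ tau π a b c ^ 3 = 1 ∧ ∃ g, g * tau π a b c * g⁻¹ = tau π a b c ^ 2 := by
  have : ∃ t, π t = c3 a b c ∧ t ^ 3 = 1 ∧ ∃ g, g * t * g⁻¹ = t ^ 2 := by
    obtain ⟨x, hx⟩ := h.surj _ (sign_c3 habc)
    obtain ⟨g, h1, h2, h3, -⟩ := h.exists_inv habc [] (by have := h.card; simp; omega) (by simp) (by simp)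
    obtain ⟨d, h4, h5, h6⟩ := exists_lift_pow h.cent (x := x) (g := g) (j := 1) (l := 3)
      (by rw [hx, c3_conj, h1, h2, h3, c3_sq habc]) (by rw [hx, pow_succ, c3_sq habc, ← c3_inv habc]; simp)
    exact ⟨d, by rw [h4, hx, pow_one], h5, g, h6⟩
  rw [tau, tauP, dif_pos this]
  exact this.choose_spec

theorem ACov.pi_tau (h : ACov π) {a b c : Ω} (habc : D3 a b c) : π (tau π a b c) = c3 a b c := (h.tau_spec habc).1

theorem ACov.tau_pow (h : ACov π) {a b c : Ω} (habc : D3 a b c) : tau π a b c ^ 3 = 1 := (h.tau_spec habc).2.1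

theorem ACov.eq_tau (h : ACov π) {a b c : Ω} (habc : D3 a b c) {t g : H} (h1 : π t = c3 a b c) (h2 : t ^ 3 = 1)
    (h3 : g * t * g⁻¹ = t ^ 2) : t = tau π a b c := by
  obtain ⟨h4, h5, g', h6⟩ := h.tau_spec habc
  generalize tau π a b c = s at *
  have h7 := h.commute_c3 habc h4 (y := g'⁻¹ * g) (by
    have e1 := congrArg π h3
    have e2 := congrArg π h6
    simp only [map_mul, map_inv, map_pow, h1, h4] at e1 e2 ⊢
    calc (π g')⁻¹ * π g * c3 a b c = (π g')⁻¹ * (π g * c3 a b c * (π g)⁻¹) * π g := by group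
      _ = _ := by rw [e1, ← e2]; group)
  have h8 : g * s * g⁻¹ = s ^ 2 := by
    rw [← h6]
    calc g * s * g⁻¹ = g' * (g'⁻¹ * g * s) * g⁻¹ := by group
      _ = _ := by rw [← h7.eq]; group
  have h9 := h.cent (t * s⁻¹) (by simp [h1, h4])
  obtain ⟨z, rfl⟩ : ∃ z, t = z * s := ⟨t * s⁻¹, by simp⟩
  simp only [mul_inv_cancel_right] at h9
  rw [(h9 _).mul_pow, ← mul_assoc, ← (h9 g).eq, mul_assoc z, mul_assoc z, h8, mul_left_inj, sq, left_eq_mul] at h3
  rw [h3, one_mul]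

theorem ACov.conj_tau (h : ACov π) {a b c : Ω} (habc : D3 a b c) (g : H) :
    g * tau π a b c * g⁻¹ = tau π (π g a) (π g b) (π g c) := by
  obtain ⟨h1, h2, k, h3⟩ := h.tau_spec habc
  refine h.eq_tau (habc.map (π g).injective) (g := g * k * g⁻¹) (by simp [h1, c3_conj]) (by simp [h2]) ?_
  rw [conj_pow, ← h3]; group

theorem tau_rot {a b c : Ω} (habc : D3 a b c) : tau π a b c = tau π b c a := by
  rw [tau, c3_rot habc, tau]

theorem ACov.tau_sq (h : ACov π) {a b c : Ω} (habc : D3 a b c) : tau π a b c ^ 2 = tau π a c b := by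
  obtain ⟨h1, h2, k, h3⟩ := h.tau_spec habc
  refine h.eq_tau habc.swap (g := k) (by rw [map_pow, h1, c3_sq habc]) (by rw [← pow_mul, mul_comm, pow_mul, h2, one_pow]) ?_
  rw [← conj_pow, h3]

theorem ACov.tau_inv (h : ACov π) {a b c : Ω} (habc : D3 a b c) : (tau π a b c)⁻¹ = tau π a c b := by
  rw [← h.tau_sq habc, inv_eq_iff_mul_eq_one, ← pow_succ', h.tau_pow habc]

/-- The canonical lift as a commutator. -/
theorem ACov.comm_eq_tau (h : ACov π) {a b c : Ω} (habc : D3 a b c) {y g : H} (hy : π y = c3 a b c)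
    (h1 : π g a = a) (h2 : π g b = c) (h3 : π g c = b) : g * y * g⁻¹ * y⁻¹ = tau π a b c := by
  have h4 := h.conj_tau habc g
  rw [h1, h2, h3, ← h.tau_sq habc] at h4
  have h9 := h.cent (y * (tau π a b c)⁻¹) (by simp [hy, h.pi_tau habc])
  obtain ⟨z, rfl⟩ : ∃ z, y = z * tau π a b c := ⟨y * (tau π a b c)⁻¹, by simp⟩
  simp only [mul_inv_cancel_right] at h9
  rw [← mul_assoc, ← (h9 g).eq, mul_assoc z, mul_assoc z, h4, (h9 _).eq, (h9 _).eq]; group

theorem ACov.commute_tau (h : ACov π) {a b c : Ω} (habc : D3 a b c) {y : H} (h1 : π y a = a) (h2 : π y b = b)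
    (h3 : π y c = c) : Commute y (tau π a b c) := by
  have := h.conj_tau habc y
  rw [h1, h2, h3] at this
  exact mul_inv_eq_iff_eq_mul.mp this

/-- Transport of permutations of `Fin m` along an embedding. -/
noncomputable abbrev Jp {m : ℕ} (e : Fin m ↪ Ω) : Perm (Fin m) →* Perm Ω := Perm.viaEmbeddingHom e

omit [Fintype Ω] [DecidableEq Ω] in
theorem Jp_apply {m : ℕ} (e : Fin m ↪ Ω) (σ : Perm (Fin m)) (i : Fin m) : Jp e σ (e i) = e (σ i) :=
  Perm.viaEmbedding_apply σ e i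

omit [Fintype Ω] [DecidableEq Ω] in
theorem Jp_fix {m : ℕ} (e : Fin m ↪ Ω) (σ : Perm (Fin m)) {x : Ω} (h : ∀ i, e i = x → σ i = i) : Jp e σ x = x := by
  by_cases hx : x ∈ Set.range e
  · obtain ⟨i, rfl⟩ := hx
    rw [Jp_apply, h i rfl]
  · exact Perm.viaEmbedding_apply_of_notMem σ e x hx

theorem sign_Jp {m : ℕ} (e : Fin m ↪ Ω) (σ : Perm (Fin m)) : Perm.sign (Jp e σ) = Perm.sign σ := by
  classical
  convert Perm.sign_extendDomain σ (Equiv.ofInjective e.1 e.2)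
  exact Equiv.ext fun x => by rw [Perm.viaEmbeddingHom_apply, Perm.viaEmbedding]; congr

omit [Fintype Ω] in
theorem Jp_c3 {m : ℕ} (e : Fin m ↪ Ω) {i j k : Fin m} (h : D3 i j k) : Jp e (c3 i j k) = c3 (e i) (e j) (e k) :=
  eq_c3 (h.map e.injective) (by rw [Jp_apply, c3_a h]) (by rw [Jp_apply, c3_b]) (by rw [Jp_apply, c3_c h])
    fun _ h1 h2 h3 => Jp_fix e _ fun _ hl => c3_of_ne (fun e' => h1 (e' ▸ hl).symm) (fun e' => h2 (e' ▸ hl).symm)
      fun e' => h3 (e' ▸ hl).symm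

theorem ACov.exists_Jp (h : ACov π) {m : ℕ} (e : Fin m ↪ Ω) (σ : Perm (Fin m)) (hσ : Perm.sign σ = 1) :
    ∃ g, π g = Jp e σ := h.surj _ ((sign_Jp e σ).trans hσ)

theorem ACov.commute_Jp (h : ACov π) {m : ℕ} (e : Fin m ↪ Ω) {σ σ' : Perm (Fin m)} {x y : H} (hx : π x = Jp e σ)
    (hy : π y = Jp e σ') (l : List (Fin m)) (hl : l.length + 5 ≤ Fintype.card Ω) (h1 : ∀ i, i ∉ l → σ i = i)
    (h2 : ∀ i ∈ l, σ' i = i) : Commute x y := by
  refine h.commute_of_fix (l.map e) (by simpa) (fun a ha => hx ▸ Jp_fix e σ fun i hi => h1 i fun h => ha ?_) fun a ha => ?_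
  · exact List.mem_map.mpr ⟨i, h, hi⟩
  · obtain ⟨i, hi, rfl⟩ := List.mem_map.mp ha
    rw [hy, Jp_apply, h2 i hi]

instance D3.instDecidable {α : Type*} [DecidableEq α] (a b c : α) : Decidable (D3 a b c) :=
  decidable_of_iff (a ≠ b ∧ a ≠ c ∧ b ≠ c) ⟨fun h => ⟨h.1, h.2.1, h.2.2⟩, fun h => ⟨h.1, h.2, h.3⟩⟩

end Cfsg.Agent.Lib.Forms
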