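import Cfsg.Agent.Lib.Forms.OrthTri

/-!
# Cyclic compositions (symmetric compositions twisted by a field automorphism of order dividing three)
-/

set_option autoImplicit false
set_option linter.unusedSectionVars false
set_option maxHeartbeats 400000

namespace Cfsg.Agent.Lib.Forms

open Module QuadraticMap

variable {F V : Type*} [Field F] [AddCommGroup V] [Module F V] {Q : QuadraticForm F V}

/-- A cyclic composition on `(V, Q)`. -/
structure Cyc (Q : QuadraticForm F V) where
  σ : F ≃+* F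
  σ3 : ∀ a, σ (σ (σ a)) = a
  μ : V →+ V →+ V
  smul_l : ∀ (c : F) a b, μ (c • a) b = σ (σ c) • μ a b
  smul_r : ∀ (c : F) a b, μ a (c • b) = σ c • μ a b
  nondeg : Nondeg Q
  norm : ∀ a b, Q (μ a b) = σ (σ (Q a)) * σ (Q b)
  cyc : ∀ a b c, polar Q (μ a b) c = σ (σ (polar Q (μ b c) a))

namespace Cyc

attribute [simp] σ3 smul_l smul_r

variable (C : Cyc Q)

theorem cyc' (a b c : V) : polar Q (C.μ a b) c = C.σ (polar Q (C.μ c a) b) := by
  rw [C.cyc, C.cyc b, C.σ3]

theorem polar_right (x y z : V) : polar Q (C.μ x y) (C.μ x z) = C.σ (C.σ (Q x)) * C.σ (polar Q y z) := by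
  have := C.norm x (y + z)
  rw [map_add, Q_add, Q_add, C.norm, C.norm, map_add, map_add] at this
  linear_combination this

theorem polar_left (x y z : V) : polar Q (C.μ y x) (C.μ z x) = C.σ (C.σ (polar Q y z)) * C.σ (Q x) := by
  have := C.norm (y + z) x
  rw [map_add, AddMonoidHom.add_apply, Q_add, Q_add, C.norm, C.norm, map_add, map_add, map_add, map_add] at this
  linear_combination this

theorem left (x y : V) : C.μ (C.μ x y) x = C.σ (Q x) • y :=
  C.nondeg.eq_of_polar fun z => by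
    rw [C.cyc, C.polar_right, polar_smul_left, smul_eq_mul, polar_comm]; simp

theorem right (x y : V) : C.μ x (C.μ y x) = C.σ (C.σ (Q x)) • y :=
  C.nondeg.eq_of_polar fun z => by
    rw [C.cyc', C.polar_left, polar_smul_left, smul_eq_mul, polar_comm, mul_comm]; simp [mul_comm]

theorem left₂ (x x' y : V) : C.μ (C.μ x y) x' = C.σ (polar Q x x') • y - C.μ (C.μ x' y) x := by
  have := C.left (x + x') y
  simp only [map_add, AddMonoidHom.add_apply, C.left, Q_add, add_smul] at this
  linear_combination (norm := module) this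

theorem right₂ (x x' y : V) : C.μ x (C.μ y x') = C.σ (C.σ (polar Q x x')) • y - C.μ x' (C.μ y x) := by
  have := C.right (x + x') y
  simp only [map_add, AddMonoidHom.add_apply, C.right, Q_add, add_smul] at this
  linear_combination (norm := module) this

theorem moufang (a y z : V) : C.μ (C.μ z a) (C.μ a y) = polar Q (C.μ y z) a • a - Q a • C.μ y z := by
  rw [C.left₂, C.left, C.smul_l, C.σ3, polar_comm, C.cyc, C.σ3]

theorem moufang₂ (a b y z : V) : C.μ (C.μ z a) (C.μ b y) = polar Q (C.μ y z) a • b + polar Q (C.μ y z) b • a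
    - polar Q a b • C.μ y z - C.μ (C.μ z b) (C.μ a y) := by
  have := C.moufang (a + b) y z
  simp only [map_add, AddMonoidHom.add_apply, C.moufang, Q_add, add_smul, polar_add_right, smul_add] at this
  linear_combination (norm := module) this

/-- Related triples. -/
structure Rel3 (s₁ s₂ s₃ : Semi Q) : Prop where
  σ₁ : s₁.σ = s₃.σ
  σ₂ : s₂.σ = s₃.σ
  comm : ∀ a, C.σ (s₃.σ a) = s₃.σ (C.σ a)
  ex : ∃ l : F, l ≠ 0 ∧ ∀ x y, C.μ (s₁.e x) (s₂.e y) = l • s₃.e (C.μ x y)

namespace Rel3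

variable {C} {s₁ s₂ s₃ t₁ t₂ t₃ : Semi Q}

theorem one : C.Rel3 1 1 1 := ⟨rfl, rfl, fun _ => rfl, 1, one_ne_zero, by simp⟩

theorem mul (h : C.Rel3 s₁ s₂ s₃) (k : C.Rel3 t₁ t₂ t₃) : C.Rel3 (s₁ * t₁) (s₂ * t₂) (s₃ * t₃) := by
  obtain ⟨h1, h2, h4, l, hl, h3⟩ := h
  obtain ⟨k1, k2, k4, m, hm, k3⟩ := k
  refine ⟨by simp [h1, k1], by simp [h2, k2], fun a => by simp [h4, k4], l * s₃.σ m,
    mul_ne_zero hl ((_root_.map_ne_zero _).mpr hm), fun x y => ?_⟩
  simp only [Semi.mul_e, h3, k3, Semi.map_smul, smul_smul]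

theorem inv (h : C.Rel3 s₁ s₂ s₃) : C.Rel3 s₁⁻¹ s₂⁻¹ s₃⁻¹ := by
  obtain ⟨h1, h2, h4, l, hl, h3⟩ := h
  refine ⟨by simp [h1], by simp [h2], fun a => s₃.σ.injective (by
    rw [← h4, Semi.inv_σ, Semi.σ_inv_σ, Semi.σ_inv_σ]), (s₃.σ⁻¹ : F ≃+* F) l⁻¹,
    (_root_.map_ne_zero _).mpr (inv_ne_zero hl), fun x y => s₃.e.injective ?_⟩
  have := h3 ((s₁⁻¹).e x) ((s₂⁻¹).e y)
  rw [Semi.e_inv_e, Semi.e_inv_e] at this
  rw [Semi.map_smul, Semi.σ_inv_σ, Semi.e_inv_e, this, smul_smul, inv_mul_cancel₀ hl, one_smul]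

theorem cyc (h : C.Rel3 s₁ s₂ s₃) : C.Rel3 s₂ s₃ s₁ := by
  obtain ⟨h1, h2, h4, l, hl, h3⟩ := h
  refine ⟨h2.trans h1.symm, h1.symm, h1 ▸ h4, C.σ (l * s₃.c) * (s₁.c : F)⁻¹, by simp [hl], fun y z => ?_⟩
  refine C.nondeg.eq_of_polar fun x => ?_
  obtain ⟨x, rfl⟩ := s₁.e.surjective x
  rw [C.cyc', h3, polar_smul_left, polar_smul_left, Semi.map_polar, Semi.map_polar, C.cyc' y z x, h1, ← h4]
  have := s₁.c.ne_zero
  simp only [smul_eq_mul, map_mul]
  field_simp

theorem scal (a b c : Fˣ) : C.Rel3 (Semi.scal Q a) (Semi.scal Q b) (Semi.scal Q c) :=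
  ⟨rfl, rfl, fun _ => rfl, C.σ (C.σ a) * C.σ b * (c : F)⁻¹, by simp, fun x y => by
    simp only [Semi.scal_e, smul_l, smul_r, smul_smul]
    congr 1
    have := c.ne_zero
    field_simp⟩

end Rel3

/-- left multiplication followed by a right multiplication, as a linear map -/
def LR (e w : V) : V →ₗ[F] V where
  toFun x := C.μ (C.μ e x) w
  map_add' x y := by simp
  map_smul' c x := by simp

/-- right multiplication followed by a left multiplication, as a linear map -/
def RL (e w : V) : V →ₗ[F] V where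
  toFun x := C.μ w (C.μ x e)
  map_add' x y := by simp
  map_smul' c x := by simp

@[simp] theorem LR_apply (e w x : V) : C.LR e w x = C.μ (C.μ e x) w := rfl
@[simp] theorem RL_apply (e w x : V) : C.RL e w x = C.μ w (C.μ x e) := rfl

/-- The first triality image of an Eichler transformation. -/
def eichR {e : V} (he : Q e = 0) {w : V} (hw : polar Q e w = 0) : OG Q :=
  ⟨LinearEquiv.ofLinear (LinearMap.id + C.LR e w) (LinearMap.id - C.LR e w)
    (by ext x; simp [C.right₂ e w, C.left, he, hw]) (by ext x; simp [C.right₂ e w, C.left, he, hw]), fun x => by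
      change Q (x + C.μ (C.μ e x) w) = Q x
      rw [Q_add, C.norm, C.norm, he, polar_comm, C.cyc, C.polar_left, polar_comm, hw]
      simp⟩

/-- The second triality image of an Eichler transformation. -/
def eichL {e : V} (he : Q e = 0) {w : V} (hw : polar Q e w = 0) : OG Q :=
  ⟨LinearEquiv.ofLinear (LinearMap.id + C.RL e w) (LinearMap.id - C.RL e w)
    (by ext x; simp [C.left₂ w e, C.right, he, hw, polar_comm Q w e])
    (by ext x; simp [C.left₂ w e, C.right, he, hw, polar_comm Q w e]), fun x => by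
      change Q (x + C.μ w (C.μ x e)) = Q x
      rw [Q_add, C.norm, C.norm, he, polar_comm, C.cyc', C.polar_right, polar_comm, hw]
      simp⟩

theorem eichR_apply {e : V} (he : Q e = 0) {w : V} (hw : polar Q e w = 0) (x : V) :
    (C.eichR he hw).1 x = x + C.μ (C.μ e x) w := rfl

theorem eichL_apply {e : V} (he : Q e = 0) {w : V} (hw : polar Q e w = 0) (x : V) :
    (C.eichL he hw).1 x = x + C.μ w (C.μ x e) := rfl

theorem rel3_eich {e : V} (he : Q e = 0) {w : V} (hw : polar Q e w = 0) :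
    C.Rel3 (Semi.ofOG Q (C.eichR he hw)) (Semi.ofOG Q (C.eichL he hw)) (Semi.ofOG Q (eich Q e w)) :=
  ⟨rfl, rfl, fun _ => rfl, 1, one_ne_zero, fun x y => by
    simp only [Semi.ofOG_e, eichR_apply, eichL_apply, eich_apply he hw, map_add, AddMonoidHom.add_apply, one_smul]
    rw [C.moufang w, C.moufang e, C.left₂ (C.μ e x) y w, C.right₂ x (C.μ y e) w, C.moufang₂ w e x y, he,
      polar_comm Q x, C.cyc' y e x, C.cyc e x y, C.σ3, polar_comm Q w e, hw]
    simp only [zero_smul, sub_zero, polar_smul_left, hw, smul_eq_mul, mul_zero]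
    module⟩

end Cyc

end Cfsg.Agent.Lib.Forms
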