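import Cfsg.Agent.Lib.Forms.Cyc

/-!
# Absolute points of a cyclic composition and their flags
-/

set_option autoImplicit false
set_option linter.unusedSectionVars false
set_option maxHeartbeats 400000

namespace Cfsg.Agent.Lib.Forms

open Module QuadraticMap

variable {F V : Type*} [Field F] [AddCommGroup V] [Module F V] {Q : QuadraticForm F V}

/-- A descending chain of subspaces of length five. -/
structure Chain (F V : Type*) [Field F] [AddCommGroup V] [Module F V] where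
  fl : ℕ → Submodule F V
  top : fl 0 = ⊤
  anti : ∀ n, fl (n + 1) ≤ fl n
  bot : fl 5 = ⊥

namespace Chain

variable (S : Chain F V)

theorem le {m n : ℕ} (h : m ≤ n) : S.fl n ≤ S.fl m := antitone_nat_of_succ_le S.anti h

theorem inv_mem {g : OG Q} {k : ℕ} (h : ∀ n, ∀ v ∈ S.fl n, g.1 v - v ∈ S.fl (n + (k + 1))) {n : ℕ} {v : V}
    (hv : v ∈ S.fl n) : (g⁻¹).1 v ∈ S.fl n := by
  suffices ∀ m ≤ n, (g⁻¹).1 v ∈ S.fl m from this n le_rfl
  intro m hm
  induction m with
  | zero => rw [S.top]; trivial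
  | succ m ih =>
    have h1 := S.le (by omega : m + 1 ≤ m + (k + 1)) (h m _ (ih (by omega)))
    rw [OG.apply_inv_apply] at h1
    simpa using sub_mem (S.le hm hv) h1

/-- isometries moving every member of the chain `k + 1` steps down -/
def T (Q : QuadraticForm F V) (k : ℕ) : Subgroup (OG Q) where
  carrier := {g | ∀ n, ∀ v ∈ S.fl n, g.1 v - v ∈ S.fl (n + (k + 1))}
  one_mem' n v _ := by simp [OG.one_apply]
  mul_mem' {a b} ha hb n v hv := by
    have h1 := hb n v hv
    have h2 := add_mem (ha n _ (by simpa using add_mem (S.le (by omega) h1) hv : b.1 v ∈ S.fl n)) h1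
    simpa [OG.mul_apply] using h2
  inv_mem' {a} ha n v hv := by
    simpa using neg_mem (ha n _ (S.inv_mem ha hv))

variable {S} {g h : OG Q} {k n : ℕ} {v : V}

theorem mem_T : g ∈ S.T Q k ↔ ∀ n, ∀ v ∈ S.fl n, g.1 v - v ∈ S.fl (n + (k + 1)) := Iff.rfl

theorem T_le : S.T Q (k + 1) ≤ S.T Q k := fun _ h n v hv => S.le (by omega) (h n v hv)

theorem apply_mem (hg : g ∈ S.T Q k) (hv : v ∈ S.fl n) : g.1 v ∈ S.fl n := by
  simpa using add_mem (S.le (by omega) (hg n v hv)) hv

theorem mul_sub (hg : g ∈ S.T Q 0) (hh : h ∈ S.T Q 0) (hv : v ∈ S.fl n) :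
    (g * h).1 v - v - ((g.1 v - v) + (h.1 v - v)) ∈ S.fl (n + 2) := by
  have := hg _ _ (hh n v hv)
  rw [map_sub] at this
  convert this using 1
  rw [OG.mul_apply]; abel

theorem comm_mem (hg : g ∈ S.T Q 0) (hh : h ∈ S.T Q 0) : (h * g)⁻¹ * (g * h) ∈ S.T Q 1 := fun n v hv => by
  have := apply_mem ((S.T Q 0).inv_mem (mul_mem hh hg)) (sub_mem (mul_sub hg hh hv) (mul_sub hh hg hv))
  convert this using 1
  rw [OG.mul_apply, show (g * h).1 v - v - (g.1 v - v + (h.1 v - v)) - ((h * g).1 v - v - (h.1 v - v + (g.1 v - v))) =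
    (g * h).1 v - (h * g).1 v by abel, map_sub, OG.inv_apply_apply]

theorem pow_eq_one {r : ℕ} [hr : Fact r.Prime] [CharP F r] (hg : g ∈ S.T Q 0) : g ^ r ^ 3 = 1 := by
  have h1 : ∀ n v, (((g.1 : End F V) - 1) ^ n) v ∈ S.fl n := fun n v => by
    induction n with
    | zero => rw [S.top]; trivial
    | succ n ih => rw [pow_succ', Module.End.mul_apply]; exact hg n _ ih
  have h2 : ((g.1 : End F V) - 1) ^ r ^ 3 = 0 := LinearMap.ext fun v => by
    have := S.le (le_trans (by norm_num) (Nat.pow_le_pow_left hr.out.two_le 3) : 5 ≤ r ^ 3) (h1 _ v)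
    rwa [S.bot] at this
  refine OG.ext' fun v => ?_
  rcases subsingleton_or_nontrivial V with _ | _
  · exact Subsingleton.elim _ _
  have : CharP (End F V) r := charP_of_injective_algebraMap (algebraMap F (End F V)).injective r
  rw [sub_pow_char_pow_of_commute _ _ (Commute.one_right _), one_pow, sub_eq_zero] at h2
  have h3 := LinearMap.congr_fun h2 v
  rw [Module.End.pow_apply] at h3
  rw [Subgroup.coe_pow, LinearEquiv.pow_apply]
  exact h3

end Chain

namespace Cyc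

variable (C : Cyc Q)

/-- absolute points -/
structure Abs (e : V) : Prop where
  ne : e ≠ 0
  sq : C.μ e e = 0

/-- the middle member of the flag of an absolute point -/
def F0 (e : V) : Submodule F V where
  carrier := {z | C.μ e z ∈ Submodule.span F {e}}
  add_mem' ha hb := by simpa using add_mem ha hb
  zero_mem' := by simp
  smul_mem' c z hz := by simpa using Submodule.smul_mem _ (C.σ c) hz

/-- the plane of an absolute point -/
def Pl (e : V) : Submodule F V where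
  carrier := {z | C.μ e z = 0 ∧ C.μ z e = 0}
  add_mem' ha hb := by simp [ha.1, ha.2, hb.1, hb.2]
  zero_mem' := by simp
  smul_mem' c z hz := by simp [hz.1, hz.2]

variable {C} {e f w y z a : V}

theorem mem_F0 : z ∈ C.F0 e ↔ ∃ c : F, C.μ e z = c • e :=
  Submodule.mem_span_singleton.trans (exists_congr fun _ => eq_comm)

theorem mem_Pl : z ∈ C.Pl e ↔ C.μ e z = 0 ∧ C.μ z e = 0 := Iff.rfl

theorem decL (h : polar Q e y = 1) (z : V) : z = C.μ (C.μ e z) y + C.μ (C.μ y z) e := by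
  rw [C.left₂ e y, h]; simp

theorem decR (h : polar Q e y = 1) (z : V) : z = C.μ e (C.μ z y) + C.μ y (C.μ z e) := by
  rw [C.right₂ e y, h]; simp

namespace Abs

variable (he : C.Abs e)
include he

theorem Q_eq : Q e = 0 := by
  have := C.norm e e
  rw [he.sq, map_zero, eq_comm, mul_eq_zero] at this
  simpa using this

theorem LL (z : V) : C.μ e (C.μ e z) = C.σ (C.σ (polar Q e z)) • e := by rw [C.right₂, he.sq]; simp

theorem RR (z : V) : C.μ (C.μ z e) e = C.σ (polar Q z e) • e := by rw [C.left₂, he.sq]; simp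

theorem LR (z : V) : C.μ (C.μ e z) e = 0 := by rw [C.left, he.Q_eq]; simp

theorem RL (z : V) : C.μ e (C.μ z e) = 0 := by rw [C.right, he.Q_eq]; simp

theorem polar_L (z : V) : polar Q (C.μ e z) e = 0 := by rw [C.cyc', he.sq]; simp

theorem polar_R (z : V) : polar Q (C.μ z e) e = 0 := by rw [C.cyc, he.sq]; simp

theorem smul {c : F} (hc : c ≠ 0) : C.Abs (c • e) := ⟨smul_ne_zero hc he.ne, by simp [he.sq]⟩

theorem mem_F0' : z ∈ C.F0 e ↔ ∃ c : F, C.μ z e = c • e := by
  obtain ⟨y, hy⟩ := C.nondeg.exists_polar_eq_one he.ne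
  rw [mem_F0]
  constructor <;> rintro ⟨c, hc⟩
  · rw [decL (C := C) hy z, hc]
    exact ⟨_, by rw [map_add, AddMonoidHom.add_apply, he.RR, smul_l, smul_l, he.LR, smul_zero, zero_add]⟩
  · rw [decR (C := C) hy z, hc]
    exact ⟨_, by rw [map_add, he.LL, smul_r, smul_r, he.RL, smul_zero, add_zero]⟩

theorem perp_of_F0 (hz : z ∈ C.F0 e) : polar Q e z = 0 := by
  obtain ⟨c, hc⟩ := mem_F0.mp hz
  have := he.LL z
  rw [hc, smul_r, he.sq, smul_zero, eq_comm, smul_eq_zero] at this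
  simpa [he.ne] using this

theorem self_mem_Pl : e ∈ C.Pl e := ⟨he.sq, he.sq⟩

omit he in
theorem Pl_le_F0 : C.Pl e ≤ C.F0 e := fun _ h => mem_F0.mpr ⟨0, by simp [h.1]⟩

theorem L_mem_Pl (hz : polar Q e z = 0) : C.μ e z ∈ C.Pl e := ⟨by simp [he.LL, hz], he.LR z⟩

theorem R_mem_Pl (hz : polar Q e z = 0) : C.μ z e ∈ C.Pl e := ⟨he.RL z, by simp [he.RR, polar_comm Q z, hz]⟩

theorem polar_Pl_F0 (ha : a ∈ C.Pl e) (hz : z ∈ C.F0 e) : polar Q a z = 0 := by
  obtain ⟨y, hy⟩ := C.nondeg.exists_polar_eq_one he.ne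
  obtain ⟨c, hc⟩ := mem_F0.mp hz
  rw [decL (C := C) hy z, hc, polar_comm, polar_add_left, smul_l, polar_smul_left, C.cyc' e, ha.2, C.cyc _ e, ha.1]
  simp

theorem Q_Pl (ha : a ∈ C.Pl e) : Q a = 0 := by
  obtain ⟨y, hy⟩ := C.nondeg.exists_polar_eq_one he.ne
  rw [decL (C := C) hy a, ha.1]
  simp [C.norm, he.Q_eq]

theorem mem_Pl_of_abs (hf : C.Abs f) (h : f ∈ C.F0 e) : f ∈ C.Pl e := by
  obtain ⟨c, hc⟩ := mem_F0.mp h
  obtain ⟨d, hd⟩ := he.mem_F0'.mp h
  have h0 := he.perp_of_F0 h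
  have h1 := C.left₂ e f f
  have h2 := C.right₂ f e f
  rw [hf.sq, hc, h0, smul_l, hc, smul_smul] at h1
  rw [hf.sq, hd, polar_comm, h0, smul_r, hd, smul_smul] at h2
  simp only [map_zero, zero_smul, AddMonoidHom.zero_apply, sub_zero, smul_eq_zero, he.ne, or_false, mul_eq_zero,
    map_eq_zero, or_self] at h1 h2
  exact ⟨by simp [hc, h1], by simp [hd, h2]⟩

/-- the flag of an absolute point -/
def chain : Chain F V where
  fl n := match n with
    | 0 => ⊤
    | 1 => LinearMap.ker (polarBilin Q e)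
    | 2 => C.F0 e
    | 3 => C.Pl e
    | 4 => Submodule.span F {e}
    | _ => ⊥
  top := rfl
  anti n := match n with
    | 0 => le_top
    | 1 => fun _ h => he.perp_of_F0 h
    | 2 => Pl_le_F0
    | 3 => (Submodule.span_singleton_le_iff_mem _ _).mpr he.self_mem_Pl
    | 4 => bot_le
    | _ + 5 => le_rfl
  bot := rfl

theorem mem_T0 {g : OG Q} {D : V → V} (hD : ∀ v, g.1 v = v + D v) (h0 : ∀ v, polar Q e (D v) = 0)
    (h1 : ∀ v, polar Q e v = 0 → D v ∈ C.F0 e) (h2 : ∀ v ∈ C.F0 e, D v ∈ C.Pl e)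
    (h3 : ∀ v ∈ C.Pl e, D v ∈ Submodule.span F {e}) (h4 : D e = 0) : g ∈ he.chain.T Q 0 := fun n v hv => by
  rw [hD, add_sub_cancel_left]
  match n, hv with
  | 0, _ => exact h0 v
  | 1, hv => exact h1 v hv
  | 2, hv => exact h2 v hv
  | 3, hv => exact h3 v hv
  | 4, hv =>
    obtain ⟨c, rfl⟩ := Submodule.mem_span_singleton.mp hv
    have := hD (c • e)
    rw [map_smul, hD, h4, add_zero, left_eq_add] at this
    exact this
  | _ + 5, hv =>
    obtain rfl : v = 0 := hv
    have := hD 0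
    rw [map_zero, zero_add] at this
    exact this.symm

theorem eich_mem (hw : polar Q e w = 0) : eich Q e w ∈ he.chain.T Q 0 := by
  have k : ∀ v, polar Q e v = 0 → polar Q v e • w - (polar Q v w + Q w * polar Q v e) • e ∈ Submodule.span F {e} :=
    fun v hv => by
      rw [polar_comm, hv, zero_smul, zero_sub]
      exact neg_mem (Submodule.smul_mem _ _ (Submodule.mem_span_singleton_self e))
  refine he.mem_T0 (D := fun v => polar Q v e • w - (polar Q v w + Q w * polar Q v e) • e)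
    (fun v => by rw [eich_apply he.Q_eq hw, add_sub_assoc]) (fun v => by simp [hw, polar_self', he.Q_eq])
    (fun v hv => he.chain.le (m := 2) (n := 4) (by norm_num) (k v hv))
    (fun v hv => he.chain.le (m := 3) (n := 4) (by norm_num) (k v (he.perp_of_F0 hv)))
    (fun v hv => k v (he.perp_of_F0 (Pl_le_F0 hv))) (by simp [hw, polar_self', he.Q_eq])

theorem eichR_mem (hw : polar Q e w = 0) : C.eichR he.Q_eq hw ∈ he.chain.T Q 0 :=
  he.mem_T0 (C.eichR_apply he.Q_eq hw) (fun v => by rw [polar_comm, C.cyc', he.LL]; simp [hw])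
    (fun v _ => mem_F0.mpr ⟨0, by rw [C.right₂, he.LR, hw]; simp⟩)
    (fun v hv => by
      obtain ⟨c, hc⟩ := mem_F0.mp hv
      rw [hc, smul_l]
      exact Submodule.smul_mem _ _ (he.L_mem_Pl hw))
    (fun v hv => by simp [hv.1]) (by simp [he.sq])

theorem eichL_mem (hw : polar Q e w = 0) : C.eichL he.Q_eq hw ∈ he.chain.T Q 0 :=
  he.mem_T0 (C.eichL_apply he.Q_eq hw) (fun v => by rw [polar_comm, C.cyc, he.RR]; simp [hw])
    (fun v _ => he.mem_F0'.mpr ⟨0, by rw [C.left₂, he.RL, polar_comm, hw]; simp⟩)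
    (fun v hv => by
      obtain ⟨c, hc⟩ := he.mem_F0'.mp hv
      rw [hc, smul_r]
      exact Submodule.smul_mem _ _ (he.R_mem_Pl hw))
    (fun v hv => by simp [hv.2]) (by simp [he.sq])

theorem exists_opp (h3 : (3 : F) ≠ 0) : ∃ f, C.Abs f ∧ polar Q e f = 1 := by
  obtain ⟨y, hy⟩ := C.nondeg.exists_polar_eq_one he.ne
  obtain ⟨p, hp⟩ : ∃ p, p = C.μ e y := ⟨_, rfl⟩
  have a1 : C.μ e p = e := by simp [hp, he.LL, hy]
  have a2 : C.μ p e = 0 := by rw [hp, he.LR]
  have a3 : Q p = 0 := by simp [hp, C.norm, he.Q_eq]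
  have a4 : polar Q p e = 0 := by rw [hp, he.polar_L]
  obtain ⟨q, hq⟩ : ∃ q, q = -C.μ p p := ⟨_, rfl⟩
  have b1 : C.μ q e = e := by simp [hq, C.left₂ p e p, a1, a4]
  have b2 : polar Q p q = 1 := by rw [hp, C.cyc', b1, hy, map_one]
  have b3 : C.μ p q = 0 := by simp [hq, C.right, a3]
  have b4 : C.μ q p = 0 := by simp [hq, C.left, a3]
  have b5 : C.μ q q = -p := by
    have := C.moufang p p p
    rw [← neg_neg (C.μ p p), ← hq, a3, polar_neg_left, polar_comm, b2] at this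
    simpa using this
  have b6 : polar Q q e = 0 := by rw [hq, polar_neg_left, C.cyc, a2]; simp
  have c1 : ∀ z, C.μ z p = 0 → C.μ q (C.μ p z) = 0 := fun z h => by
    rw [C.right₂, b3, hq, polar_neg_left, C.cyc', h]; simp
  have c2 : ∀ z, C.μ q z = 0 → C.μ p (C.μ p z) = C.μ z q := fun z h => by
    rw [C.right₂, ← neg_neg p, ← b5, polar_neg_left, C.cyc, h, b5, neg_neg, hq]; simp
  have c3 : ∀ z, C.μ z p = 0 → C.μ p (C.μ z q) = z := fun z h => by
    rw [C.right₂, b2, h]; simp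
  have c4 : ∀ z, C.μ (C.μ p z) p = 0 := fun z => by simp [C.left, a3]
  have c5 : ∀ z, polar Q e (C.μ p z) = C.σ (polar Q e z) := fun z => by rw [polar_comm, C.cyc', a1]
  obtain ⟨z, z1, z2, z3⟩ : ∃ z, C.μ z p = 0 ∧ C.μ q z = 0 ∧ polar Q e z = 1 := by
    refine ⟨C.μ p (C.μ y q) + C.σ (polar Q q (C.μ y q)) • q, by simp [c4, b4], ?_, ?_⟩
    · rw [map_add, C.right₂, b3, smul_r, b5]; simp
    · rw [polar_add_right, c5, polar_comm, C.cyc, b1, hy, polar_smul_right, polar_comm Q e, b6]; simp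
  have d1 : C.σ (3⁻¹ : F) = 3⁻¹ := by rw [map_inv₀, map_ofNat]
  obtain ⟨f, hf⟩ : ∃ f, f = (3⁻¹ : F) • (z + C.μ p z + C.μ p (C.μ p z)) := ⟨_, rfl⟩
  have f1 : C.μ p f = f := by
    rw [hf, smul_r, d1, map_add, map_add, c2 z z2, c3 z z1]
    congr 1; abel
  have f2 : C.μ f q = f := by rw [← c2 f (by simp [hf, z2, c1, z1, c4]), f1, f1]
  have f3 : polar Q e f = 1 := by
    rw [hf, polar_smul_right, polar_add_right, polar_add_right, c5, c5, c5, z3, map_one, map_one, smul_eq_mul,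
      show (1 : F) + 1 + 1 = 3 by norm_num, inv_mul_cancel₀ h3]
  refine ⟨f, ⟨by rintro rfl; simp at f3, ?_⟩, f3⟩
  have := C.moufang f q p
  rw [f1, f2, b4] at this
  simpa using this

theorem map {s : Semi Q} (hs : C.Rel3 s s s) : C.Abs (s.e e) := by
  obtain ⟨l, -, h⟩ := hs.ex
  exact ⟨mt (s.e_eq_zero_iff e).mp he.ne, by rw [h, he.sq]; simp⟩

theorem map_mem_fl (hf : C.Abs f) {s : Semi Q} (hs : C.Rel3 s s s) {c : F} (h : s.e e = c • f) {n : ℕ} {v : V}
    (hv : v ∈ he.chain.fl n) : s.e v ∈ hf.chain.fl n := by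
  obtain ⟨l, -, hl⟩ := hs.ex
  have hc : c ≠ 0 := by rintro rfl; exact he.ne ((s.e_eq_zero_iff e).mp (by simpa using h))
  match n, hv with
  | 0, _ => trivial
  | 1, hv =>
    have := (s.polar_eq_zero_iff e v).mpr hv
    rw [h, polar_smul_left, smul_eq_zero] at this
    exact this.resolve_left hc
  | 2, hv =>
    obtain ⟨d, hd⟩ := mem_F0.mp hv
    have := hl e v
    rw [hd, s.map_smul, h, smul_l, smul_smul, smul_smul, ← eq_inv_smul_iff₀ (by simpa), smul_smul] at this
    exact mem_F0.mpr ⟨_, this⟩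
  | 3, hv =>
    have h1 := hl e v
    have h2 := hl v e
    rw [hv.1, h] at h1
    rw [hv.2, h] at h2
    exact ⟨by simpa [hc] using h1, by simpa [hc] using h2⟩
  | 4, hv =>
    obtain ⟨d, rfl⟩ := Submodule.mem_span_singleton.mp hv
    rw [s.map_smul, h, smul_smul]
    exact Submodule.smul_mem _ _ (Submodule.mem_span_singleton_self f)
  | _ + 5, hv =>
    obtain rfl : v = 0 := hv
    exact map_zero _

theorem cj_mem_T (hf : C.Abs f) {s : Semi Q} (hs : C.Rel3 s s s) {c : F} (h : s.e e = c • f) {g : OG Q}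
    (hg : g ∈ he.chain.T Q 0) : Semi.cj Q s g ∈ hf.chain.T Q 0 := fun n v hv => by
  have hc : c ≠ 0 := by rintro rfl; exact he.ne ((s.e_eq_zero_iff e).mp (by simpa using h))
  have h1 : s⁻¹.e f = s⁻¹.σ c⁻¹ • e := by
    rw [← s.inv_e_e e, ← Semi.map_smul, h, inv_smul_smul₀ hc]
  have := he.map_mem_fl hf hs h (hg n _ (hf.map_mem_fl he hs.inv h1 hv))
  rwa [map_sub, Semi.e_inv_e] at this

end Abs

end Cyc

end Cfsg.Agent.Lib.Forms
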