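import Cfsg.Agent.Lib.Forms.Cyc2
import Cfsg.Agent.Lib.Core.Coprime

/-!
# Local balance for trialities: an Iwasawa argument with absolute points
-/

set_option autoImplicit false
set_option linter.unusedSectionVars false
set_option maxHeartbeats 400000

namespace Cfsg.Agent.Lib.Forms

open Module QuadraticMap

variable {F V : Type*} [Field F] [AddCommGroup V] [Module F V] {Q : QuadraticForm F V} [FiniteDimensional F V]

/-- the stabiliser of a projective point -/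
def lineStab (Q : QuadraticForm F V) (v : V) : Subgroup (Semi Q) where
  carrier := {s | ∃ c : F, c ≠ 0 ∧ s.e v = c • v}
  one_mem' := ⟨1, one_ne_zero, by simp⟩
  mul_mem' := by
    rintro s t ⟨c, hc, h⟩ ⟨d, hd, k⟩
    exact ⟨s.σ d * c, mul_ne_zero ((map_ne_zero _).mpr hd) hc, by rw [Semi.mul_e, k, s.map_smul, h, smul_smul]⟩
  inv_mem' := by
    rintro s ⟨c, hc, h⟩
    refine ⟨s⁻¹.σ c⁻¹, (map_ne_zero _).mpr (inv_ne_zero hc), ?_⟩
    conv_rhs => rw [← s.inv_e_e v, ← Semi.map_smul, h, inv_smul_smul₀ hc]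

theorem comm_pow_mem {X : Type*} [Group X] {N : Subgroup X} {x g : X} (hx : x ∈ Subgroup.normalizer (N : Set X))
    (h : x⁻¹ * (g⁻¹ * x * g) ∈ N) (k : ℕ) : (x ^ k)⁻¹ * (g⁻¹ * x ^ k * g) ∈ N := by
  induction k with
  | zero => simp
  | succ k ih =>
    convert mul_mem ((Subgroup.mem_normalizer_iff.mp (inv_mem hx) _).mp ih) h using 1
    simp only [pow_succ]
    group

namespace Cyc

variable {X : Type*} [Group X] [Finite X]

/-- the hypotheses of the balance theorem for a triality -/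
structure Ctx (C : Cyc Q) (Φ : Semi Q →* X) (I : Subgroup X) (x : X) (M : Subgroup X) : Prop where
  ker : ∀ s, Φ s = 1 ↔ ∃ a, s = Semi.scal Q a
  nrm : I.Normal
  eich_mem : ∀ e w, Q e = 0 → polar Q e w = 0 → Φ (Semi.ofOG Q (eich Q e w)) ∈ I
  cube : x ^ 3 = 1
  rel : ∀ s₁ s₂ s₃, C.Rel3 s₁ s₂ s₃ → x * Φ s₁ * x⁻¹ = Φ s₂
  nd : ¬ 3 ∣ Nat.card M
  lift : ∀ y ∈ M, ∃ s, C.Rel3 s s s ∧ y = Φ s
  norm : ∀ z ∈ I, Commute z x → ∀ y ∈ M, z * y * z⁻¹ ∈ M

variable {C : Cyc Q} {Φ : Semi Q →* X} {I M : Subgroup X} {x : X} {e f w : V} {s : Semi Q}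

/-- the unipotent group of an absolute point -/
def Abs.UE (he : C.Abs e) (Φ : Semi Q →* X) (I : Subgroup X) (x : X) : Subgroup X :=
  (he.chain.T Q 0).map (Φ.comp (Semi.ofOG Q)) ⊓ I ⊓ Subgroup.centralizer {x}

/-- related triples of isometries moving the flag two steps down -/
def Abs.Tri (he : C.Abs e) : Subgroup (OG Q × OG Q × OG Q) where
  carrier := {t | C.Rel3 (Semi.ofOG Q t.1) (Semi.ofOG Q t.2.1) (Semi.ofOG Q t.2.2) ∧ t.1 ∈ he.chain.T Q 1 ∧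
    t.2.1 ∈ he.chain.T Q 1 ∧ t.2.2 ∈ he.chain.T Q 1}
  one_mem' := ⟨by simpa using Rel3.one, one_mem _, one_mem _, one_mem _⟩
  mul_mem' ha hb := ⟨by simpa using ha.1.mul hb.1, mul_mem ha.2.1 hb.2.1, mul_mem ha.2.2.1 hb.2.2.1,
    mul_mem ha.2.2.2 hb.2.2.2⟩
  inv_mem' ha := ⟨by simpa using ha.1.inv, inv_mem ha.2.1, inv_mem ha.2.2.1, inv_mem ha.2.2.2⟩

theorem Abs.layer (he : C.Abs e) (hf : C.Abs f) (hef : polar Q e f = 1) :
    C.eichR he.Q_eq (w := C.μ e f) (by rw [polar_comm, he.polar_L]) = eich Q e (-C.μ f e) := OG.ext' fun z => by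
  rw [eichR_apply, eich_apply he.Q_eq (by rw [polar_neg_right, polar_comm, he.polar_R, neg_zero]), C.right₂ _ f e,
    he.LL, C.cyc' e z f, Q_neg, C.norm, he.Q_eq, polar_comm Q z e, polar_neg_right, polar_comm Q z]
  simp only [σ3, smul_r, map_zero, mul_zero, zero_mul, add_zero]
  module

theorem Abs.LR_mem_F0 (he : C.Abs e) (hw : polar Q e w = 0) (v : V) : C.μ (C.μ e v) w ∈ C.F0 e :=
  mem_F0.mpr ⟨0, by rw [C.right₂, he.LR, hw]; simp⟩

theorem Abs.RL_mem_F0 (he : C.Abs e) (hw : polar Q e w = 0) (v : V) : C.μ w (C.μ v e) ∈ C.F0 e :=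
  he.mem_F0'.mpr ⟨0, by rw [C.left₂, he.RL, polar_comm, hw]; simp⟩

namespace Ctx

variable (H : Ctx C Φ I x M) {r : ℕ} [Fact r.Prime] [CharP F r] (hr : 3 ≠ r)
include H

theorem eq_scal_mul {s t : Semi Q} (h : Φ s = Φ t) : ∃ a, s = Semi.scal Q a * t := by
  obtain ⟨a, ha⟩ := (H.ker (s * t⁻¹)).mp (by rw [map_mul, map_inv, h, mul_inv_cancel])
  exact ⟨a, by rw [← ha, inv_mul_cancel_right]⟩

theorem rel3_self {s₁ s₂ s₃ : Semi Q} (h : C.Rel3 s₁ s₂ s₃) (hc : Commute (Φ s₁) x) : C.Rel3 s₁ s₁ s₁ := by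
  have k : x * Φ s₁ * x⁻¹ = Φ s₁ := by rw [← hc.eq, mul_inv_cancel_right]
  have h2 := k.symm.trans (H.rel _ _ _ h)
  have h3 := H.rel _ _ _ h.cyc
  rw [← h2, k] at h3
  obtain ⟨a, ha⟩ := H.eq_scal_mul h2
  obtain ⟨b, hb⟩ := H.eq_scal_mul h3
  have := (Rel3.scal 1 a b).mul h
  rwa [← ha, ← hb, map_one, one_mul] at this

theorem commute_of_rel3 (h : C.Rel3 s s s) : Commute (Φ s) x := (mul_inv_eq_iff_eq_mul.mp (H.rel _ _ _ h)).symm

omit H in
theorem isPGroup_map (he : C.Abs e) (Φ : Semi Q →* X) :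
    IsPGroup r ((he.chain.T Q 0).map (Φ.comp (Semi.ofOG Q))) :=
  Core.isPGroup_of_forall_pow (by
    rintro _ ⟨g, hg, rfl⟩
    exact ⟨3, by rw [← map_pow, Chain.pow_eq_one hg, map_one]⟩)

include hr in
theorem no_three (he : C.Abs e) (hs : Φ s ∈ he.UE Φ I x ⊔ M) {v : V} (h3 : s ^ 3 ∈ lineStab Q v) :
    s ∈ lineStab Q v := by
  have := Fact.mk Nat.prime_three
  have h1 : ¬ 3 ∣ Nat.card ↥(he.UE Φ I x ⊔ M) := Core.not_dvd_card_sup (Core.not_dvd_card_of_isPGroup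
    ((isPGroup_map (r := r) he Φ).to_le (inf_le_left.trans inf_le_left)) hr) H.nd fun z hz =>
      Core.mem_normalizer_of_conj_mem (H.norm z hz.1.2 (Subgroup.mem_centralizer_singleton_iff.mp hz.2))
  obtain ⟨m, hm⟩ := exists_pow_eq_self_of_coprime (x := Φ s) (n := 3) ((Nat.Prime.coprime_iff_not_dvd
    Nat.prime_three).mpr fun h => h1 (h.trans (Subgroup.orderOf_dvd_natCard _ hs)))
  rw [← map_pow, ← map_pow] at hm
  obtain ⟨a, ha⟩ := H.eq_scal_mul hm.symm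
  rw [ha]
  exact mul_mem ⟨a, a.ne_zero, rfl⟩ (pow_mem h3 m)

theorem UE_le (he : C.Abs e) (hf : C.Abs f) (hs : C.Rel3 s s s) (hM : Φ s ∈ M) {c : F} (h : s⁻¹.e f = c • e) :
    hf.UE Φ I x ≤ he.UE Φ I x ⊔ M := by
  rintro _ ⟨⟨⟨g, hg, rfl⟩, h1⟩, h2⟩
  have h3 : (Φ s)⁻¹ * Φ (Semi.ofOG Q g) * (Φ s)⁻¹⁻¹ ∈ he.UE Φ I x :=
    ⟨⟨⟨_, hf.cj_mem_T he hs.inv h hg, by simp only [MonoidHom.comp_apply, Semi.ofOG_cj, map_mul Φ, map_inv Φ]⟩,
      H.nrm.conj_mem _ h1 _⟩,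
      Subgroup.mem_centralizer_singleton_iff.mpr (((H.commute_of_rel3 hs).inv_left.mul_left
        (Subgroup.mem_centralizer_singleton_iff.mp h2)).mul_left (H.commute_of_rel3 hs).inv_left.inv_left)⟩
  have := mul_mem (mul_mem (Subgroup.mem_sup_right hM) (Subgroup.mem_sup_left h3))
    (inv_mem (Subgroup.mem_sup_right hM))
  simpa [mul_assoc] using this

theorem mem_I (he : C.Abs e) (hw : polar Q e w = 0) :
    Φ (Semi.ofOG Q (eich Q e w * C.eichR he.Q_eq hw * C.eichL he.Q_eq hw)) ∈ I := by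
  have R := C.rel3_eich he.Q_eq hw
  have h1 := H.eich_mem e w he.Q_eq hw
  have h2 := H.nrm.conj_mem _ h1 x
  rw [H.rel _ _ _ R.cyc.cyc] at h2
  have h3 := H.nrm.conj_mem _ h2 x
  rw [H.rel _ _ _ R] at h3
  simpa using mul_mem (mul_mem h1 h2) h3

theorem layer2 (he : C.Abs e) (hf : C.Abs f) (hef : polar Q e f = 1) : ∃ g : OG Q, Φ (Semi.ofOG Q g) ∈ he.UE Φ I x ∧
    g.1 e = e ∧ g.1 f = f + (C.μ e f - C.μ f e) + e ∧ g.1 (C.μ e f - C.μ f e) = C.μ e f - C.μ f e + (2 : F) • e := by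
  have hw : polar Q e (C.μ e f) = 0 := by rw [polar_comm, he.polar_L]
  have hw' : polar Q e (-C.μ f e) = 0 := by rw [polar_neg_right, polar_comm, he.polar_R, neg_zero]
  have hh : polar Q e (C.μ e f - C.μ f e) = 0 := by rw [sub_eq_add_neg, polar_add_right, hw, hw', add_zero]
  have R := C.rel3_eich he.Q_eq hw
  have e1 : eich Q e (C.μ e f) * C.eichR he.Q_eq hw = eich Q e (C.μ e f - C.μ f e) := by
    rw [he.layer hf hef, eich_mul he.Q_eq hw hw', sub_eq_add_neg]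
  have c1 : Commute (Φ (Semi.ofOG Q (eich Q e (C.μ e f)))) (Φ (Semi.ofOG Q (C.eichR he.Q_eq hw))) := by
    refine (Commute.map ?_ _).map _
    rw [commute_iff_eq, he.layer hf hef, eich_mul he.Q_eq hw hw', eich_mul he.Q_eq hw' hw, add_comm]
  have c2 := (c1.map (MulAut.conj x)).map (MulAut.conj x)
  simp only [MulAut.conj_apply, H.rel _ _ _ R, H.rel _ _ _ R.cyc, H.rel _ _ _ R.cyc.cyc] at c2
  have hfe : polar Q f e = 1 := by rwa [polar_comm]
  have q1 : Q (C.μ e f - C.μ f e) = -1 := by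
    rw [Q_sub, C.norm, C.norm, he.Q_eq, C.cyc, hf.LL, hfe]; simp [hfe]
  refine ⟨_, ⟨⟨⟨_, mul_mem (mul_mem (he.eich_mem hw) (he.eichR_mem hw)) (he.eichL_mem hw), rfl⟩, H.mem_I he hw⟩,
    Subgroup.mem_centralizer_singleton_iff.mpr (mul_inv_eq_iff_eq_mul.mp ?_).symm⟩, ?_, ?_, ?_⟩
  · rw [H.rel _ _ _ (by simpa using (R.cyc.cyc.mul R).mul R.cyc : C.Rel3 (Semi.ofOG Q _) _ _)]
    simp only [map_mul]
    rw [c1.eq, mul_assoc, mul_assoc, c2.eq]
  · rw [e1, OG.mul_apply, eichL_apply, he.sq, map_zero, add_zero, eich_apply_self he.Q_eq hh]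
  · rw [e1, OG.mul_apply, eichL_apply, C.moufang, he.sq, eich_apply he.Q_eq hh, q1]
    simp [hfe, polar_comm Q f, hf.polar_L, hf.polar_R, hef]
  · rw [e1, OG.mul_apply, eichL_apply, map_sub, AddMonoidHom.sub_apply, he.LR, he.RR, hfe, map_one, one_smul,
      zero_sub, map_neg, he.LR, neg_zero, add_zero, eich_apply_of_perp he.Q_eq hh (by rw [polar_comm, hh]),
      polar_self', q1]
    module

include hr in
theorem exists_u (he : C.Abs e) (hw : polar Q e w = 0) : ∃ g : OG Q, Φ (Semi.ofOG Q g) ∈ he.UE Φ I x ∧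
    C.Rel3 (Semi.ofOG Q g) (Semi.ofOG Q g) (Semi.ofOG Q g) ∧ g.1 e = e ∧ ∀ n, ∀ v ∈ he.chain.fl n,
      g.1 v - v - ((eich Q e w).1 v - v + C.μ (C.μ e v) w + C.μ w (C.μ v e)) ∈ he.chain.fl (n + 2) := by
  have := Fact.mk Nat.prime_three
  have := H.nrm
  have R := C.rel3_eich he.Q_eq hw
  have tE := he.eich_mem hw
  have tR := he.eichR_mem hw
  have tL := he.eichL_mem hw
  have hI := H.mem_I he hw
  have dR := C.eichR_apply he.Q_eq hw
  have dL := C.eichL_apply he.Q_eq hw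
  generalize eich Q e w = aE at *
  generalize C.eichR he.Q_eq hw = aR at *
  generalize C.eichL he.Q_eq hw = aL at *
  have R3 : C.Rel3 (Semi.ofOG Q (aE * aR * aL)) (Semi.ofOG Q (aR * aL * aE)) (Semi.ofOG Q (aL * aE * aR)) := by
    simpa using (R.cyc.cyc.mul R).mul R.cyc
  let N : Subgroup X := he.Tri.map ((Φ.comp (Semi.ofOG Q)).comp (MonoidHom.fst _ _)) ⊓ I
  have hN : IsPGroup r N := (isPGroup_map he Φ).to_le (by
    rintro _ ⟨⟨t, ht, rfl⟩, -⟩
    exact ⟨t.1, Chain.T_le ht.2.1, rfl⟩)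
  have hxN : x ∈ Subgroup.normalizer (N : Set X) := Core.mem_normalizer_of_conj_mem (by
    rintro _ ⟨⟨t, ht, rfl⟩, h2⟩
    exact ⟨⟨(t.2.1, t.2.2, t.1), ⟨ht.1.cyc, ht.2.2.1, ht.2.2.2, ht.2.1⟩, (H.rel _ _ _ ht.1).symm⟩,
      H.nrm.conj_mem _ h2 x⟩)
  have b1 : x⁻¹ * ((Φ (Semi.ofOG Q (aE * aR * aL)))⁻¹ * x * Φ (Semi.ofOG Q (aE * aR * aL))) ∈ N := by
    refine ⟨⟨((aL * aE * aR)⁻¹ * (aE * aR * aL), (aE * aR * aL)⁻¹ * (aR * aL * aE), (aR * aL * aE)⁻¹ * (aL * aE * aR)),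
      ⟨by simpa only [map_mul, map_inv] using R3.cyc.cyc.inv.mul R3, ?_, ?_, ?_⟩, ?_⟩, ?_⟩
    · simpa only [mul_assoc] using Chain.comm_mem (mul_mem tE tR) tL
    · simpa only [mul_assoc] using Chain.comm_mem (mul_mem tR tL) tE
    · simpa only [mul_assoc] using Chain.comm_mem (mul_mem tL tE) tR
    · change Φ (Semi.ofOG Q (_ * _)) = _
      rw [← H.rel _ _ _ R3.cyc.cyc, map_mul, map_mul, map_inv, map_inv, ← H.rel _ _ _ R3.cyc.cyc]
      group
    · have := mul_mem (H.nrm.conj_mem _ (inv_mem hI) x⁻¹) hI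
      rwa [inv_inv, mul_assoc, mul_assoc, mul_assoc, ← mul_assoc _ x] at this
  obtain ⟨c, hc, n, ⟨⟨t, ht, rfl⟩, hn⟩, hcn⟩ := (Core.coprimeAct_of_isPGroup_left (p := 3)
    (Core.isPGroup_zpowers (k := 1) (by simpa using H.cube)) (Core.not_dvd_card_of_isPGroup hN hr)
    (Subgroup.zpowers_le.mpr hxN)).exists_centralizer_mul (g := Φ (Semi.ofOG Q (aE * aR * aL))) (by
      intro a ha
      obtain ⟨k, rfl⟩ := mem_powers_iff_mem_zpowers.mpr ha
      exact comm_pow_mem hxN b1 k)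
  have e1 : Φ (Semi.ofOG Q (aE * aR * aL * t.1⁻¹)) = c := by
    rw [map_mul, map_mul, hcn, map_inv, map_inv]
    exact mul_inv_cancel_right _ _
  have c1 : Commute c x := (hc x (Subgroup.mem_zpowers x)).symm
  have t1 : t.1⁻¹ ∈ he.chain.T Q 1 := inv_mem ht.2.1
  have t2 := mul_mem (mul_mem (mul_mem tE tR) tL) (Chain.T_le t1)
  refine ⟨aE * aR * aL * t.1⁻¹, ⟨⟨⟨_, t2, rfl⟩, ?_⟩, e1 ▸ Subgroup.mem_centralizer_singleton_iff.mpr c1⟩,
    H.rel3_self (s₂ := _) (s₃ := _) (by simpa only [map_mul, map_inv] using R3.mul ht.1.inv) (e1 ▸ c1),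
    sub_eq_zero.mp (t2 4 e (Submodule.mem_span_singleton_self e)), fun n v hv => ?_⟩
  · rw [map_mul, map_mul, map_inv, map_inv]
    exact mul_mem hI (I.inv_mem hn)
  · have := add_mem (add_mem (add_mem (Chain.mul_sub (mul_mem (mul_mem tE tR) tL) (Chain.T_le t1) hv)
      (Chain.mul_sub (mul_mem tE tR) tL hv)) (Chain.mul_sub tE tR hv)) (t1 n v hv)
    convert this using 1
    rw [dR, dL]
    abel

include hr in
theorem perp_of_mem (he : C.Abs e) (hs : C.Rel3 s s s) (hM : Φ s ∈ M) : polar Q e (s.e e) = 0 := by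
  by_contra h
  have hf := (he.map hs).smul (inv_ne_zero h)
  have hef : polar Q e ((polar Q e (s.e e))⁻¹ • s.e e) = 1 := by simp [h]
  have h1 : s⁻¹.e ((polar Q e (s.e e))⁻¹ • s.e e) = s⁻¹.σ (polar Q e (s.e e))⁻¹ • e := by
    rw [Semi.map_smul, Semi.inv_e_e]
  generalize (polar Q e (s.e e))⁻¹ • s.e e = f at hf hef h1
  obtain ⟨g, g1, g2, g3, g4⟩ := H.layer2 he hf hef
  obtain ⟨k, k1, k2, k3, k4⟩ := H.layer2 hf he (by rwa [polar_comm])
  rw [← neg_sub (C.μ e f)] at k3 k4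
  generalize C.μ e f - C.μ f e = h at g3 g4 k3 k4
  rw [map_neg, neg_eq_iff_eq_neg] at k4
  have a1 : (k * g).1 f = e := by rw [OG.mul_apply, g3, map_add, map_add, k2, k3, k4]; module
  have a2 : (k * g).1 e = e - h + f := by rw [OG.mul_apply, g2, k3]; module
  have a3 : (k * g).1 h = (2 : F) • e - h := by rw [OG.mul_apply, g4, map_add, map_smul, k3, k4]; module
  obtain ⟨c, -, hc⟩ := H.no_three hr he (s := Semi.ofOG Q (k * g)) (v := f) (by
    rw [map_mul, map_mul]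
    exact mul_mem (H.UE_le he hf hs hM h1 k1) (Subgroup.mem_sup_left g1)) ⟨1, one_ne_zero, by
      rw [pow_three, Semi.mul_e, Semi.mul_e, Semi.ofOG_e, Semi.ofOG_e, Semi.ofOG_e, a1, a2, map_add, map_sub, a1, a2,
        a3]
      module⟩
  rw [Semi.ofOG_e, a1] at hc
  rw [hc, polar_smul_left, polar_self', hf.Q_eq] at hef
  simp at hef

include hr in
theorem mem_F0_of_mem (he : C.Abs e) (hs : C.Rel3 s s s) (hM : Φ s ∈ M) : s.e e ∈ C.F0 e := by
  by_contra h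
  have h0 := H.perp_of_mem hr he hs hM
  have hf := he.map hs
  obtain ⟨l, l1, l2, l3⟩ := IsWittForm.exists_dual_ne_zero_two (Submodule.span F {e}) (u := C.μ e (s.e e)) h
    (u' := C.μ (s.e e) e) fun k => h (he.mem_F0'.mpr ((Submodule.mem_span_singleton.mp k).imp fun _ => Eq.symm))
  obtain ⟨w, hw⟩ := C.nondeg.repr l
  have hw0 : polar Q e w = 0 := (hw e).trans (l1 e (Submodule.mem_span_singleton_self e))
  obtain ⟨g, g1, g2, g3, g4⟩ := H.exists_u hr he hw0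
  have k1 := H.perp_of_mem hr hf ((g2.mul hs).mul g2.inv |>.mul hs.inv) (by
    simp only [map_mul, map_inv]
    exact mul_mem (H.norm _ g1.1.2 (Subgroup.mem_centralizer_singleton_iff.mp g1.2) _ hM) (inv_mem hM))
  have k2 : (Semi.ofOG Q g)⁻¹.e e = e := by
    conv_lhs => rw [← g3]
    exact Semi.inv_e_e (Semi.ofOG Q g) e
  rw [Semi.mul_e, Semi.inv_e_e, Semi.mul_e, k2, Semi.mul_e, Semi.ofOG_e] at k1
  generalize s.e e = f at *
  have k3 : g.1 f - f - (C.μ (C.μ e f) w + C.μ w (C.μ f e)) ∈ C.Pl e := by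
    have : _ ∈ C.Pl e := add_mem (g4 1 f h0) (he.chain.le (by norm_num : 3 ≤ 4) (?_ : (eich Q e w).1 f - f ∈ Submodule.span F {e}))
    · convert this using 1; abel
    · rw [eich_apply_of_perp he.Q_eq hw0 (by rwa [polar_comm]), sub_sub_cancel_left]
      exact neg_mem (Submodule.smul_mem _ _ (Submodule.mem_span_singleton_self e))
  have k4 : C.μ (C.μ e f) w + C.μ w (C.μ f e) ∈ C.F0 e :=
    add_mem (he.LR_mem_F0 hw0 f) (he.RL_mem_F0 hw0 f)
  have k5 : Q (g.1 f - f) = 0 := by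
    have := polar_sub_self g f
    rw [polar_sub_right, k1, polar_self', hf.Q_eq] at this
    simpa using this
  rw [← sub_add_cancel (g.1 f - f) (C.μ (C.μ e f) w + C.μ w (C.μ f e)), Q_add, he.Q_Pl k3, he.polar_Pl_F0 k3 k4, Q_add,
    C.norm (C.μ e f), C.norm w, he.Q_Pl (he.L_mem_Pl h0), he.Q_Pl (he.R_mem_Pl h0), polar_comm, C.cyc, C.right₂, C.moufang, he.sq,
    hf.Q_eq, hw, hw] at k5
  simp [l2, l3] at k5

include hr in
theorem exists_shift (he : C.Abs e) (hf : f ∈ C.Pl e) (h : ∀ c : F, f ≠ c • e) (c : F) :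
    ∃ g : OG Q, Φ (Semi.ofOG Q g) ∈ he.UE Φ I x ∧ g.1 e = e ∧ g.1 f = f + c • e := by
  obtain ⟨w, h1, h2⟩ := C.nondeg.exists_perp (Submodule.span F {e}) (u := f) fun k => by
    obtain ⟨c, rfl⟩ := Submodule.mem_span_singleton.mp k
    exact h c rfl
  have hw : polar Q e (-c • w) = 0 := by simp [h1 e (Submodule.mem_span_singleton_self e)]
  obtain ⟨g, g1, -, g3, g4⟩ := H.exists_u hr he hw
  have : _ = _ := g4 3 f hf
  rw [eich_apply_of_perp he.Q_eq hw (by rw [polar_comm]; exact he.perp_of_F0 (Abs.Pl_le_F0 hf)), hf.1, hf.2] at this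
  exact ⟨g, g1, g3, by simpa [h2, sub_eq_zero, sub_eq_iff_eq_add'] using this⟩

include hr in
theorem mem_lineStab (he : C.Abs e) (hs : C.Rel3 s s s) (hM : Φ s ∈ M) : s ∈ lineStab Q e := by
  have hf := he.map hs
  suffices ∃ c : F, s.e e = c • e by
    obtain ⟨c, hc⟩ := this
    exact ⟨c, by rintro rfl; exact hf.ne (by simpa using hc), hc⟩
  by_contra h
  push Not at h
  have h0 := he.mem_Pl_of_abs hf (H.mem_F0_of_mem hr he hs hM)
  have h1 : s⁻¹.e (s.e e) = (1 : F) • e := by simp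
  generalize s.e e = f at *
  have h2 : ∀ c : F, e ≠ c • f := fun c hc => by
    have : c ≠ 0 := by rintro rfl; exact he.ne (by simpa using hc)
    exact h c⁻¹ (by rw [hc, inv_smul_smul₀ this])
  obtain ⟨g, g1, g2, g3⟩ := H.exists_shift hr he h0 h 1
  obtain ⟨k, k1, k2, k3⟩ := H.exists_shift hr hf ⟨h0.2, h0.1⟩ h2 (-1)
  have a1 : (k * g).1 f = e := by rw [OG.mul_apply, g3, map_add, map_smul, k2, k3]; module
  have a2 : (k * g).1 e = e - f := by rw [OG.mul_apply, g2, k3]; module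
  obtain ⟨c, -, hc⟩ := H.no_three hr he (s := Semi.ofOG Q (k * g)) (v := f) (by
    rw [map_mul, map_mul]
    exact mul_mem (H.UE_le he hf hs hM h1 k1) (Subgroup.mem_sup_left g1)) ⟨-1, by simp, by
      rw [pow_three, Semi.mul_e, Semi.mul_e, Semi.ofOG_e, Semi.ofOG_e, Semi.ofOG_e, a1, a2, map_sub, a1, a2]
      module⟩
  rw [Semi.ofOG_e, a1] at hc
  exact h2 c hc

include hr in
theorem sub_mem_F0 (he : C.Abs e) (hf : C.Abs f) (hef : polar Q e f = 1) (hs : C.Rel3 s s s) (hM : Φ s ∈ M)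
    {c : F} (hc : s.e f = c • f) (hw : polar Q e w = 0) : s.e w - c • w ∈ C.F0 e := by
  obtain ⟨a, -, ha⟩ := H.mem_lineStab hr he hs hM
  obtain ⟨g, -, g2, -, g4⟩ := H.exists_u hr he hw
  obtain ⟨b, -, hb⟩ := H.mem_lineStab hr (hf.map g2) hs hM
  obtain ⟨z, hz, h1⟩ : ∃ z ∈ C.F0 e, g.1 f = f + w + z := by
    have k1 : (polar Q f w + Q w) • e ∈ C.F0 e := Submodule.smul_mem _ _ (Abs.Pl_le_F0 he.self_mem_Pl)
    refine ⟨_, sub_mem (add_mem (add_mem (g4 0 f trivial) (he.LR_mem_F0 hw f)) (he.RL_mem_F0 hw f)) k1, ?_⟩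
    rw [eich_apply he.Q_eq hw, polar_comm Q f e, hef]
    module
  have h2 : s.e z ∈ C.F0 e := he.map_mem_fl he hs ha (n := 2) hz
  have h3 : polar Q e (s.e w) = 0 := he.map_mem_fl he hs ha (n := 1) hw
  rw [Semi.ofOG_e, h1, map_add, map_add, hc] at hb
  have h4 := congrArg (polar Q e) hb
  simp only [polar_add_right, polar_smul_right, hef, h3, hw, he.perp_of_F0 hz, he.perp_of_F0 h2, add_zero,
    smul_eq_mul, mul_one] at h4
  subst h4
  convert sub_mem (Submodule.smul_mem _ c hz) h2 using 1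
  linear_combination (norm := module) hb

omit H in
theorem _root_.Cfsg.Agent.Lib.Forms.Cyc.Abs.eq_zero (he : C.Abs e) {d : V} (hef : polar Q e f = 1)
    (h1 : d ∈ C.Pl e) (h2 : d ∈ C.F0 f) : d = 0 := by
  obtain ⟨c, hc⟩ := mem_F0.mp h2
  have h3 := decL (C := C) hef d
  rw [h1.1, hc, smul_l, map_zero, AddMonoidHom.zero_apply, zero_add] at h3
  have h4 := h1.2
  rw [h3, smul_l, he.RR, polar_comm, hef, map_one, one_smul, smul_eq_zero] at h4
  rw [h3, show c = 0 by simpa [he.ne] using h4]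
  simp

include hr in
theorem eq_smul (he : C.Abs e) (hf : C.Abs f) (hef : polar Q e f = 1) (hs : C.Rel3 s s s) (hM : Φ s ∈ M)
    {a : F} (ha : s.e e = a • e) {y : V} (h1 : y ∈ C.Pl e) (h2 : polar Q f y = 0) : s.e y = a • y :=
  sub_eq_zero.mp (he.eq_zero hef (sub_mem (he.map_mem_fl he hs ha (n := 3) h1) (Submodule.smul_mem _ _ h1))
    (H.sub_mem_F0 hr hf he (by rwa [polar_comm]) hs hM ha h2))

omit H in
theorem _root_.Cfsg.Agent.Lib.Forms.Cyc.Abs.ker_le (he : C.Abs e) (hef : polar Q e f = 1) {W : Submodule F V}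
    (h1 : e ∈ W) (h2 : C.μ f e ∈ W) (h3 : ∀ y ∈ C.Pl e, polar Q f y = 0 → y ∈ W) (v : V) : C.μ v e ∈ W := by
  have hfe : polar Q f e = 1 := by rwa [polar_comm]
  have k1 : C.μ v e - C.σ (C.σ (polar Q v e)) • C.μ f e ∈ C.Pl e := ⟨by simp [he.RL], by simp [he.RR, hfe]⟩
  have k2 := h3 _ (sub_mem k1 (Submodule.smul_mem _ (polar Q f (C.μ v e - C.σ (C.σ (polar Q v e)) • C.μ f e))
    he.self_mem_Pl)) (by rw [polar_sub_right, polar_smul_right, hfe, smul_eq_mul, mul_one, sub_self])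
  exact (W.sub_mem_iff_left (W.smul_mem _ h2)).mp ((W.sub_mem_iff_left (W.smul_mem _ h1)).mp k2)

omit H in
theorem _root_.Cfsg.Agent.Lib.Forms.Cyc.Abs.eq_top (he : C.Abs e) (hf : C.Abs f) (hef : polar Q e f = 1)
    {W : Submodule F V} (h1 : e ∈ W) (h1' : f ∈ W) (h2 : C.μ f e ∈ W) (h2' : C.μ e f ∈ W)
    (h3 : ∀ y ∈ C.Pl e, polar Q f y = 0 → y ∈ W) (h3' : ∀ y ∈ C.Pl f, polar Q e y = 0 → y ∈ W) : W = ⊤ :=
  eq_top_iff.mpr fun v _ => by
    rw [decL (C := C) hef v]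
    exact add_mem (hf.ker_le (by rwa [polar_comm]) h1' h2' h3' _) (he.ker_le hef h1 h2 h3 _)

omit H in
theorem _root_.Cfsg.Agent.Lib.Forms.Cyc.Abs.L_mem (he : C.Abs e) {y : V} (h1 : y ∈ C.Pl e) :
    polar Q e (C.μ f y) = 0 ∧ C.μ (C.μ f y) e = C.σ (polar Q f e) • y :=
  ⟨by rw [polar_comm, C.cyc, h1.2]; simp, by rw [C.left₂, h1.1]; simp⟩

omit H in
theorem _root_.Cfsg.Agent.Lib.Forms.Cyc.Abs.exists_Pl (he : C.Abs e) (hf : C.Abs f) (hef : polar Q e f = 1)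
    (h5 : 5 ≤ finrank F V) : ∃ y ∈ C.Pl e, polar Q f y = 0 ∧ y ≠ 0 := by
  classical
  by_contra h
  push Not at h
  have h1 := he.eq_top hf hef (W := Submodule.span F ({e, f, C.μ f e, C.μ e f} : Finset V))
    (Submodule.subset_span (by simp)) (Submodule.subset_span (by simp)) (Submodule.subset_span (by simp))
    (Submodule.subset_span (by simp)) (fun y h1 h2 => h y h1 h2 ▸ zero_mem _) fun y h1 h2 => by
      obtain ⟨k1, k2⟩ := hf.L_mem (f := e) h1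
      rw [h _ (he.L_mem_Pl h2) k1, hef, map_one, one_smul, map_zero, AddMonoidHom.zero_apply] at k2
      exact k2 ▸ zero_mem _
  have h2 := finrank_span_finset_le_card (R := F) ({e, f, C.μ f e, C.μ e f} : Finset V)
  rw [Set.finrank, h1, finrank_top] at h2
  have := h2.trans Finset.card_le_four
  omega

include hr in
theorem eq_bot (h5 : 5 ≤ finrank F V) (he : C.Abs e) : M = ⊥ := by
  have h3 : (3 : F) ≠ 0 := fun h => hr ((Nat.prime_dvd_prime_iff_eq Fact.out Nat.prime_three).mp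
    ((CharP.cast_eq_zero_iff F r 3).mp h)).symm
  obtain ⟨f, hf, hef⟩ := he.exists_opp h3
  have hfe : polar Q f e = 1 := by rwa [polar_comm]
  refine eq_bot_iff.mpr fun t ht => ?_
  obtain ⟨s, hs, rfl⟩ := H.lift t ht
  obtain ⟨a, ha0, ha⟩ := H.mem_lineStab hr he hs ht
  obtain ⟨b, -, hb⟩ := H.mem_lineStab hr hf hs ht
  obtain ⟨y, y1, y2, y3⟩ := he.exists_Pl hf hef h5
  have k1 := fun y => H.eq_smul hr he hf hef hs ht ha (y := y)
  have k2 := fun y => H.eq_smul hr hf he hfe hs ht hb (y := y)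
  obtain ⟨l, hl, h⟩ := hs.ex
  obtain ⟨z1, z2⟩ := he.L_mem (f := f) y1
  rw [hfe, map_one, one_smul] at z2
  have z3 : C.μ f y ≠ 0 := fun k => y3 (by rw [← z2, k]; simp)
  have e1 := h f y
  rw [hb, k1 y y1 y2, k2 _ (hf.L_mem_Pl y2) z1, smul_l, smul_r, smul_smul, smul_smul] at e1
  have e2 := h (C.μ f y) e
  rw [ha, k2 _ (hf.L_mem_Pl y2) z1, z2, k1 y y1 y2, smul_l, smul_r, z2, smul_smul, smul_smul] at e2
  replace e1 := smul_left_injective F z3 e1
  replace e2 := smul_left_injective F y3 e2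
  obtain rfl : a = b := mul_left_cancel₀ hl (e2.symm.trans e1)
  have hσ : ∀ c, s.σ c = c := fun c => by
    have := k1 (c • y) (Submodule.smul_mem _ c y1) (by simp [y2])
    rw [s.map_smul, k1 y y1 y2, smul_smul, smul_smul, mul_comm] at this
    exact mul_left_cancel₀ ha0 (smul_left_injective F y3 this)
  let W : Submodule F V :=
    { carrier := {v | s.e v = a • v}
      add_mem' := fun h1 h2 => by rw [Set.mem_setOf, map_add, h1, h2, smul_add]
      zero_mem' := by simp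
      smul_mem' := fun c v h1 => by rw [Set.mem_setOf, s.map_smul, h1, hσ, smul_comm] }
  have k3 : ∀ u v, u ∈ W → v ∈ W → C.μ u v ∈ W := fun u v (hu : _ = _) (hv : _ = _) => by
    have := h u v
    rw [hu, hv, smul_l, smul_r, smul_smul, e1, mul_smul] at this
    exact (smul_right_injective V hl this).symm
  have k4 := he.eq_top hf hef (W := W) ha hb (k3 _ _ hb ha) (k3 _ _ ha hb) k1 k2
  have : Nontrivial V := ⟨e, 0, he.ne⟩
  exact (H.ker s).mpr ⟨Units.mk0 a ha0, Semi.ext_of_nondeg C.nondeg fun v => (k4.ge trivial : v ∈ W)⟩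

end Ctx

theorem eq_bot (C : Cyc Q) {r : ℕ} [Fact r.Prime] [CharP F r] (hr : 3 ≠ r) (h5 : 5 ≤ finrank F V) {e : V}
    (he0 : e ≠ 0) (he : C.μ e e = 0) (Φ : Semi Q →* X) (hker : ∀ s, Φ s = 1 ↔ ∃ a, s = Semi.scal Q a)
    (I : Subgroup X) [hn : I.Normal] (hI : ∀ e w, Q e = 0 → polar Q e w = 0 → Φ (Semi.ofOG Q (eich Q e w)) ∈ I) {x : X}
    (hx3 : x ^ 3 = 1) (hx : ∀ s₁ s₂ s₃, C.Rel3 s₁ s₂ s₃ → x * Φ s₁ * x⁻¹ = Φ s₂) {M : Subgroup X}
    (nd : ¬ 3 ∣ Nat.card M) (hM : ∀ y ∈ M, ∃ s, C.Rel3 s s s ∧ y = Φ s)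
    (hn' : ∀ z ∈ I, Commute z x → ∀ y ∈ M, z * y * z⁻¹ ∈ M) : M = ⊥ :=
  Ctx.eq_bot ⟨hker, hn, hI, hx3, hx, nd, hM, hn'⟩ hr h5 ⟨he0, he⟩

end Cyc

end Cfsg.Agent.Lib.Forms
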