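import Cfsg.Agent.Lib.Forms.OrthIwa

/-!
# Local balance for orthogonal groups: restriction of semisimilarities to centraliser geometries
-/

set_option autoImplicit false
set_option linter.unusedSectionVars false
set_option maxHeartbeats 400000

namespace Cfsg.Agent.Lib.Forms

open Module QuadraticMap

universe u

theorem mem_zpowers_of_fix {F : Type*} [Field F] [Finite F] {σ τ : F ≃+* F} (h : ∀ x, σ x = x → τ x = x) :
    τ ∈ Subgroup.zpowers σ := by
  have : Finite (F ≃+* F) := Finite.of_injective _ DFunLike.coe_injective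
  obtain ⟨g, hg⟩ := FixedPoints.toAlgAut_surjective (Subgroup.zpowers σ) F
    (AlgEquiv.ofRingEquiv (f := τ) fun x => h x (x.2 ⟨σ, Subgroup.mem_zpowers σ⟩))
  have : τ = g := RingEquiv.ext fun x => (DFunLike.congr_fun hg x).symm
  rw [this]; exact g.2

section General

variable {F : Type u} {V : Type*} [Field F] [AddCommGroup V] [Module F V] {Q : QuadraticForm F V}

theorem Semi.exists_restrict (t : Semi Q) {U : Submodule F V} (h : simg t U = U) :
    ∃ t₀ : Semi (Q.comp U.subtype), (∀ u, (t₀.e u : V) = t.e u) ∧ t₀.σ = t.σ := by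
  have h1 : ∀ u ∈ U, t.e u ∈ U := fun u hu => h ▸ e_mem_simg.mpr hu
  have h2 : ∀ u ∈ U, t⁻¹.e u ∈ U := fun u hu => mem_simg.mp (h.symm ▸ hu)
  exact ⟨⟨⟨⟨fun u => ⟨_, h1 u u.2⟩, fun u => ⟨_, h2 u u.2⟩, fun u => by simp, fun u => by simp⟩,
    fun u v => by simp⟩, t.σ, t.c, fun a v => Subtype.ext (t.map_smul a v), fun v => t.map_Q v⟩,
    fun _ => rfl, rfl⟩

theorem exists_extId {U W : Submodule F V} (hc : IsCompl U W) (hp : ∀ u ∈ U, ∀ w ∈ W, polar Q u w = 0) :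
    ∃ ε : OG (Q.comp U.subtype) →* OG Q, (∀ g (u : U), (ε g).1 u = g.1 u) ∧ ∀ g, ∀ w ∈ W, (ε g).1 w = w := by
  let φ := Submodule.prodEquivOfIsCompl U W hc
  let L : OG (Q.comp U.subtype) → V ≃ₗ[F] V := fun g => φ.symm ≪≫ₗ g.1.prodCongr (LinearEquiv.refl F W) ≪≫ₗ φ
  have k : ∀ g (u : U) (w : W), L g (u + w) = g.1 u + w := fun g u w => by
    have : φ.symm (u + w) = (u, w) := φ.symm_apply_apply (u, w)
    simp only [L, LinearEquiv.trans_apply, this]; rfl
  have k' : ∀ v, ∃ (u : U) (w : W), v = (u : V) + w := fun v => by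
    obtain ⟨⟨u, w⟩, rfl⟩ := φ.surjective v
    exact ⟨u, w, rfl⟩
  refine ⟨MonoidHom.mk' (fun g => ⟨L g, fun v => ?_⟩) fun g h => OG.ext' fun v => ?_, fun g u => ?_, fun g w hw => ?_⟩
  · obtain ⟨u, w, rfl⟩ := k' v
    rw [k, Q_add, Q_add, hp _ (g.1 u).2 _ w.2, hp _ u.2 _ w.2]
    exact congrArg (· + _ + _) (OG.map_Q g u)
  · obtain ⟨u, w, rfl⟩ := k' v
    change L _ _ = L _ (L _ _)
    rw [k, k, k]; rfl
  · simpa using k g u 0
  · simpa using k g 0 ⟨w, hw⟩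

theorem exists_quadExt [FiniteDimensional F V] [Finite F] [Nontrivial V] {r : ℕ} [CharP F r] (hQ : Nondeg Q)
    (h2 : (2 : F) ≠ 0) {s : Semi Q} (hs : s.σ = 1) {l : Fˣ} (hl : ¬ IsSquare (l : F)) (hc : s.c = l)
    (h : s * s = Semi.scal Q l) :
    ∃ (K : Type u) (_ : Field K) (_ : Finite K) (_ : CharP K r) (_ : Module K V) (_ : FiniteDimensional K V)
      (H : QuadraticForm K V), Nondeg H ∧ finrank F V = 2 * finrank K V ∧ ∃ ε : OG H →* OG Q,
        (∀ g v, (ε g).1 v = g.1 v) ∧ (∀ g, Commute (Semi.ofOG Q (ε g)) s) ∧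
        ∀ (t : Semi Q) (ν : Fˣ), t * s = Semi.scal Q ν * s * t → ∃ t₀ : Semi H, (∀ v, t₀.e v = t.e v) ∧
          ((∃ a, t₀ = Semi.scal H a) → ∃ b, t * t = Semi.scal Q b) := by
  have : Fact (∀ x : F, x ^ 2 ≠ l + 0 * x) := ⟨fun x hx => hl ⟨x, by simpa [pow_two] using hx.symm⟩⟩
  have hss : ∀ v, s.e (s.e v) = (l : F) • v := fun v => by rw [← Semi.mul_e, h]; rfl
  have hsm : ∀ (a : F) v, s.e (a • v) = a • s.e v := fun a v => by rw [s.map_smul, hs]; rfl
  have hsw := Semi.polar_swap hs hc h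
  let K := QuadraticAlgebra F (l : F) 0
  let φ : K →ₐ[F] Module.End F V := QuadraticAlgebra.lift ⟨(s.toLin hs : V →ₗ[F] V), by ext v; simp [hss]⟩
  let _ : Module K V := Module.compHom V φ.toRingHom
  have hm : ∀ (z : K) v, z • v = z.re • v + z.im • s.e v := fun z v => by
    change φ z v = _
    simp [φ, QuadraticAlgebra.lift]
  have : IsScalarTower F K V := ⟨fun a z v => by simp [K, hm, smul_smul]⟩
  have : Module.Finite K V := Module.Finite.of_restrictScalars_finite F K V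
  have : Finite K := Module.finite_of_finite F
  let β : V →ₗ[K] V →ₗ[K] K := LinearMap.mk₂ K (fun u v => ⟨polar Q u v / 2, polar Q (s.e u) v / (2 * l)⟩)
    (fun u u' v => by ext <;> simp [K, add_div])
    (fun z u v => by ext <;> simp [K, hm, hsm, hss] <;> field_simp)
    (fun u v v' => by ext <;> simp [K, add_div])
    (fun z u v => by ext <;> simp [K, hm, ← hsw, hss] <;> field_simp)
  let H : QuadraticForm K V := LinearMap.BilinMap.toQuadraticMap β
  have hH : ∀ v, H v = ⟨Q v, polar Q (s.e v) v / (2 * l)⟩ := fun v => by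
    change (⟨polar Q v v / 2, _⟩ : K) = _
    rw [polar_self', mul_div_cancel_left₀ _ h2]
  have hP : ∀ u v, (polar H u v).re = polar Q u v := fun u v => by simp [K, polar, hH]
  refine ⟨K, inferInstance, inferInstance, charP_of_injective_algebraMap (algebraMap F K).injective r,
    inferInstance, inferInstance, H, nondeg_of fun x hx => hQ.eq_zero fun v => by rw [← hP, hx]; rfl,
    by rw [← Module.finrank_mul_finrank F K V, QuadraticAlgebra.finrank_eq_two],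
    MonoidHom.mk' (fun g => ⟨g.1.restrictScalars F, fun v => by
      simpa [hH] using congrArg QuadraticAlgebra.re (OG.map_Q g v)⟩) fun g h => rfl, fun g v => rfl,
    fun g => Semi.ext_of_nondeg hQ fun v => ?_, fun t ν ht => ?_⟩
  · change g.1 (s.e v) = s.e (g.1 v)
    simpa [hm] using g.1.map_smul (QuadraticAlgebra.omega : K) v
  have h3 : ∀ v, t.e (s.e v) = (ν : F) • s.e (t.e v) := fun v => by rw [← Semi.mul_e, ht]; rfl
  have h4 : t.σ l = ν * ν * l := by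
    obtain ⟨v, hv⟩ := exists_ne (0 : V)
    refine smul_left_injective F (mt (t.e_eq_zero_iff v).mp hv) ?_
    simp only
    rw [← t.map_smul, ← hss, h3, h3, hsm, hss, smul_smul, smul_smul]
  let τ : K ≃+* K :=
    { toFun := fun z => ⟨t.σ z.re, t.σ z.im * ν⟩
      invFun := fun z => ⟨t.σ.symm z.re, t.σ.symm (z.im / ν)⟩
      left_inv := fun z => by ext <;> simp
      right_inv := fun z => by ext <;> simp
      map_mul' := fun z w => by ext <;> simp [K, h4] <;> ring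
      map_add' := fun z w => by ext <;> simp [K, add_mul] }
  refine ⟨⟨t.e, τ, Units.map (algebraMap F K) t.c, fun z v => ?_, fun v => ?_⟩, fun v => rfl, ?_⟩
  · simp [hm, τ, t.map_smul, h3, smul_smul]
  · have h5 := t.map_polar (s.e v) v
    rw [h3, polar_smul_left, smul_eq_mul] at h5
    have h6 : t.σ 2 = 2 := map_ofNat _ _
    ext
    · simp [K, hH, τ, t.map_Q]
    · simp [K, hH, τ, h4, h6]
      field_simp
      linear_combination h5
  · rintro ⟨a, ha⟩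
    have h5 : ∀ v, t.e v = (a : K) • v := fun v => congrArg (fun s : Semi H => s.e v) ha
    have h6 : algebraMap F K t.c = a * a := congrArg (fun s : Semi H => (s.c : K)) ha
    exact ⟨t.c, Semi.ext_of_nondeg hQ fun v => by
      rw [Semi.mul_e, h5, h5, smul_smul, ← h6, algebraMap_smul]; rfl⟩

variable {F₀ V₀ : Type*} [Field F₀] [AddCommGroup V₀] [Module F₀ V₀] {j : F₀ →+* F} {Q₀ : QuadraticForm F₀ V₀}

theorem Desc.exists_restrict (D : Desc j Q₀ Q) (hQ : Nondeg Q) [Nontrivial V₀] {s : Semi Q}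
    (hs : ∀ v, s.e (D.i v) = D.i v) (hj : ∀ x, s.σ x = x ↔ x ∈ j.range) {u : Semi Q} (hc : u * s = s * u) :
    ∃ t₀ : Semi Q₀, (∀ v, D.i (t₀.e v) = u.e (D.i v)) ∧ ∀ a, j (t₀.σ a) = u.σ (j a) := by
  have k : ∀ u : Semi Q, u * s = s * u → ∃ (φ : V₀ →+ V₀) (τ : F₀ →+* F₀),
      (∀ v, D.i (φ v) = u.e (D.i v)) ∧ ∀ a, j (τ a) = u.σ (j a) := by
    intro u hc
    choose φ hφ using fun v => D.bc.mem_range_of_fixed s.σ (fun x => (hj x).mp) s.e s.map_smul hs
      (w := u.e (D.i v)) (by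
        change (s * u).e _ = _
        rw [← hc, Semi.mul_e, hs])
    choose τ hτ using fun a => (hj (u.σ (j a))).mp (by
      change (s * u).σ _ = _
      rw [← hc, Semi.mul_σ, RingAut.mul_apply, (hj _).mpr ⟨a, rfl⟩])
    exact ⟨AddMonoidHom.mk' φ fun u v => D.bc.injective (by simp [hφ]),
      ⟨⟨⟨τ, j.injective (by simp [hτ])⟩, fun a b => j.injective (by simp [hτ])⟩, j.injective (by simp [hτ]),
        fun a b => j.injective (by simp [hτ])⟩, hφ, hτ⟩
  obtain ⟨φ, τ, hφ, hτ⟩ := k u hc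
  obtain ⟨ψ, τ', hψ, hτ'⟩ := k u⁻¹ (by rw [inv_mul_eq_iff_eq_mul, ← mul_assoc, hc, mul_inv_cancel_right])
  have h1 : ∀ v, j (Q₀ (φ v)) = u.c * u.σ D.a / D.a * j (τ (Q₀ v)) := fun v => by
    have := u.map_Q (D.i v)
    rw [← hφ, D.map_Q, D.map_Q, map_mul, ← hτ] at this
    field_simp
    linear_combination this
  obtain ⟨v, hv⟩ := (D.nondeg hQ).exists_Q_ne_zero
  have h2 : j (Q₀ (φ v) / τ (Q₀ v)) = u.c * u.σ D.a / D.a := by
    rw [map_div₀, h1, mul_div_cancel_right₀ _ (by simpa)]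
  have h3 : Q₀ (φ v) / τ (Q₀ v) ≠ 0 := fun h => by
    rw [h, map_zero] at h2
    exact div_ne_zero (mul_ne_zero u.c.ne_zero (by simp)) D.a.ne_zero h2.symm
  exact ⟨⟨⟨⟨φ, ψ, fun v => D.bc.injective (by simp [hφ, hψ]), fun v => D.bc.injective (by simp [hφ, hψ])⟩, φ.map_add⟩,
    ⟨⟨τ, τ', fun a => j.injective (by simp [hτ, hτ', u.inv_σ_σ]), fun a => j.injective (by simp [hτ, hτ', u.σ_inv_σ])⟩,
      τ.map_mul, τ.map_add⟩, Units.mk0 _ h3, fun a v => D.bc.injective (by simp [hφ, u.map_smul, hτ]),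
    fun w => j.injective (by rw [map_mul, Units.val_mk0, h2]; exact h1 w)⟩, hφ, hτ⟩

theorem Desc.cj_extO (D : Desc j Q₀ Q) {u : Semi Q} {t₀ : Semi Q₀} (h : ∀ v, D.i (t₀.e v) = u.e (D.i v))
    (g : OG Q₀) : Semi.cj Q u (D.extO g) = D.extO (Semi.cj Q₀ t₀ g) :=
  OG.ext' (D.semi_ext (s := Semi.ofOG Q (Semi.cj Q u (D.extO g))) (t := Semi.ofOG Q (D.extO _)) rfl fun v => by
    obtain ⟨v, rfl⟩ := t₀.e.surjective v
    rw [Semi.ofOG_e, Semi.ofOG_e, D.extO_apply, Semi.cj_apply_e, h, h, Semi.cj_apply_e, D.extO_apply])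

theorem Desc.extO_eich (D : Desc j Q₀ Q) {e w : V₀} (he : Q₀ e = 0) (hw : polar Q₀ e w = 0) :
    D.extO (eich Q₀ e w) = eich Q (D.i e) ((D.a : F)⁻¹ • D.i w) :=
  OG.ext' (D.semi_ext (s := Semi.ofOG Q _) (t := Semi.ofOG Q _) rfl fun v => by
    rw [Semi.ofOG_e, Semi.ofOG_e, D.extO_apply, eich_apply he hw,
      eich_apply (by simpa [D.Q_eq_zero_iff]) (by simp [D.map_polar, hw])]
    simp only [map_sub, map_add, map_smulₛₗ, map_mul, D.map_polar, Q_smul, D.map_Q, polar_smul_right, smul_eq_mul]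
    match_scalars <;> field_simp)

end General

section Coord

variable {F : Type u} [Field F] [Finite F] {ι : Type} [Fintype ι] [DecidableEq ι] {Q : QuadraticForm F (ι → F)}

theorem finite_POmega : Finite (Cfsg.POmega F Q) :=
  have := (omModel Q).finite
  inferInstanceAs (Finite (Cfsg.Omega F Q ⧸ Subgroup.center _))

theorem finite_aut_POmega : Finite (MulAut (Cfsg.POmega F Q)) :=
  have := finite_POmega (Q := Q)
  Finite.of_injective _ DFunLike.coe_injective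

/-- `M` is a `p'`-group centralising `x` and normalised by the inner automorphisms centralising `x` -/
structure Bal (Q : QuadraticForm F (ι → F)) (p : ℕ) (x : MulAut (Cfsg.POmega F Q))
    (M : Subgroup (MulAut (Cfsg.POmega F Q))) : Prop where
  nd : ¬ p ∣ Nat.card M
  comm : ∀ y ∈ M, Commute y x
  norm : ∀ g ∈ Om Q, Commute (Phi Q (Semi.ofOG Q g)) x →
    ∀ y ∈ M, Phi Q (Semi.ofOG Q g) * y * (Phi Q (Semi.ofOG Q g))⁻¹ ∈ M

variable {p r : ℕ} [Fact p.Prime] [Fact r.Prime] [CharP F r] {M : Subgroup (MulAut (Cfsg.POmega F Q))} {s : Semi Q}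

theorem bal_of (A : Subgroup (MulAut (Cfsg.POmega F Q))) (hinn : ∀ k, MulAut.conj k ∈ A)
    (x : MulAut (Cfsg.POmega F Q)) : Bal Q p x (Core.OppOf p (A ⊓ Subgroup.centralizer {x})) := by
  have := finite_aut_POmega (Q := Q)
  refine ⟨fun h => Core.pPrimeCore_not_dvd (h.trans (Subgroup.card_map_dvd _ _)),
    fun y hy => Subgroup.mem_centralizer_singleton_iff.mp (Core.OppOf_le _ hy).2, fun g hg hc y hy =>
    Core.conj_mem_of_mem_normalizer (Core.le_normalizer_OppOf Subgroup.le_normalizer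
      ⟨?_, Subgroup.mem_centralizer_singleton_iff.mpr hc⟩) hy⟩
  obtain ⟨a, rfl⟩ := (omModel Q).exists_j hg
  rw [show Phi Q _ = _ from (omModel Q).Φ_ofOG a]
  exact hinn _

theorem Bal.eq_one {x y : MulAut (Cfsg.POmega F Q)} (B : Bal Q p x M) (hy : y ∈ M) (h : y ^ p = 1) : y = 1 := by
  have := finite_aut_POmega (Q := Q)
  by_contra h1
  exact B.nd (orderOf_eq_prime h h1 ▸ Subgroup.orderOf_dvd_natCard _ hy)

section Sub

variable {F₀ V₀ : Type*} [Field F₀] [Finite F₀] [CharP F₀ r] [AddCommGroup V₀] [Module F₀ V₀] [FiniteDimensional F₀ V₀]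
  {Q₀ : QuadraticForm F₀ V₀}

theorem Bal.iwasawa (B : Bal Q p (Phi Q s) M) (hpr : p ≠ r) (hQ₀ : Nondeg Q₀) (h3 : 3 ≤ finrank F₀ V₀)
    (h4 : finrank F₀ V₀ ≠ 4) (ε : OG Q₀ →* OG Q) (hc : ∀ g, Commute (Semi.ofOG Q (ε g)) s) {t : Semi Q}
    (ht : Phi Q t ∈ M) {t₀ : Semi Q₀} (h : ∀ g, Semi.cj Q t (ε g) = ε (Semi.cj Q₀ t₀ g))
    (hs : ∀ a, t₀ ≠ Semi.scal Q₀ a) {g : OG Q₀} (hg : g ∈ EG Q₀) : ¬ p ∣ orderOf (Phi Q (Semi.ofOG Q (ε g))) :=
  have := finite_aut_POmega (Q := Q)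
  hQ₀.iwasawa h3 h4 hpr ((Phi Q).comp ((Semi.ofOG Q).comp ε)) B.nd
    (fun g hg => B.norm _ (map_mem_commutator ε hg) ((hc g).map _)) ht
    (fun g _ => by simp only [MonoidHom.comp_apply, ← h, Semi.ofOG_cj, map_mul, map_inv]) hs hg

theorem Bal.iwasawa_two (B : Bal Q 2 (Phi Q s) M) (hQ : Nondeg Q) (h5 : 5 ≤ Fintype.card ι) (hr : 2 ≠ r)
    (hQ₀ : Nondeg Q₀) (h3 : 3 ≤ finrank F₀ V₀) (h4 : finrank F₀ V₀ ≠ 4) (ε : OG Q₀ →* OG Q)
    (hε : ∀ g, ε g = 1 ∨ ε g = negOG Q → g = 1 ∨ g = negOG Q₀) (hc : ∀ g, Commute (Semi.ofOG Q (ε g)) s) {t : Semi Q}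
    (ht : Phi Q t ∈ M) {t₀ : Semi Q₀} (h : ∀ g, Semi.cj Q t (ε g) = ε (Semi.cj Q₀ t₀ g)) :
    ∃ a, t₀ = Semi.scal Q₀ a :=
  have := finite_aut_POmega (Q := Q)
  hQ₀.iwasawa_two h3 h4 hr ((Phi Q).comp ((Semi.ofOG Q).comp ε)) (fun g hg => by
      obtain ⟨a, ha⟩ := (Phi_eq_one_iff hQ h5).mp hg
      simpa using hε g (by
        simpa using Semi.scal_mul_eq (a := a) (a' := 1) (g := 1) (g' := ε g) (by simpa using ha.symm))) B.nd
    (fun g hg => B.norm _ (map_mem_commutator ε hg) ((hc g).map _)) ht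
    (fun g _ => by simp only [MonoidHom.comp_apply, ← h, Semi.ofOG_cj, map_mul, map_inv])

end Sub

variable (hQ : Nondeg Q) (h5 : 5 ≤ Fintype.card ι)
include hQ h5

theorem conj_injective_POmega : Function.Injective (MulAut.conj : Cfsg.POmega F Q →* MulAut _) :=
  (omModel Q).conj_injective hQ (by simpa)

theorem Bal.field (B : Bal Q p (Phi Q s) M) (hpr : p ≠ r) (hσ : orderOf s.σ = p) (hsp : s ^ p = 1) {t : Semi Q}
    (ht : Phi Q t ∈ M) (h1 : Phi Q t ≠ 1) : p ≠ 2 ∧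
      Nat.Coprime p (Nat.card (MonoidHom.eqLocus (Phi Q s).toMonoidHom (MonoidHom.id (Cfsg.POmega F Q)))) := by
  have hp : p.Prime := Fact.out
  have : Nonempty ι := Fintype.card_pos_iff.mp (by omega)
  have := finite_POmega (Q := Q)
  obtain ⟨F₀, _, _, j, hj⟩ := exists_fixed_field s.σ
  have : CharP F₀ r := j.charP j.injective r
  obtain ⟨Q₀, D, hD⟩ := exists_desc hp.pos hσ hsp j hj
  have hQ₀ := D.nondeg hQ
  have h6 : 5 ≤ finrank F₀ (Fin (finrank F (ι → F)) → F₀) := by simpa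
  have := Module.nontrivial_of_finrank_pos (by omega : 0 < finrank F₀ (Fin (finrank F (ι → F)) → F₀))
  obtain ⟨ν, hν⟩ := exists_scal_mul_comm hQ h5 hp.pos hσ hsp (B.comm _ ht)
  rw [← Phi_scal_mul ν] at ht h1
  generalize Semi.scal Q ν * t = u at hν ht h1
  obtain ⟨t₀, h2, h3⟩ := D.exists_restrict hQ hD hj hν
  have hc : ∀ g, Commute (Semi.ofOG Q (D.extO g)) s := fun g => by
    rw [← D.ext_ofOG]; exact D.ext_comm hQ hD _
  have hs : ∀ a, t₀ ≠ Semi.scal Q₀ a := by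
    rintro a rfl
    obtain ⟨k, hk⟩ := mem_zpowers_of_fix (σ := s.σ) (τ := u.σ) fun x hx => by
      obtain ⟨x, rfl⟩ := (hj x).mp hx
      exact (h3 x).symm
    let u' := Semi.scal Q (Units.map (j : F₀ →* F) a)⁻¹ * u
    have h4 : ∀ n : ℕ, ∀ v, (u' ^ n).e (D.i v) = D.i v := fun n v => by
      induction n with
      | zero => rfl
      | succ n ih =>
        rw [pow_succ, Semi.mul_e, Semi.mul_e, ← h2, Semi.scal_e, Semi.scal_e, D.i.map_smulₛₗ, smul_smul]
        simpa using ih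
    have h7 : u' ^ p = 1 := Semi.ext_of_nondeg hQ (D.semi_ext (by
      simp only at hk
      rw [Semi.pow_σ, Semi.mul_σ, Semi.scal_σ, one_mul, ← hk, ← zpow_natCast, ← zpow_mul, mul_comm, zpow_mul,
        zpow_natCast, ← hσ, pow_orderOf_eq_one, one_zpow]; rfl) (h4 p))
    exact h1 (B.eq_one ht (by rw [← Phi_scal_mul _ u, ← map_pow, h7, map_one]))
  have h2p : p ≠ 2 := by
    rintro rfl
    obtain ⟨a, ha⟩ := B.iwasawa_two hQ h5 hpr hQ₀ (by omega) (by omega) D.extO (fun g hg => hg.imp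
      (fun h => OG.ext' fun v => D.bc.injective (by rw [← D.extO_apply, h]; rfl))
      fun h => OG.ext' fun v => D.bc.injective (by rw [← D.extO_apply, h, negOG_apply, negOG_apply, map_neg]))
      hc ht (D.cj_extO h2)
    exact hs a ha
  refine ⟨h2p, (Nat.Prime.coprime_iff_not_dvd hp).mpr fun hd => ?_⟩
  obtain ⟨⟨k, hk⟩, hk'⟩ := exists_prime_orderOf_dvd_card' p hd
  rw [← Subgroup.orderOf_coe, ← orderOf_injective _ (conj_injective_POmega hQ h5)] at hk'
  obtain ⟨d, hd, h7⟩ : MulAut.conj k ∈ (NO Q).map (Phi Q) := Inn_eq_map hQ h5 ▸ ⟨k, rfl⟩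
  obtain ⟨μ, g, hg⟩ := D.exists_ext_of_commute hQ h5 hσ hsp hj hD hp.pos (σ_of_mem_NO hd) (by
    have h8 : Phi Q s k = k := hk
    rw [h7]
    ext z
    simp [h8])
  obtain ⟨a, h, h8⟩ := Semi.exists_scal_mul (s := (g * g).1) (g * g).2 ⟨g.1.c, by
    have : g.1.σ = 1 := g.2
    simp [this]⟩
  have h9 : Phi Q (Semi.ofOG Q (D.extO h)) = MulAut.conj k ^ 2 := by
    rw [← h7, ← Phi_scal_mul μ d, ← hg, ← map_pow, ← map_pow, pow_two, show g * g = ⟨_, by simp⟩ from Subtype.ext h8,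
      D.ext_scal_mul, Phi_scal_mul]
  have hN₀ := hQ₀.nonExc_of_finrank (by omega)
  refine B.iwasawa hpr hQ₀ (by omega) (by omega) D.extO hc ht (D.cj_extO h2) hs (g := h ^ 2)
    (hQ₀.Om_le_EG hN₀ (by omega) ((hQ₀.mem_Om_iff hN₀ _).mpr ⟨by
      rw [pow_two, hQ₀.dick_mul hN₀, Int.units_mul_self], by rw [pow_two, hQ₀.spin_mul hN₀, Int.units_mul_self]⟩)) ?_
  rw [map_pow, map_pow, map_pow, h9, ← pow_mul, Nat.Coprime.orderOf_pow, hk']
  rw [hk']
  exact ((Nat.coprime_primes hp Nat.prime_two).mpr h2p).pow_right 2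

theorem ne_bot_of_field (hpr : p.Prime) (hσ : orderOf s.σ = p) (hsp : s ^ p = 1)
    (A : Subgroup (MulAut (Cfsg.POmega F Q))) (hinn : ∀ k, MulAut.conj k ∈ A)
    (h : Nat.Coprime p (Nat.card (MonoidHom.eqLocus (Phi Q s).toMonoidHom (MonoidHom.id (Cfsg.POmega F Q))))) :
    Cfsg.pPrimeCore p ↥(A ⊓ Subgroup.centralizer {Phi Q s}) ≠ ⊥ := by
  have := finite_aut_POmega (Q := Q)
  have k : ∀ z, Commute (MulAut.conj z) (Phi Q s) ↔ Phi Q s z = z := fun z => by
    rw [← (conj_injective_POmega hQ h5).eq_iff, commute_iff_eq, eq_comm, ← mul_inv_eq_iff_eq_mul]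
    refine Eq.congr_left ?_
    ext y; simp
  let ψ : MonoidHom.eqLocus (Phi Q s).toMonoidHom (MonoidHom.id (Cfsg.POmega F Q)) →*
      ↥(A ⊓ Subgroup.centralizer {Phi Q s}) := (MulAut.conj.comp (Subgroup.subtype _)).codRestrict _ fun z =>
    ⟨hinn _, Subgroup.mem_centralizer_singleton_iff.mpr ((k _).mpr z.2)⟩
  have hn : ψ.range.Normal := ⟨by
    rintro _ ⟨z, rfl⟩ y
    have h1 : y.1 * Phi Q s = Phi Q s * y.1 := Subgroup.mem_centralizer_singleton_iff.mp y.2.2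
    have h2 : Phi Q s z = z := z.2
    refine ⟨⟨y.1 z, ?_⟩, Subtype.ext ?_⟩
    · change (Phi Q s * y.1) z = _
      rw [← h1, MulAut.mul_apply, h2]; rfl
    · change MulAut.conj (y.1 z) = y.1 * MulAut.conj z.1 * y.1⁻¹
      ext w; simp⟩
  intro hb
  have h1 : ψ.range ≤ ⊥ := hb ▸ le_sSup ⟨hn, (h.symm.coprime_dvd_left (Subgroup.card_range_dvd ψ))⟩
  obtain ⟨F₀, _, _, j, hj⟩ := exists_fixed_field s.σ
  obtain ⟨Q₀, D, hD⟩ := exists_desc hpr.pos hσ hsp j hj
  have : Nonempty ι := Fintype.card_pos_iff.mp (by omega)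
  have hQ₀ := D.nondeg hQ
  obtain ⟨e, f, w, he, hf, hef, h2, h3, h4⟩ := hQ₀.exists_hyp_pair (by simp; omega)
  have h6 := hQ₀.eich_mem_Om_of_ne he h2 h4
  obtain ⟨a, ha⟩ := (omModel Q).exists_j (map_mem_commutator D.extO h6)
  have h7 : Phi Q (Semi.ofOG Q (D.extO (eich Q₀ e w))) = MulAut.conj (QuotientGroup.mk a) :=
    ha ▸ (omModel Q).Φ_ofOG a
  have h8 := h1 ⟨⟨QuotientGroup.mk a, (k _).mp (by
    rw [← h7, ← D.ext_ofOG]; exact D.commute_ext hQ h5 hD _)⟩, rfl⟩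
  obtain ⟨b, hb⟩ := (Phi_eq_one_iff hQ h5).mp (h7.trans (congrArg Subtype.val h8))
  have h9 := congrArg (fun s : Semi Q => polar Q (s.e (D.i f)) (D.i f)) hb
  simp only [Semi.ofOG_e, D.extO_apply, Semi.scal_e, polar_smul_left, D.map_polar, polar_self', hf, mul_zero, map_zero,
    smul_zero, mul_eq_zero, D.a.ne_zero, false_or, map_eq_zero] at h9
  rw [eich_apply he h2] at h9
  simp [polar_self', hf, polar_comm Q₀ f e, hef, polar_comm Q₀ w f, h3, h4] at h9

theorem Bal.graph (B : Bal Q 2 (Phi Q s) M) (hr : 2 ≠ r) (hN : NonExc Q) (hev : Even (Fintype.card ι))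
    (hs : s.σ = 1) (hd : dl s = -1) (h : Phi Q s ^ 2 = 1) {t : Semi Q} (ht : Phi Q t ∈ M) : Phi Q t = 1 := by
  have : Nonempty ι := Fintype.card_pos_iff.mp (by omega)
  have h2 : (2 : F) ≠ 0 := fun h => hr ((Nat.prime_dvd_prime_iff_eq Fact.out Nat.prime_two).mp
    ((CharP.cast_eq_zero_iff F r 2).mp h)).symm
  suffices ∀ t, Phi Q t ∈ M → (∀ a g, s = Semi.scal Q a * Semi.ofOG Q g → Semi.cj Q t g = g) →
      ∃ b, t * t = Semi.scal Q b by
    obtain ⟨b, hb⟩ := this (t * t) (by rw [map_mul]; exact mul_mem ht ht) (by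
      rintro a g rfl
      have := B.comm _ ht
      rw [Phi_scal_mul] at this
      rw [map_mul, MulAut.mul_apply]
      rcases cj_eq_of_commute hQ h5 this with h | h
      · rw [h, h]
      · rw [h, map_mul, h, Semi.cj_neg, mul_assoc, negOG_mul_self, mul_one])
    refine B.eq_one ht (B.eq_one (pow_mem ht 2) ?_)
    rw [← map_pow, ← map_pow, pow_two, pow_two, hb, Phi_scal]
  intro t ht hc
  rcases graph_invol_cases hQ hN hev h2 h5 hs hd h with ⟨a, g, rfl, hg, hg'⟩ | ⟨l, hl, h3, h4, h6⟩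
  · replace hc := hc a g rfl
    rw [Phi_scal_mul] at B
    have h3 := finrank_eig_add h2 hg
    rw [dick_invol h2 hg] at hg'
    have h4 : Odd (finrank F (eig g (-1))) := Nat.not_even_iff_odd.mp fun h => by
      rw [h.neg_one_pow] at hg'; exact absurd hg' (by decide)
    have h6 : ∀ ε : F, ε = 1 ∨ ε = -1 → Odd (finrank F (eig g ε)) := by
      rintro ε (rfl | rfl)
      · rw [Module.finrank_fintype_fun_eq_card] at h3
        rw [← h3, Nat.even_add'] at hev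
        exact hev.mp h4
      · exact h4
    have k1 : ∀ ε : F, ε = 1 ∨ ε = -1 → 3 ≤ finrank F (eig g ε) →
        t.σ = 1 ∧ ∃ c : F, ∀ v ∈ eig g ε, t.e v = c • v := fun ε hε h7 => by
      have hp : ∀ u ∈ eig g ε, ∀ w ∈ eig g (-ε), polar Q u w = 0 := fun u hu w hw => by
        rcases hε with rfl | rfl
        · exact polar_eig h2 hu hw
        · rw [polar_comm]; exact polar_eig h2 (by simpa using hw) hu
      have hdec : ∀ v, ∃ u ∈ eig g ε, ∃ w ∈ eig g (-ε), v = u + w := fun v => by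
        obtain ⟨u, hu, w, hw, rfl⟩ := exists_eig_add h2 hg v
        rcases hε with rfl | rfl
        · exact ⟨u, hu, w, hw, rfl⟩
        · exact ⟨w, hw, u, by simpa using hu, add_comm _ _⟩
      have hε' : -ε = 1 ∨ -ε = -1 := by rcases hε with rfl | rfl <;> simp
      obtain ⟨φ, h8, h9⟩ := exists_extId (Q := Q) (U := eig g ε) (W := eig g (-ε))
        ⟨Submodule.disjoint_def.mpr fun v hv hv' => by
          rw [← Submodule.mem_bot (R := F), ← eig_inf_perp hQ h2 hg hε]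
          exact ⟨hv, mem_perp.mpr fun u hu => hp u hu v hv'⟩,
        codisjoint_iff.mpr (Submodule.eq_top_iff'.mpr fun v => by
          obtain ⟨u, hu, w, hw, rfl⟩ := hdec v
          exact Submodule.add_mem_sup hu hw)⟩ hp
      obtain ⟨t₀, h10, h11⟩ := t.exists_restrict (U := eig g ε) (by rw [← eig_cj t g hε, hc])
      have h12 : ∀ w ∈ eig g (-ε), t⁻¹.e w ∈ eig g (-ε) := fun w hw => by
        rwa [← mem_simg, ← eig_cj t g hε', hc]
      obtain ⟨c, hc'⟩ := B.iwasawa_two hQ h5 hr (nondeg_restrict (eig_inf_perp hQ h2 hg hε)) h7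
        (fun h => by have := h6 ε hε; rw [h] at this; exact absurd this (by decide)) φ
        (fun k hk => hk.imp (fun h => OG.ext' fun v => Subtype.ext (by rw [← h8, h]; rfl))
          fun h => OG.ext' fun v => Subtype.ext (by rw [← h8, h]; rfl))
        (fun k => Commute.map (OG.ext' fun v => by
          obtain ⟨u, hu, w, hw, rfl⟩ := hdec v
          rw [OG.mul_apply, OG.mul_apply, map_add, map_add, map_add, map_add, mem_eig.mp hu, mem_eig.mp hw, map_smul,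
            map_smul, h9 k w hw, h8 k ⟨u, hu⟩, mem_eig.mp hw, mem_eig.mp (k.1 ⟨u, hu⟩).2]) _) ht (t₀ := t₀)
        (fun k => OG.ext' fun v => by
          obtain ⟨u, hu, w, hw, rfl⟩ := hdec v
          obtain ⟨u, rfl⟩ : ∃ u' : eig g ε, u = t₀.e u' := ⟨t₀⁻¹.e ⟨u, hu⟩, by simp⟩
          rw [map_add, map_add, h9 _ w hw, h8, Semi.cj_apply_e, h10, h10, Semi.cj_apply_e, h8, Semi.cj_apply,
            h9 _ _ (h12 w hw), Semi.e_inv_e])
      exact ⟨by rw [← h11, hc']; rfl, c, fun v hv => by rw [← h10 ⟨v, hv⟩, hc']; rfl⟩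
    have hσ : t.σ = 1 := by
      rw [Module.finrank_fintype_fun_eq_card] at h3
      by_cases h7 : 3 ≤ finrank F (eig g 1)
      · exact (k1 1 (.inl rfl) h7).1
      · exact (k1 (-1) (.inr rfl) (by omega)).1
    have k2 : ∀ ε : F, ε = 1 ∨ ε = -1 → ∀ v ∈ eig g ε, t.e (t.e v) = (t.c : F) • v := fun ε hε v hv => by
      have h8 := h6 ε hε
      have := Module.nontrivial_of_finrank_pos h8.pos
      obtain ⟨w, hw⟩ := (nondeg_restrict (eig_inf_perp hQ h2 hg hε)).exists_Q_ne_zero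
      obtain ⟨c, hc'⟩ : ∃ c : F, ∀ v ∈ eig g ε, t.e v = c • v := by
        by_cases h7 : 3 ≤ finrank F (eig g ε)
        · exact (k1 ε hε h7).2
        · have h9 : finrank F (eig g ε) = 1 := by obtain ⟨k, hk⟩ := h8; omega
          have h10 := (finrank_eq_one_iff_of_nonzero' w (by rintro rfl; simp at hw)).mp h9
          obtain ⟨c, hc'⟩ := h10 ⟨t.e w, by
            have := eig_cj t g hε
            rw [hc] at this
            exact this.ge (e_mem_simg.mpr w.2)⟩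
          refine ⟨c, fun v hv => ?_⟩
          obtain ⟨d, hd⟩ := h10 ⟨v, hv⟩
          have h11 : c • (w : ι → F) = t.e w := congrArg Subtype.val hc'
          rw [show v = d • (w : ι → F) from (congrArg Subtype.val hd).symm, t.map_smul, hσ, ← h11, smul_comm]; rfl
      have h9 := t.map_Q w
      rw [hc' _ w.2, Q_smul, hσ] at h9
      rw [hc' v hv, t.map_smul, hσ, hc' v hv, smul_smul, ← mul_right_cancel₀ hw h9]; rfl
    exact ⟨t.c, Semi.ext_of_nondeg hQ fun v => by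
      obtain ⟨u, hu, w, hw, rfl⟩ := exists_eig_add h2 hg v
      rw [Semi.mul_e, map_add, map_add, k2 1 (.inl rfl) u hu, k2 _ (.inr rfl) w hw, Semi.scal_e, smul_add]⟩
  · obtain ⟨K, _, _, _, _, _, H, hH, h7, φ, h8, h9, h10⟩ := exists_quadExt (r := r) hQ h2 hs hl h3 h4
    obtain ⟨ν, hν⟩ := (Phi_eq_iff hQ h5 (s := t * s * t⁻¹) (t := s)).mp (by
      rw [map_mul, map_mul, (B.comm _ ht).eq, map_inv, mul_inv_cancel_right])
    obtain ⟨t₀, h11, h12⟩ := h10 t ν (mul_inv_eq_iff_eq_mul.mp hν)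
    rw [Module.finrank_fintype_fun_eq_card] at h7
    obtain ⟨k, hk⟩ := h6
    exact h12 (B.iwasawa_two hQ h5 hr hH (by omega) (by omega) φ
      (fun k hk => hk.imp (fun h => OG.ext' fun v => by rw [← h8, h]; rfl)
          fun h => OG.ext' fun v => by rw [← h8, h]; rfl) h9 ht (t₀ := t₀) fun k => OG.ext' fun v => by
      obtain ⟨v, rfl⟩ := t.e.surjective v
      rw [Semi.cj_apply_e, h8, h8, ← h11 v, Semi.cj_apply_e, h11])

omit hQ h5 in
theorem exists_mem_OppOf {G : Type*} [Group G] {H : Subgroup G} (h : Cfsg.pPrimeCore p H ≠ ⊥) :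
    ∃ y ∈ Core.OppOf p H, y ≠ 1 := by
  obtain ⟨⟨y, hy⟩, h1⟩ := Subgroup.ne_bot_iff_exists_ne_one.mp h
  exact ⟨y, ⟨y, hy, rfl⟩, fun h => h1 (Subtype.ext (Subtype.ext h))⟩

theorem balance_field (hΦ : Function.Surjective (Phi Q)) (hpr : p ≠ r) (A : Subgroup (MulAut (Cfsg.POmega F Q)))
    (hinn : ∀ k, MulAut.conj k ∈ A) (hσ : s.σ ≠ 1) (hord : orderOf (Phi Q s) = p) :
    (Cfsg.pPrimeCore p ↥(A ⊓ Subgroup.centralizer {Phi Q s}) ≠ ⊥ → p ≠ 2) ∧
    (Cfsg.pPrimeCore p ↥(A ⊓ Subgroup.centralizer {Phi Q s}) ≠ ⊥ ↔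
      Nat.Coprime p (Nat.card (MonoidHom.eqLocus (Phi Q s).toMonoidHom (MonoidHom.id (Cfsg.POmega F Q))))) := by
  obtain ⟨h1, μ, hμ⟩ := exists_normalize hQ h5 Fact.out (hord ▸ pow_orderOf_eq_one (Phi Q s)) hσ
  rw [← Phi_scal_mul μ s]
  refine ⟨fun h => ?_, fun h => ?_, ne_bot_of_field hQ h5 Fact.out (by simpa using h1) hμ A hinn⟩ <;>
    obtain ⟨y, hy, h2⟩ := exists_mem_OppOf h <;>
    obtain ⟨t, rfl⟩ := hΦ y
  · exact ((bal_of A hinn _).field hQ h5 hpr (by simpa using h1) hμ hy h2).1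
  · exact ((bal_of A hinn _).field hQ h5 hpr (by simpa using h1) hμ hy h2).2

theorem balance_graph (hΦ : Function.Surjective (Phi Q)) (hpr : p ≠ r) (A : Subgroup (MulAut (Cfsg.POmega F Q)))
    (hinn : ∀ k, MulAut.conj k ∈ A) (hN : NonExc Q) (hev : Even (Fintype.card ι)) (hσ : s.σ = 1) (hd : dl s ≠ 1)
    (hord : orderOf (Phi Q s) = p) : Cfsg.pPrimeCore p ↥(A ⊓ Subgroup.centralizer {Phi Q s}) = ⊥ := by
  replace hd := (Int.units_eq_one_or _).resolve_left hd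
  have h1 := pow_orderOf_eq_one (Phi Q s)
  rw [hord] at h1
  obtain rfl : p = 2 := by
    obtain ⟨a, ha⟩ := (Phi_eq_one_iff hQ h5).mp ((map_pow _ s p).trans h1)
    have h2 := dl_pow hQ hN hev hσ p
    rw [ha, dl_scal hQ hN hev, hd] at h2
    exact ((Fact.out : p.Prime).eq_two_or_odd').resolve_right fun h => by
      rw [h.neg_one_pow] at h2; exact absurd h2 (by decide)
  by_contra h
  obtain ⟨y, hy, h2⟩ := exists_mem_OppOf h
  obtain ⟨t, rfl⟩ := hΦ y
  exact h2 ((bal_of A hinn _).graph hQ h5 hpr hN hev hσ hd h1 hy)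

omit hQ h5 in
theorem isFieldAutClass_of_conj (hm : ∀ (σ : F ≃+* F) v, Q (fun i => σ (v i)) = σ (Q v)) (hσ : s.σ ≠ 1)
    {H : Subgroup _} (h : Cfsg.IsConjUnder H (Phi Q s) (Phi Q (fieldSemi Q s.σ (hm _)))) :
    Cfsg.IsFieldAutClassPOmega Q (Phi Q s) := by
  obtain ⟨α, -, h⟩ := h
  exact ⟨α, _, s.σ, hσ, (isFieldAut_iff s.σ (hm _) _).mpr rfl, h.symm⟩

omit hQ h5 in
theorem isFieldAutClassMinus {m : ℕ} (hm : 2 ≤ m) {a b : F}
    (hab : ∀ z₁ z₂ : F, z₁ ^ 2 + a * z₁ * z₂ + b * z₂ ^ 2 = 0 → z₁ = 0 ∧ z₂ = 0) {s : Semi (qMinus m F a b)}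
    (hσ : s.σ ≠ 1) (hs : Phi _ s ^ p = 1) : Cfsg.IsFieldAutClassPOmegaMinus m (a := a) (b := b) (Phi _ s) := by
  have hQ := nondeg_qMinus m (disc_ne_zero_of_anisotropic hab)
  obtain ⟨h1, μ, hμ⟩ := exists_normalize hQ (by simp; omega) Fact.out hs hσ
  obtain ⟨F₀, _, _, j, hj⟩ := exists_fixed_field s.σ
  obtain ⟨a₀, b₀, h₀⟩ := exists_aniso F₀
  obtain ⟨D, hD⟩ := desc_minus hQ (nonExc_qMinus' hm (disc_ne_zero_of_anisotropic hab)) (m := m) (by simp; ring)
    (Fact.out : p.Prime).pos (by simpa using h1) hμ (j := j) (by simpa using hj) h₀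
    fun ⟨U, hU⟩ => absurd hU (not_isLag_qMinus hab)
  let D' := coordDesc j (qMinus_map' j m a₀ b₀)
  obtain ⟨L, hL⟩ := D.bc.exists_equiv D'.bc
  have h2 : ∀ v, qMinus m F (j a₀) (j b₀) (L v) = (D.a : F)⁻¹ * qMinus m F a b v :=
    D.simil_ext (Q' := qMinus m F (j a₀) (j b₀)) L.toLinearMap _ fun v => by
      rw [LinearEquiv.coe_coe, hL, D.map_Q, D'.map_Q]; simp [D', coordDesc]
  have h3 : (j a₀) ^ 2 - 4 * j b₀ ≠ 0 := by
    simpa [map_ofNat] using (_root_.map_ne_zero j).mpr (disc_ne_zero_of_anisotropic h₀)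
  have ha := (hj _).mpr ⟨a₀, rfl⟩
  have hb := (hj _).mpr ⟨b₀, rfl⟩
  obtain ⟨ψ, hψ⟩ := exists_POmega_congr L (inv_ne_zero D.a.ne_zero) h2
  refine ⟨j a₀, j b₀, ψ, s.σ, aniso_of_not_isLag (m := m) h3 fun U hU => not_isLag_qMinus (m := m) hab
    (U := U.comap L.toLinearMap) ⟨fun v hv => by simpa [h2] using hU.ts _ hv, by
      rw [← hU.dim, Submodule.comap_equiv_eq_map_symm, LinearEquiv.finrank_map_eq]⟩, hσ, ha, hb,
    (isFieldAut_iff s.σ (qMinus_map m s.σ ha hb) _).mpr (MulEquiv.ext fun x => ?_)⟩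
  have h4 : semiCongr L (inv_ne_zero D.a.ne_zero) h2 (Semi.scal _ μ * s) = fieldSemi _ s.σ (qMinus_map m s.σ ha hb) :=
    Semi.ext_of_nondeg (nondeg_qMinus m h3) (D'.semi_ext (one_mul _) fun v => by
      rw [← hL, semiCongr_e, hD, hL, fieldSemi_e]
      ext i
      exact ((hj _).mpr ⟨v i, rfl⟩).symm)
  rw [← h4, ← Phi_scal_mul μ s]
  exact (hψ _ _).trans (congrArg _ (ψ.apply_symm_apply x))

end Coord

end Cfsg.Agent.Lib.Forms
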