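import Cfsg.Agent.Lib.Forms.OrthTri3

/-!
# `Out(PΩ⁺₈(q))`
-/

set_option autoImplicit false
set_option linter.unusedSectionVars false
set_option maxHeartbeats 400000

namespace Cfsg.Agent.Lib.Forms

open Module QuadraticMap Cfsg.Agent.Lib.Aut Cfsg.Agent.Lib.Invol

section General

variable {F V : Type*} [Field F] [AddCommGroup V] [Module F V] {Q : QuadraticForm F V} [FiniteDimensional F V]
  [Finite F]

theorem par_of_mem_NO (hQ : Nondeg Q) (hN : NonExc Q) {U : Submodule F V} (hU : IsLag Q U) {s : Semi Q}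
    (h : s ∈ NO Q) : par s = 1 := by
  obtain ⟨a, g, hg, rfl⟩ := h
  rw [par_mul hQ hN, par_scal hQ hN, one_mul, par_ofOG hQ hN hU, ((hQ.mem_Om_iff hN g).mp hg).1]

theorem exists_of_par_sc (hQ : Nondeg Q) (hN : NonExc Q) {U : Submodule F V} (hU : IsLag Q U) {s : Semi Q}
    (hs : s.σ = 1) (h1 : par s = 1) (h2 : Semi.sc Q s = 1) :
    ∃ a g, dick g = 1 ∧ s = Semi.scal Q a * Semi.ofOG Q g := by
  obtain ⟨a, g, rfl⟩ := Semi.exists_scal_mul hs (sqc_eq_one_iff.mp h2)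
  rw [par_mul hQ hN, par_scal hQ hN, one_mul, par_ofOG hQ hN hU] at h1
  exact ⟨a, g, h1, rfl⟩

theorem comm_ofOG_mem_NO (hQ : Nondeg Q) (hN : NonExc Q) {g : OG Q} (hg : dick g = 1) (t : Semi Q) :
    Semi.ofOG Q g * t * (Semi.ofOG Q g)⁻¹ * t⁻¹ ∈ NO Q := by
  have e : Semi.ofOG Q g * t * (Semi.ofOG Q g)⁻¹ * t⁻¹ = Semi.ofOG Q (g * Semi.cj Q t g⁻¹) := by
    rw [map_mul, Semi.ofOG_cj, map_inv]; group
  rw [e]
  refine ofOG_mem_NO ((hQ.mem_Om_iff hN _).mpr ?_)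
  have hi : dick g⁻¹ = 1 := by rw [← hg]; exact (map_inv (hQ.dickHom hN) g).trans (Int.units_inv_eq_self _)
  have hj : spin g⁻¹ = spin g := (map_inv (hQ.spinHom hN) g).trans (Int.units_inv_eq_self _)
  rw [hQ.dick_mul hN, hQ.spin_mul hN, (hQ.dick_spin_cj hN t _).1, (hQ.dick_spin_cj hN t _).2, hi, hg, hj]
  simp

theorem SymComp.exists_lag (C : SymComp Q) (h8 : finrank F V = 8) : ∃ U, IsLag Q U := by
  obtain ⟨x, hx0, hx⟩ := SymComp.exists_singular Q h8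
  exact ⟨_, C.isLag_U hx0 hx⟩

theorem SymComp.par_ρ (C : SymComp Q) (h8 : finrank F V = 8) : par C.ρ = -1 := by
  obtain ⟨U, hU⟩ := C.exists_lag h8
  rw [SymComp.ρ, par_ofOG C.nondeg (C.nondeg.nonExc_of_finrank (by omega)) hU, C.nondeg.dick_refl (by simp [C.Q_u])]

/-- A related triple whose classes are the three involutions of `Outdiag`. -/
theorem SymComp.exists_klein (C : SymComp Q) (h8 : finrank F V = 8) (h2 : (2 : F) ≠ 0) :
    ∃ (A B : Semi Q) (g : OG Q), C.Rel3 A B (Semi.ofOG Q g) ∧ dick g = 1 ∧ spin g = -1 ∧ Semi.sc Q A = -1 ∧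
      Semi.sc Q B = -1 := by
  obtain ⟨μ, hμ0, hμ⟩ := exists_nonsquare_of_two h2
  obtain ⟨v, hv⟩ := C.nondeg.exists_Q_eq (by omega) μ
  have hv0 : Q v ≠ 0 := by simp [hv, hμ0]
  have hu : Q C.u ≠ 0 := by simp [C.Q_u]
  have hN := C.nondeg.nonExc_of_two h2
  refine ⟨_, _, _, SymComp.Rel3.refl_pair (C := C) hv0 hu, by
    rw [C.nondeg.dick_refl_mul hv0, C.nondeg.dick_refl hu, neg_neg], ?_, ?_, ?_⟩
  · rw [C.nondeg.spin_mul hN, C.nondeg.spin_refl hv0, C.nondeg.spin_refl hu, C.Q_u, sqc_one, mul_one, hv,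
      sqc_eq_neg_one_iff.mpr hμ]
  · simp [Semi.sc_apply, C.Q_u, hv, sqc_eq_neg_one_iff.mpr hμ, sqc_one]
  · simp [Semi.sc_apply, C.Q_u, hv, sqc_eq_neg_one_iff.mpr hμ, sqc_one]

theorem SymComp.Rel3.mem_NO_of_sc {C : SymComp Q} (h8 : finrank F V = 8) {X Y Z : Semi Q} (h : C.Rel3 X Y Z)
    (hσ : Z.σ = 1) (h1 : Semi.sc Q X = 1) (h3 : Semi.sc Q Z = 1) : Z ∈ NO Q := by
  have hQ := C.nondeg
  have hN := hQ.nonExc_of_finrank (by omega)
  obtain ⟨U, hU⟩ := C.exists_lag h8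
  obtain ⟨a, g, hg, rfl⟩ := exists_of_par_sc hQ hN hU hσ (h.par₃ h8) h3
  rcases Int.units_eq_one_or (spin g) with hs | hs
  · exact ⟨a, g, (hQ.mem_Om_iff hN g).mpr ⟨hg, hs⟩, rfl⟩
  by_cases h2 : (2 : F) = 0
  · exact absurd ((hQ.spin_of_two hN h2 g).symm.trans hs) (by decide)
  obtain ⟨A, B, k, k1, k2, k3, k4, -⟩ := C.exists_klein h8 h2
  have := sc_of_mem_NO ((h.mul k1).mem_NO₁ h8 ⟨a, g * k, (hQ.mem_Om_iff hN _).mpr
    ⟨by rw [hQ.dick_mul hN, hg, k2]; rfl, by rw [hQ.spin_mul hN, hs, k3]; rfl⟩, by rw [map_mul, mul_assoc]⟩)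
  rw [map_mul, h1, k4] at this
  exact absurd this (by decide)

namespace OmModel

variable {G : Type*} [Group G] (M : OmModel Q G) (C : SymComp Q) (h8 : finrank F V = 8)
  {τ : MulAut (G ⧸ Subgroup.center G)} (hτ : ∀ s₁ s₂ s₃, C.Rel3 s₁ s₂ s₃ → τ * M.Φ s₁ * τ⁻¹ = M.Φ s₂)
include h8 hτ

theorem eq_zero_of_tau_pow {k : ℕ} (hk : k < 3) (h : τ ^ k ∈ M.Φ.range) : k = 0 := by
  have := M.tau_notMem C h8 hτ
  interval_cases k
  · rfl
  · exact absurd (by simpa using h) this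
  · refine absurd ?_ this
    have e : τ = τ ^ 2 * τ ^ 2 := by rw [← pow_add, pow_succ, M.tau_pow_three C h8 hτ, one_mul]
    rw [e]
    exact mul_mem h h

variable {φ : Semi Q} {f : ℕ} (hf : 0 < f) (hφ : orderOf φ.σ = f) (hgen : ∀ σ : F ≃+* F, ∃ i : ℕ, σ = φ.σ ^ i)
  (hφf : φ ^ f = 1) (hφ3 : C.Rel3 φ φ φ) (hφu : φ.e C.u = C.u)
include hf hφ hgen hφf hφ3 hφu

theorem out_tri {A : Type*} [Group A] (i : A →* Cfsg.Out (G ⧸ Subgroup.center G))
    (h1 : QuotientGroup.mk τ ∈ i.range) (h2 : QuotientGroup.mk (M.Φ C.ρ) ∈ i.range)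
    (h3 : ∀ d : Semi Q, d.σ = 1 → par d = 1 → QuotientGroup.mk (M.Φ d) ∈ i.range)
    (h4 : ∀ x, ∃ (d : Semi Q) (e k : ℕ), d.σ = 1 ∧ par d = 1 ∧ e < 2 ∧ k < 3 ∧
      i x = QuotientGroup.mk (M.Φ d * (M.Φ C.ρ ^ e * τ ^ k)) ∧ d * φ * d⁻¹ * φ⁻¹ ∈ NO Q ∧
      (d ∈ NO Q → e = 0 → k = 0 → x = 1)) :
    Nonempty (Cfsg.Out (G ⧸ Subgroup.center G) ≃* A × Multiplicative (ZMod f)) := by
  have hQ := C.nondeg
  have hN := hQ.nonExc_of_finrank (by omega)
  obtain ⟨U, hU⟩ := C.exists_lag h8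
  have : NeZero f := ⟨hf.ne'⟩
  let π := QuotientGroup.mk' (Cfsg.Inn (G ⧸ Subgroup.center G))
  have hπ : ∀ s, π (M.Φ s) = 1 ↔ s ∈ NO Q := fun s =>
    (QuotientGroup.eq_one_iff _).trans (M.Φ_mem_Inn_iff hQ (by omega))
  have c1 : Commute τ (M.Φ φ) := mul_inv_eq_iff_eq_mul.mp (hτ _ _ _ hφ3)
  have c2 : Commute C.ρ φ := by
    have := Semi.ofOG_cj φ (refl Q C.u)
    rw [Semi.cj_refl, hφu, eq_mul_inv_iff_mul_eq] at this
    exact this
  refine prod_equiv i (π (M.Φ φ)) (by rw [← map_pow, ← map_pow, hφf, map_one, map_one]) (fun x => ?_) (fun o => ?_)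
    fun x j hx => ?_
  · obtain ⟨d, e, k, -, -, -, -, k1, k2, -⟩ := h4 x
    rw [k1]
    change Commute (π _) _
    rw [map_mul]
    refine Commute.mul_left ?_ ((((c2.map M.Φ).pow_left e).mul_left (c1.pow_left k)).map π)
    rw [← hπ] at k2
    simp only [map_mul, map_inv] at k2
    exact mul_inv_eq_iff_eq_mul.mp (mul_inv_eq_one.mp k2)
  · obtain ⟨α, rfl⟩ := QuotientGroup.mk'_surjective _ o
    obtain ⟨k, s, rfl⟩ := M.exists_tau_pow C h8 hτ α
    obtain ⟨j, hj⟩ := hgen s.σ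
    have k1 : ∀ d : Semi Q, d.σ = 1 → π (M.Φ d) ∈ i.range := fun d hd => by
      rcases Int.units_eq_one_or (par d) with h | h
      · exact h3 d hd h
      · have := h3 (d * C.ρ) (by simp [hd, SymComp.ρ]) (by rw [par_mul hQ hN, h, C.par_ρ h8]; rfl)
        rw [map_mul, QuotientGroup.mk_mul] at this
        exact (i.range.mul_mem_cancel_right h2).mp this
    obtain ⟨a, ha⟩ := mul_mem (pow_mem h1 k) (k1 (s * (φ ^ j)⁻¹) (by simp [hj]))
    refine ⟨a, j, ?_⟩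
    rw [ha]
    change π _ = π _ ^ k * _ * _
    simp only [map_mul, map_inv, map_pow]
    group
  · obtain ⟨d, e, k, k0, k1, k2, k3, k4, -, k5⟩ := h4 x
    rw [k4] at hx
    change π _ * _ = 1 at hx
    rw [← map_pow π, ← map_mul] at hx
    obtain ⟨t, ht⟩ := (QuotientGroup.eq_one_iff _).mp hx
    obtain rfl := M.eq_zero_of_tau_pow C h8 hτ k3 (by
      induction t using QuotientGroup.induction_on with
      | H b =>
        rw [← M.Φ_ofOG] at ht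
        exact ⟨(d * C.ρ ^ e)⁻¹ * Semi.ofOG Q (M.j b) * (φ ^ j)⁻¹, by
          simp only [map_mul, map_inv, map_pow, ht]; group⟩)
    rw [pow_zero, mul_one, ← map_pow, ← map_pow, ← map_mul, ← map_mul, hπ] at hx
    have k6 : f ∣ j := by
      have := σ_of_mem_NO hx
      simpa [k0, SymComp.ρ, ← orderOf_dvd_iff_pow_eq_one, hφ] using this
    refine ⟨?_, k6⟩
    obtain ⟨j, rfl⟩ := k6
    rw [pow_mul, hφf, one_pow, mul_one] at hx
    have k7 := par_of_mem_NO hQ hN hU hx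
    interval_cases e
    · exact k5 (by simpa using hx) rfl rfl
    · rw [pow_one, par_mul hQ hN, k1, C.par_ρ h8] at k7
      exact absurd k7 (by decide)

theorem out_S3 (h2 : (2 : F) = 0) :
    Nonempty (Cfsg.Out (G ⧸ Subgroup.center G) ≃* Equiv.Perm (Fin 3) × Multiplicative (ZMod f)) := by
  have hQ := C.nondeg
  have hN := hQ.nonExc_of_finrank (by omega)
  obtain ⟨U, hU⟩ := C.exists_lag h8
  let π := QuotientGroup.mk' (Cfsg.Inn (G ⧸ Subgroup.center G))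
  obtain ⟨i, k1, k2, k3⟩ := exists_S3 (τ := π τ) (ρ := π (M.Φ C.ρ))
    (by rw [← map_mul, ← map_mul, C.ρ_mul_self, map_one, map_one])
    (by rw [← map_inv, ← map_mul, ← map_mul, M.rho_tau C h8 hτ, map_inv])
    (by rw [← map_pow, M.tau_pow_three C h8 hτ, map_one])
  refine M.out_tri C h8 hτ hf hφ hgen hφf hφ3 hφu i k1 k2 (fun d hd hp => ?_) fun x => ?_
  · obtain ⟨a, g, hg, rfl⟩ := exists_of_par_sc hQ hN hU hd hp (sqc_eq_one_iff.mpr (isSquare_of_two h2 _))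
    rw [(QuotientGroup.eq_one_iff _).mpr ((M.Φ_mem_Inn_iff hQ (by omega)).mpr
      ⟨a, g, (hQ.mem_Om_iff hN g).mpr ⟨hg, hQ.spin_of_two hN h2 g⟩, rfl⟩)]
    exact one_mem _
  · obtain ⟨e, k, p1, p2, p3, p4⟩ := k3 x
    exact ⟨1, e, k, rfl, map_one (parHom hQ hN), p1, p2, by simpa [π] using p3, by simp, fun _ => p4⟩

theorem out_S4 (h2 : (2 : F) ≠ 0) :
    Nonempty (Cfsg.Out (G ⧸ Subgroup.center G) ≃* Equiv.Perm (Fin 4) × Multiplicative (ZMod f)) := by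
  have hQ := C.nondeg
  have hN := hQ.nonExc_of_finrank (by omega)
  obtain ⟨U, hU⟩ := C.exists_lag h8
  let π := (QuotientGroup.mk' (Cfsg.Inn (G ⧸ Subgroup.center G)))
  have hπ : ∀ s, π (M.Φ s) = 1 ↔ s ∈ NO Q := fun s =>
    (QuotientGroup.eq_one_iff _).trans (M.Φ_mem_Inn_iff hQ (by omega))
  obtain ⟨A, B, g, r1, r2, r3, r4, r5⟩ := C.exists_klein h8 h2
  have eA : π τ * π (M.Φ (Semi.ofOG Q g)) * (π τ)⁻¹ = π (M.Φ A) := by
    rw [← hτ _ _ _ r1.cyc.cyc]; simp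
  have eB : π τ * π (M.Φ A) * (π τ)⁻¹ = π (M.Φ B) := by rw [← hτ _ _ _ r1]; simp
  have hA : A.σ = 1 := r1.σ₁
  have hB : B.σ = 1 := r1.σ₂
  obtain ⟨i, k0, k1, k2, k3⟩ := exists_S4 (a := π (M.Φ (Semi.ofOG Q g))) (τ := π τ) (ρ := π (M.Φ C.ρ))
    (by rw [← map_mul, ← map_mul, C.ρ_mul_self, map_one, map_one])
    (by rw [← map_inv, ← map_mul, ← map_mul, M.rho_tau C h8 hτ, map_inv])
    (by rw [← map_pow, M.tau_pow_three C h8 hτ, map_one])
    (by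
      rw [← map_mul, ← map_mul, hπ, ← map_mul]
      exact ofOG_mem_NO ((hQ.mem_Om_iff hN _).mpr ⟨by rw [hQ.dick_mul hN, r2]; rfl, by rw [hQ.spin_mul hN, r3]; rfl⟩))
    (by
      have := (hπ _).mpr (comm_ofOG_mem_NO hQ hN r2 C.ρ)
      simp only [map_mul, map_inv] at this
      exact (mul_inv_eq_iff_eq_mul.mp (mul_inv_eq_one.mp this)).symm)
    (by
      have := (hπ _).mpr (((r1.mul r1.cyc).mul r1.cyc.cyc.inv).mem_NO_of_sc h8 (by simp [hA, hB])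
        (by simp [r4, r5, Semi.sc_ofOG]) (by simp [r4, r5, Semi.sc_ofOG]))
      simp only [map_mul, map_inv] at this
      rw [eA, eB, mul_inv_eq_one.mp this])
  rw [eA] at k3
  have kA : π (M.Φ A) ∈ i.range := eA ▸ mul_mem (mul_mem k1 k0) (inv_mem k1)
  have k4 : ∀ d : Semi Q, d.σ = 1 → par d = 1 → Semi.sc Q d = 1 → π (M.Φ d) ∈ i.range := fun d hd hp hc => by
    obtain ⟨a, k, hk, rfl⟩ := exists_of_par_sc hQ hN hU hd hp hc
    rcases Int.units_eq_one_or (spin k) with hs | hs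
    · rw [(hπ _).mpr ⟨a, k, (hQ.mem_Om_iff hN k).mpr ⟨hk, hs⟩, rfl⟩]
      exact one_mem _
    · have := (hπ (Semi.scal Q a * Semi.ofOG Q k * Semi.ofOG Q g)).mpr ⟨a, k * g, (hQ.mem_Om_iff hN _).mpr
        ⟨by rw [hQ.dick_mul hN, hk, r2]; rfl, by rw [hQ.spin_mul hN, hs, r3]; rfl⟩, by rw [map_mul, mul_assoc]⟩
      rw [map_mul, map_mul, mul_eq_one_iff_eq_inv] at this
      rw [this]
      exact inv_mem k0
  refine M.out_tri C h8 hτ hf hφ hgen hφf hφ3 hφu i k1 k2 (fun d hd hp => ?_) fun x => ?_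
  · rcases Int.units_eq_one_or (Semi.sc Q d) with hc | hc
    · exact k4 d hd hp hc
    · have := k4 (d * A) (by simp [hd, hA]) (by rw [par_mul hQ hN, hp, r1.par₁ h8]; rfl) (by simp [hc, r4])
      rw [map_mul, map_mul] at this
      exact (i.range.mul_mem_cancel_right kA).mp this
  · obtain ⟨v, w, e, k, p1, p2, p3, p4, p5, p6⟩ := k3 x
    have c1 : Commute (π (M.Φ (Semi.ofOG Q g))) (π (M.Φ φ)) := by
      have := (hπ _).mpr (comm_ofOG_mem_NO hQ hN r2 φ)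
      simp only [map_mul, map_inv] at this
      exact mul_inv_eq_iff_eq_mul.mp (mul_inv_eq_one.mp this)
    have c2 : Commute (π τ) (π (M.Φ φ)) := Commute.map (mul_inv_eq_iff_eq_mul.mp (hτ _ _ _ hφ3)) π
    have c3 : Commute (π (M.Φ A)) (π (M.Φ φ)) := eA ▸ (c2.mul_left c1).mul_left c2.inv_left
    refine ⟨Semi.ofOG Q g ^ v * A ^ w, e, k, by simp [hA], ?_, p3, p4, by simpa [π] using p5, ?_, fun h => ?_⟩
    · rw [← parHom_apply hQ hN, map_mul, map_pow, map_pow, parHom_apply, parHom_apply, r1.par₁ h8, r1.par₃ h8]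
      simp
    · rw [← hπ]
      simp only [map_mul, map_inv, map_pow]
      rw [((c1.pow_left v).mul_left (c3.pow_left w)).eq]
      group
    have h5 := sc_of_mem_NO h
    have hw : w = 0 := by
      interval_cases w
      · rfl
      · simp [Semi.sc_ofOG, r4] at h5
    subst hw
    have hv : v = 0 := by
      interval_cases v
      · rfl
      · have := sc_of_mem_NO (r1.mem_NO₁ h8 (by simpa using h))
        rw [r4] at this
        exact absurd this (by decide)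
    exact p6 hv rfl

end OmModel

end General

section Eight

universe u

variable {F : Type u} [Field F] [Finite F]

theorem zorn_field (σ : F ≃+* F) : (zorn F).Rel3 (fieldSemi _ σ (qPlus_map 4 σ)) (fieldSemi _ σ (qPlus_map 4 σ))
    (fieldSemi _ σ (qPlus_map 4 σ)) :=
  .of_aut fun x y => by ext (i | i) <;> fin_cases i <;> simp [fieldSemi_e, zorn, zornMul]

theorem zorn_field_u (σ : F ≃+* F) : (fieldSemi _ σ (qPlus_map 4 σ)).e (zorn F).u = (zorn F).u := by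
  ext (i | i) <;> fin_cases i <;> simp [fieldSemi_e, zorn]

theorem finrank_eight : finrank F (Fin 4 ⊕ Fin 4 → F) = 8 := by simp

theorem exists_triality : ∃ τ : MulAut (Cfsg.POmega F (qPlus 4 F)),
    ∀ s₁ s₂ s₃, (zorn F).Rel3 s₁ s₂ s₃ → τ * Phi _ s₁ * τ⁻¹ = Phi _ s₂ :=
  (omModel _).exists_tau (zorn F) finrank_eight

theorem exists_tau_pow_plus {τ : MulAut (Cfsg.POmega F (qPlus 4 F))}
    (hτ : ∀ s₁ s₂ s₃, (zorn F).Rel3 s₁ s₂ s₃ → τ * Phi _ s₁ * τ⁻¹ = Phi _ s₂) (α : MulAut (Cfsg.POmega F (qPlus 4 F))) :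
    ∃ (k : ℕ) (s : Semi (qPlus 4 F)), α = τ ^ k * Phi _ s :=
  (omModel _).exists_tau_pow (zorn F) finrank_eight hτ α

theorem tau_conj_plus {τ : MulAut (Cfsg.POmega F (qPlus 4 F))}
    (hτ : ∀ s₁ s₂ s₃, (zorn F).Rel3 s₁ s₂ s₃ → τ * Phi _ s₁ * τ⁻¹ = Phi _ s₂) {s : Semi (qPlus 4 F)}
    (hs : par s = 1) : ∃ s', s'.σ = s.σ ∧ par s' = 1 ∧ τ * Phi _ s * τ⁻¹ = Phi _ s' :=
  (omModel _).tau_conj (zorn F) finrank_eight hτ (fun σ => ⟨_, rfl, zorn_field σ⟩) hs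

/-- The image of `ker par` is normal in `Aut(PΩ⁺_{2m})`, and conjugation respects the field part up to
conjugacy. -/
theorem conj_Phi_plus {m : ℕ} (hm : 4 ≤ m) (α : MulAut (Cfsg.POmega F (qPlus m F))) {s : Semi (qPlus m F)}
    (hs : par s = 1) : ∃ (s' : Semi (qPlus m F)) (σ : F ≃+* F), s'.σ = σ * s.σ * σ⁻¹ ∧ par s' = 1 ∧
      α * Phi _ s * α⁻¹ = Phi _ s' := by
  have : Fintype F := Fintype.ofFinite F
  have hQ := nondeg_qPlus (F := F) m
  have hN := nonExc_qPlus (F := F) (m := m) (.inr (by omega))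
  rcases hm.eq_or_lt with rfl | hm
  · obtain ⟨τ, hτ⟩ := exists_triality (F := F)
    obtain ⟨k, t, rfl⟩ := exists_tau_pow_plus hτ α
    induction k with
    | zero => exact ⟨t * s * t⁻¹, t.σ, by simp, by rw [par_conj hQ hN, hs], by simp⟩
    | succ k ih =>
      obtain ⟨s', σ, h1, h2, h3⟩ := ih
      obtain ⟨s'', k1, k2, k3⟩ := tau_conj_plus hτ h2
      exact ⟨s'', σ, k1.trans h1, k2, by rw [← k3, ← h3, pow_succ']; group⟩
  · obtain ⟨t, rfl⟩ := Phi_surjective_plus hm α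
    exact ⟨t * s * t⁻¹, t.σ, by simp, by rw [par_conj hQ hN, hs], by simp⟩

theorem normal_DG_plus {m : ℕ} (hm : 4 ≤ m) (hN : NonExc (qPlus m F)) :
    ((DG (nondeg_qPlus m) hN (even_card_plus m)).map (Phi (qPlus m F))).Normal := ⟨by
  rintro _ ⟨d, hd, rfl⟩ α
  have h0 := (mem_DG.mp hd).1
  rw [SetLike.mem_coe, mem_DG, ← par_eq_dl (nondeg_qPlus m) hN (isLag_ker_funLeft_inr m) h0] at hd
  obtain ⟨s', σ, h1, h2, h3⟩ := conj_Phi_plus hm α hd.2
  have h4 : s'.σ = 1 := by simp [h1, hd.1]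
  exact ⟨s', mem_DG.mpr ⟨h4, by rw [← par_eq_dl (nondeg_qPlus m) hN (isLag_ker_funLeft_inr m) h4, h2]⟩, h3.symm⟩⟩

theorem exists_of_fieldClass_plus' {m : ℕ} (hm : 4 ≤ m) {x : MulAut (Cfsg.POmega F (qPlus m F))}
    (hx : Cfsg.IsFieldAutClassPOmega (qPlus m F) x) :
    ∃ s : Semi (qPlus m F), s.σ ≠ 1 ∧ par s = 1 ∧ x = Phi _ s := by
  have : Fintype F := Fintype.ofFinite F
  obtain ⟨α, φ, σ, h1, h2, h3⟩ := hx
  rw [isFieldAut_iff σ (qPlus_map m σ)] at h2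
  obtain ⟨s', ρ, k1, k2, k3⟩ := conj_Phi_plus hm α⁻¹
    (par_fieldSemi_plus (nonExc_qPlus (F := F) (m := m) (.inr (by omega))) σ)
  refine ⟨s', fun h => h1 ?_, k2, by rw [← k3, ← h2, ← h3]; group⟩
  rw [h, eq_comm, conj_eq_one_iff] at k1
  exact k1

theorem out_eight {F : Type u} [Field F] [Fintype F] {p f : ℕ} [Fact p.Prime] (hF : Fintype.card F = p ^ f) :
    ((2 : F) = 0 → Nonempty (Cfsg.Out (Cfsg.POmega F (qPlus 4 F)) ≃* Equiv.Perm (Fin 3) × Multiplicative (ZMod f))) ∧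
    ((2 : F) ≠ 0 → Nonempty (Cfsg.Out (Cfsg.POmega F (qPlus 4 F)) ≃* Equiv.Perm (Fin 4) × Multiplicative (ZMod f))) := by
  obtain ⟨τ, hτ⟩ := exists_triality (F := F)
  obtain ⟨σ, h1, h2, -⟩ := exists_frob_gen hF
  have h3 := fieldSemi_pow σ (qPlus_map 4 σ) (h1 ▸ pow_orderOf_eq_one σ)
  exact ⟨(omModel _).out_S3 (zorn F) finrank_eight hτ (pos_of_card_eq_pow hF) h1 h2 h3 (zorn_field σ) (zorn_field_u σ),
    (omModel _).out_S4 (zorn F) finrank_eight hτ (pos_of_card_eq_pow hF) h1 h2 h3 (zorn_field σ) (zorn_field_u σ)⟩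

end Eight

end Cfsg.Agent.Lib.Forms
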