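import Cfsg.Agent.Lib.Forms.OrthBal
import Cfsg.Agent.Lib.Forms.OrthTri4

/-!
# Local balance for plus type orthogonal groups: automorphisms conjugate to semisimilarities
-/

set_option autoImplicit false
set_option linter.unusedSectionVars false
set_option maxHeartbeats 400000

namespace Cfsg.Agent.Lib.Forms

open Module QuadraticMap

universe u

theorem Nondeg.exists_sing_triple {F V : Type*} [Field F] [Finite F] [AddCommGroup V] [Module F V]
    [FiniteDimensional F V] {Q : QuadraticForm F V} (hQ : Nondeg Q) (h5 : 5 ≤ finrank F V) :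
    ∃ e w z, e ≠ 0 ∧ Q e = 0 ∧ Q w = 0 ∧ Q z = 0 ∧ polar Q e w = 0 ∧ polar Q e z = 0 ∧ polar Q w z = 1 := by
  obtain ⟨w, z, -, hw, hz, hwz, -⟩ := hQ.exists_hyp_pair (by omega)
  obtain ⟨e, h0, he, h1, h2⟩ := exists_singular_perp hQ h5 w z
  exact ⟨e, w, z, h0, he, hw, hz, by rwa [polar_comm], by rwa [polar_comm], hwz⟩

section Coord

variable {F : Type u} [Field F] [Finite F] {ι : Type} [Fintype ι] [DecidableEq ι] {Q : QuadraticForm F (ι → F)}
  {p r : ℕ} [Fact p.Prime] [Fact r.Prime] [CharP F r] {M : Subgroup (MulAut (Cfsg.POmega F Q))} {s : Semi Q}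

theorem oRel_self_of_commute (hQ : Nondeg Q) (h5 : 5 ≤ Fintype.card ι) {y : MulAut (Cfsg.POmega F Q)} {g : OG Q}
    (hg : g ∈ Om Q) (h : Commute y (Phi Q (Semi.ofOG Q g))) : (omModel Q).ORel y g g := by
  obtain ⟨a, rfl⟩ := (omModel Q).exists_j hg
  refine ⟨a, a, rfl, rfl, conj_injective_POmega hQ h5 ?_⟩
  rw [show Phi Q _ = _ from (omModel Q).Φ_ofOG a] at h
  refine Eq.trans ?_ (mul_inv_eq_iff_eq_mul.mpr h.eq)
  ext x; simp

theorem mem_range_of_commute (hQ : Nondeg Q) (h7 : 7 ≤ Fintype.card ι) {e w z : ι → F} (h0 : e ≠ 0) (he : Q e = 0)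
    (hw : Q w = 0) (hz : Q z = 0) (hew : polar Q e w = 0) (hez : polar Q e z = 0) (hwz : polar Q w z ≠ 0)
    {y : MulAut (Cfsg.POmega F Q)} (h1 : Commute y (Phi Q (Semi.ofOG Q (eich Q e w))))
    (h2 : Commute y (Phi Q (Semi.ofOG Q (eich Q e z)))) : ∃ t, Phi Q t = y := by
  have h7' : 7 ≤ finrank F (ι → F) := by simpa
  have hN := hQ.nonExc_of_finrank (by omega)
  have l1 : LinearIndependent F ![e, w] := li_pair_of_ne h0 fun c hc => hwz (by simp [hc, hez])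
  have l2 : LinearIndependent F ![e, z] := li_pair_of_ne h0 fun c hc => hwz (by
    rw [hc, polar_smul_right, polar_comm, hew, smul_zero])
  have r1 : IsRoot (eich Q e w) := ⟨e, w, he, hw, hew, l1, rfl⟩
  have r2 : IsRoot (eich Q e z) := ⟨e, z, he, hz, hez, l2, rfl⟩
  have m : Meets (eich Q e w) (eich Q e z) := ⟨e, h0, by
    rw [hQ.resSp_eich he hew l1]; exact Submodule.subset_span (by simp), by
    rw [hQ.resSp_eich he hez l2]; exact Submodule.subset_span (by simp)⟩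
  exact (omModel Q).exists_Φ_of_pair hQ h7' y r1 r2 r1 r2
    (oRel_self_of_commute hQ (by omega) (r1.mem_Om hQ hN) h1)
    (oRel_self_of_commute hQ (by omega) (r2.mem_Om hQ hN) h2) m (fun h => hwz (h w (by
      rw [hQ.resSp_eich he hew l1]; exact Submodule.subset_span (by simp)) z (by
      rw [hQ.resSp_eich he hez l2]; exact Submodule.subset_span (by simp)))) m

theorem Bal.comm_or {x y : MulAut (Cfsg.POmega F Q)} (B : Bal Q p x M) (hy : y ∈ M) {g : OG Q} (hg : g ∈ Om Q)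
    (h : Commute (Phi Q (Semi.ofOG Q g)) x) :
    Commute y (Phi Q (Semi.ofOG Q g)) ∨ ∃ k ∈ Om Q, Phi Q (Semi.ofOG Q k) ∈ M ∧ Phi Q (Semi.ofOG Q k) ≠ 1 := by
  obtain ⟨a, rfl⟩ := (omModel Q).exists_j hg
  obtain ⟨b, hb⟩ := QuotientGroup.mk_surjective (y (QuotientGroup.mk a))
  have h1 : y * Phi Q (Semi.ofOG Q ((omModel Q).j a)) * y⁻¹ = Phi Q (Semi.ofOG Q ((omModel Q).j b)) :=
    OmModel.ORel.conj_Φ _ ⟨a, b, rfl, rfl, hb.symm⟩
  have h2 : Phi Q (Semi.ofOG Q ((omModel Q).j (b * a⁻¹))) =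
      y * (Phi Q (Semi.ofOG Q ((omModel Q).j a)) * y⁻¹ * (Phi Q (Semi.ofOG Q ((omModel Q).j a)))⁻¹) := by
    simp only [map_mul, map_inv, ← h1, mul_assoc]
  by_cases h3 : Phi Q (Semi.ofOG Q ((omModel Q).j (b * a⁻¹))) = 1
  · left
    rw [h2, ← mul_assoc, ← mul_assoc, mul_inv_eq_one, mul_inv_eq_iff_eq_mul] at h3
    exact h3
  · exact .inr ⟨_, (omModel Q).mem_Om _, h2 ▸ M.mul_mem hy (B.norm _ hg h _ (M.inv_mem hy)), h3⟩

theorem Bal.exists_Phi {x : MulAut (Cfsg.POmega F Q)} (B : Bal Q p x M) (hQ : Nondeg Q) (h7 : 7 ≤ Fintype.card ι)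
    {e w z : ι → F} (h0 : e ≠ 0) (he : Q e = 0)
    (hw : Q w = 0) (hz : Q z = 0) (hew : polar Q e w = 0) (hez : polar Q e z = 0) (hwz : polar Q w z ≠ 0)
    (h1 : Commute (Phi Q (Semi.ofOG Q (eich Q e w))) x) (h2 : Commute (Phi Q (Semi.ofOG Q (eich Q e z))) x)
    (hM : M ≠ ⊥) : ∃ t, Phi Q t ∈ M ∧ Phi Q t ≠ 1 := by
  have hN := hQ.nonExc_of_finrank (by simp; omega)
  obtain ⟨⟨y, hy⟩, hy1⟩ := Subgroup.ne_bot_iff_exists_ne_one.mp hM
  rcases B.comm_or hy (hQ.eich_mem_Om hN he hew) h1 with k1 | ⟨k, -, k1⟩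
  swap; · exact ⟨_, k1⟩
  rcases B.comm_or hy (hQ.eich_mem_Om hN he hez) h2 with k2 | ⟨k, -, k2⟩
  swap; · exact ⟨_, k2⟩
  obtain ⟨t, rfl⟩ := mem_range_of_commute hQ h7 h0 he hw hz hew hez hwz k1 k2
  exact ⟨t, hy, fun h => hy1 (Subtype.ext h)⟩

theorem Bal.exists_Phi_field (B : Bal Q p (Phi Q s) M) (hQ : Nondeg Q) (h7 : 7 ≤ Fintype.card ι)
    (hσ : orderOf s.σ = p) (hsp : s ^ p = 1) (hM : M ≠ ⊥) : ∃ t, Phi Q t ∈ M ∧ Phi Q t ≠ 1 := by
  have hp : p.Prime := Fact.out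
  obtain ⟨F₀, _, _, j, hj⟩ := exists_fixed_field s.σ
  obtain ⟨Q₀, D, hD⟩ := exists_desc hp.pos hσ hsp j hj
  obtain ⟨e, w, z, h0, he, hw, hz, hew, hez, hwz⟩ := (D.nondeg hQ).exists_sing_triple (by simp; omega)
  have k : ∀ w, polar Q₀ e w = 0 → Commute (Phi Q (Semi.ofOG Q (eich Q (D.i e) ((D.a : F)⁻¹ • D.i w)))) (Phi Q s) :=
    fun w hw => by
      rw [← D.extO_eich he hw, ← D.ext_ofOG]
      exact D.commute_ext hQ (by omega) hD _
  exact B.exists_Phi hQ h7 (fun h => h0 (D.bc.injective (by rw [h, map_zero]))) ((D.Q_eq_zero_iff e).mpr he)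
    (by rw [Q_smul, (D.Q_eq_zero_iff w).mpr hw, mul_zero]) (by rw [Q_smul, (D.Q_eq_zero_iff z).mpr hz, mul_zero])
    (by simp [D.map_polar, hew]) (by simp [D.map_polar, hez]) (by simp [D.map_polar, hwz]) (k w hew) (k z hez) hM

theorem Bal.exists_Phi_invol {g : OG Q} (B : Bal Q p (Phi Q (Semi.ofOG Q g)) M) (hQ : Nondeg Q)
    (h7 : 7 ≤ Fintype.card ι) (h2 : (2 : F) ≠ 0) (hg : g * g = 1) {ε : F} (hε : ε = 1 ∨ ε = -1)
    (h5 : 5 ≤ finrank F (eig g ε)) (hM : M ≠ ⊥) : ∃ t, Phi Q t ∈ M ∧ Phi Q t ≠ 1 := by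
  obtain ⟨e, w, z, h0, he, hw, hz, hew, hez, hwz⟩ :=
    (nondeg_restrict (eig_inf_perp hQ h2 hg hε)).exists_sing_triple h5
  replace he : Q e = 0 := he
  have k : ∀ w : eig g ε, Q w = 0 → polar Q e w = 0 →
      Commute (Phi Q (Semi.ofOG Q (eich Q e w))) (Phi Q (Semi.ofOG Q g)) := fun w h1 hw => by
    refine ((?_ : Commute (eich Q (e : ι → F) w) g).map _).map _
    rw [commute_iff_eq, eq_comm, ← mul_inv_eq_iff_eq_mul, ← Semi.cj_ofOG, Semi.cj_eich (Q := Q) _ he hw, Semi.ofOG_e,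
      Semi.ofOG_e, mem_eig.mp e.2, mem_eig.mp w.2]
    have := eich_lin (Q := Q) he h1 hw ε 0 0 ε
    rcases hε with rfl | rfl <;> simpa using this
  exact B.exists_Phi hQ h7 (fun h => h0 (Subtype.ext h)) he hw hz hew hez (hwz.trans_ne one_ne_zero)
    (k w hw hew) (k z hz hez) hM

theorem OppOf_ne_bot_iff {G : Type*} [Group G] {H : Subgroup G} : Core.OppOf p H ≠ ⊥ ↔ Cfsg.pPrimeCore p H ≠ ⊥ :=
  not_congr (Subgroup.map_eq_bot_iff_of_injective _ H.subtype_injective)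

end Coord

section Plus

variable {F : Type u} [Field F] [Fintype F] {p r : ℕ} [Fact p.Prime] [Fact r.Prime] [CharP F r] {m : ℕ}

theorem balance_plus_field (hm : 4 ≤ m) (hpr : p ≠ r) (A : Subgroup (MulAut (Cfsg.POmega F (qPlus m F))))
    (hinn : ∀ k, MulAut.conj k ∈ A) {s : Semi (qPlus m F)} (hσ : s.σ ≠ 1) (hord : orderOf (Phi _ s) = p) :
    Cfsg.pPrimeCore p ↥(A ⊓ Subgroup.centralizer {Phi _ s}) ≠ ⊥ ↔ Cfsg.IsFieldAutClassPOmega (qPlus m F) (Phi _ s) ∧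
      Nat.Coprime p (Nat.card (MonoidHom.eqLocus (Phi _ s).toMonoidHom (MonoidHom.id (Cfsg.POmega F (qPlus m F))))) := by
  have hp : p.Prime := Fact.out
  have hQ := nondeg_qPlus (F := F) m
  have hN := nonExc_qPlus (F := F) (m := m) (.inr (by omega))
  have h7 : 7 ≤ Fintype.card (Fin m ⊕ Fin m) := by simp; omega
  have h3 : Phi _ s ^ p = 1 := hord ▸ pow_orderOf_eq_one (Phi _ s)
  obtain ⟨h1, μ, hμ⟩ := exists_normalize hQ (by omega) hp h3 hσ
  rw [← Phi_scal_mul μ s] at h3 ⊢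
  replace h1 : orderOf (Semi.scal _ μ * s).σ = p := by simpa using h1
  replace hσ : (Semi.scal _ μ * s).σ ≠ 1 := by simpa using hσ
  generalize Semi.scal _ μ * s = s at h1 hμ h3 hσ
  refine ⟨fun h => ?_, fun h => ne_bot_of_field hQ (by omega) hp h1 hμ A hinn h.2⟩
  obtain ⟨t, ht, ht1⟩ := (bal_of A hinn _).exists_Phi_field hQ h7 h1 hμ (OppOf_ne_bot_iff.mpr h)
  obtain ⟨h2, h4⟩ := (bal_of A hinn _).field hQ (by omega) hpr h1 hμ ht ht1
  refine ⟨isFieldAutClass_of_conj (qPlus_map m) hσ (conj_of_even hQ hN (even_card_plus m) (by omega) hp rfl hσ h3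
    (by rw [← map_pow, fieldSemi_pow _ _ (h1 ▸ pow_orderOf_eq_one _), map_one]) ?_), h4⟩
  have h5 := map_pow (parHom hQ hN) s p
  rw [hμ, map_one, parHom_apply] at h5
  rw [par_fieldSemi_plus hN]
  refine (Int.units_eq_one_or _).resolve_right fun h6 => ?_
  rw [h6, (hp.odd_of_ne_two h2).neg_one_pow] at h5
  exact absurd h5 (by decide)

theorem balance_plus_graph (hm : 4 ≤ m) (hpr : p ≠ r) (A : Subgroup (MulAut (Cfsg.POmega F (qPlus m F))))
    (hinn : ∀ k, MulAut.conj k ∈ A) {s : Semi (qPlus m F)} (hσ : s.σ = 1) (hd : dl s ≠ 1)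
    (hord : orderOf (Phi _ s) = p) : Cfsg.pPrimeCore p ↥(A ⊓ Subgroup.centralizer {Phi _ s}) = ⊥ := by
  have hQ := nondeg_qPlus (F := F) m
  have hN := nonExc_qPlus (F := F) (m := m) (.inr (by omega))
  have hev := even_card_plus m
  have h7 : 7 ≤ Fintype.card (Fin m ⊕ Fin m) := by simp; omega
  rcases hm.eq_or_lt with rfl | hm
  swap
  · exact balance_graph hQ (by omega) (Phi_surjective_plus hm) hpr A hinn hN hev hσ hd hord
  replace hd := (Int.units_eq_one_or _).resolve_left hd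
  have h1 := pow_orderOf_eq_one (Phi _ s)
  rw [hord] at h1
  obtain rfl : p = 2 := by
    obtain ⟨a, ha⟩ := (Phi_eq_one_iff hQ (by omega)).mp ((map_pow _ s p).trans h1)
    have h2 := dl_pow hQ hN hev hσ p
    rw [ha, dl_scal hQ hN hev, hd] at h2
    exact ((Fact.out : p.Prime).eq_two_or_odd').resolve_right fun h => by
      rw [h.neg_one_pow] at h2; exact absurd h2 (by decide)
  have h2 : (2 : F) ≠ 0 := fun h => hpr ((Nat.prime_dvd_prime_iff_eq Fact.out Nat.prime_two).mp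
    ((CharP.cast_eq_zero_iff F r 2).mp h)).symm
  by_contra h
  have B := bal_of (p := 2) A hinn (Phi _ s)
  obtain ⟨t, ht, ht1⟩ : ∃ t, Phi _ t ∈ Core.OppOf 2 (A ⊓ Subgroup.centralizer {Phi _ s}) ∧ Phi _ t ≠ 1 := by
    replace h := OppOf_ne_bot_iff.mpr h
    generalize Core.OppOf 2 (A ⊓ Subgroup.centralizer {Phi _ s}) = M at B h
    rcases graph_invol_cases hQ hN hev h2 (by omega) hσ hd h1 with ⟨a, g, rfl, hg, hg'⟩ | ⟨l, -, -, -, h6⟩
    · rw [Phi_scal_mul] at B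
      have h3 := finrank_eig_add h2 hg
      rw [dick_invol h2 hg] at hg'
      have h4 : Odd (finrank F (eig g (-1))) := Nat.not_even_iff_odd.mp fun h => by
        rw [h.neg_one_pow] at hg'; exact absurd hg' (by decide)
      rw [finrank_eight] at h3
      obtain ⟨k, hk⟩ := h4
      by_cases h5 : 5 ≤ finrank F (eig g 1)
      · exact B.exists_Phi_invol hQ h7 h2 hg (.inl rfl) h5 h
      · exact B.exists_Phi_invol hQ h7 h2 hg (.inr rfl) (by omega) h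
    · exact absurd h6 (by decide)
  exact ht1 (B.graph hQ (by omega) hpr hN hev hσ hd h1 ht)

theorem balance_plus_Phi (hm : 4 ≤ m) (hpr : p ≠ r) (A : Subgroup (MulAut (Cfsg.POmega F (qPlus m F))))
    (hinn : ∀ k, MulAut.conj k ∈ A) {s : Semi (qPlus m F)} (hs : ¬ (s.σ = 1 ∧ par s = 1))
    (hord : orderOf (Phi _ s) = p) :
    Cfsg.pPrimeCore p ↥(A ⊓ Subgroup.centralizer {Phi _ s}) ≠ ⊥ ↔ Cfsg.IsFieldAutClassPOmega (qPlus m F) (Phi _ s) ∧
      Nat.Coprime p (Nat.card (MonoidHom.eqLocus (Phi _ s).toMonoidHom (MonoidHom.id (Cfsg.POmega F (qPlus m F))))) := by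
  by_cases hσ : s.σ = 1
  swap
  · exact balance_plus_field hm hpr A hinn hσ hord
  have hQ := nondeg_qPlus (F := F) m
  have hN := nonExc_qPlus (F := F) (m := m) (.inr (by omega))
  refine iff_of_false (not_not.mpr (balance_plus_graph hm hpr A hinn hσ (fun h => hs ⟨hσ, ?_⟩) hord)) fun h => ?_
  · rwa [par_eq_dl hQ hN (isLag_ker_funLeft_inr m) hσ]
  · obtain ⟨t, ht, -, h1⟩ := exists_of_fieldClass_plus' hm h.1
    obtain ⟨c, rfl⟩ := (Phi_eq_iff hQ (by simp; omega)).mp h1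
    exact ht (by simpa using hσ)

theorem card_eqLocus_conj {G : Type*} [Group G] (α x : MulAut G) :
    Nat.card (MonoidHom.eqLocus (α * x * α⁻¹).toMonoidHom (MonoidHom.id G)) =
      Nat.card (MonoidHom.eqLocus x.toMonoidHom (MonoidHom.id G)) :=
  (Nat.card_congr (Equiv.subtypeEquiv α.toEquiv fun a => by
    change x a = a ↔ (α * x * α⁻¹) (α a) = α a
    simp)).symm

theorem pPrimeCore_conj_iff {G : Type*} [Group G] (A : Subgroup G) (α x : G) :
    Cfsg.pPrimeCore p ↥(A.map (MulAut.conj α).toMonoidHom ⊓ Subgroup.centralizer {α * x * α⁻¹}) ≠ ⊥ ↔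
      Cfsg.pPrimeCore p ↥(A ⊓ Subgroup.centralizer {x}) ≠ ⊥ := by
  rw [← Core.map_conj_centralizer_singleton, ← Core.map_conj_inf, ← OppOf_ne_bot_iff, ← Core.OppOf_conj, Ne,
    Subgroup.map_eq_bot_iff_of_injective _ (MulAut.conj α).injective, ← OppOf_ne_bot_iff]

theorem conj_mem_map_conj {G : Type*} [Group G] {A : Subgroup (MulAut G)} (hinn : ∀ k, MulAut.conj k ∈ A)
    (α : MulAut G) (k : G) : MulAut.conj k ∈ A.map (MulAut.conj α).toMonoidHom :=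
  ⟨MulAut.conj (α⁻¹ k), hinn _, by ext y; simp⟩

theorem tri_alg {G : Type*} [Group G] {τ ρ s : G} (h3 : τ ^ 3 = 1) (h6 : ρ * τ * ρ⁻¹ = τ⁻¹) (h7 : ρ * ρ = 1)
    (k : ℕ) : τ ^ k * (τ ^ k * s) * (τ ^ k)⁻¹ = ρ * (τ ^ k * (ρ * s) * (τ ^ k)⁻¹) := by
  have h8 : ρ * τ ^ k * ρ⁻¹ = τ ^ k * τ ^ k := by
    rw [← conj_pow, h6, ← (Commute.refl τ).mul_pow]
    congr 1
    rw [inv_eq_iff_mul_eq_one, ← h3, pow_three]
  rw [inv_eq_of_mul_eq_one_left h7] at h8
  calc _ = τ ^ k * τ ^ k * s * (τ ^ k)⁻¹ := by group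
    _ = _ := by rw [← h8]; group

theorem tri_alg' {G : Type*} [Group G] {τ s t : G} {k n : ℕ} (h : (τ ^ k * s) ^ n = τ ^ (k * n) * t) :
    (τ ^ k * s) ^ (n + 1) = τ ^ (k * (n + 1)) * ((τ ^ k)⁻¹ * t * (τ ^ k)⁻¹⁻¹ * s) := by
  rw [pow_succ, h, mul_add, pow_add, mul_one]
  group

theorem balance_plus_conj (hm : 4 ≤ m) (hpr : p ≠ r) (A : Subgroup (MulAut (Cfsg.POmega F (qPlus m F))))
    (hinn : ∀ k, MulAut.conj k ∈ A) {x α : MulAut (Cfsg.POmega F (qPlus m F))} {s : Semi (qPlus m F)}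
    (h : α * x * α⁻¹ = Phi _ s) (hord : orderOf x = p) (hnot : ¬ Cfsg.IsInnerDiagonalAutPOmegaPlus m x) :
    Cfsg.pPrimeCore p ↥(A ⊓ Subgroup.centralizer {x}) ≠ ⊥ ↔ Cfsg.IsFieldAutClassPOmega (qPlus m F) x ∧
      Nat.Coprime p (Nat.card (MonoidHom.eqLocus x.toMonoidHom (MonoidHom.id (Cfsg.POmega F (qPlus m F))))) := by
  have hQ := nondeg_qPlus (F := F) m
  have hN := nonExc_qPlus (F := F) (m := m) (.inr (by omega))
  have key := balance_plus_Phi (p := p) hm hpr (A.map (MulAut.conj α).toMonoidHom) (conj_mem_map_conj hinn α)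
    (s := s) (fun hs => hnot ?_) (by
      rw [← h, ← hord]; exact (MulAut.conj α).orderOf_eq x)
  · rw [← h, pPrimeCore_conj_iff, card_eqLocus_conj] at key
    rw [key]
    refine and_congr_left fun _ => ⟨?_, ?_⟩
    · rintro ⟨β, φ, σ, h1, h2, h3⟩
      exact ⟨β * α, φ, σ, h1, h2, by rw [← h3]; group⟩
    · rintro ⟨β, φ, σ, h1, h2, h3⟩
      exact ⟨β * α⁻¹, φ, σ, h1, h2, by rw [← h3]; group⟩
  · obtain ⟨s', σ, h1, h2, h3⟩ := conj_Phi_plus hm α⁻¹ hs.2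
    have h4 : s'.σ = 1 := by simp [h1, hs.1]
    exact (exists_simil_iff (Q := qPlus m F) (Cfsg.PreservesSingularClasses (qPlus m F)) x).mpr
      ⟨s', h4, (preserves_iff_par hQ hN (isLag_ker_funLeft_inr m) h4).mpr h2, by rw [← h3, ← h]; group⟩

theorem conj_range_or_three {x : MulAut (Cfsg.POmega F (qPlus 4 F))} (hx : x ^ p = 1) :
    (∃ α s, α * x * α⁻¹ = Phi _ s) ∨ p = 3 := by
  have hQ := nondeg_qPlus (F := F) 4
  have hN := nonExc_qPlus (F := F) (m := 4) (.inr (by omega))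
  obtain ⟨τ, hτ⟩ := exists_triality (F := F)
  have h3 : τ ^ 3 = 1 := (omModel _).tau_pow_three (zorn F) finrank_eight hτ
  obtain ⟨k, s, rfl⟩ := exists_tau_pow_plus hτ x
  rcases Int.units_eq_one_or (par s) with hs | hs
  · have h1 : ∀ n : ℕ, ∃ t, par t = 1 ∧ (τ ^ k * Phi _ s) ^ n = τ ^ (k * n) * Phi _ t := fun n => by
      induction n with
      | zero => exact ⟨1, map_one (parHom hQ hN), by simp⟩
      | succ n ih =>
        obtain ⟨t, h1, h2⟩ := ih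
        obtain ⟨t', -, -, h4, h5⟩ := conj_Phi_plus le_rfl (τ ^ k)⁻¹ h1
        exact ⟨t' * s, by rw [par_mul hQ hN, h4, hs, mul_one], by rw [tri_alg' h2, h5, map_mul]⟩
    obtain ⟨t, -, h2⟩ := h1 p
    have h4 := (omModel _).eq_zero_of_tau_pow (zorn F) finrank_eight hτ (k := k * p % 3) (Nat.mod_lt _ (by norm_num))
      ⟨t⁻¹, by
        rw [← pow_eq_pow_mod _ h3, map_inv, inv_eq_iff_mul_eq_one, ← mul_eq_one_comm]
        exact h2.symm.trans hx⟩
    rcases (Nat.Prime.dvd_mul Nat.prime_three).mp (Nat.dvd_of_mod_eq_zero h4) with ⟨c, rfl⟩ | h5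
    · exact .inl ⟨1, s, by simp [pow_mul, h3]⟩
    · exact .inr ((Nat.prime_dvd_prime_iff_eq Nat.prime_three Fact.out).mp h5).symm
  · have h1 : par ((zorn F).ρ * s) = 1 := by
      rw [par_mul hQ hN, hs, (zorn F).par_ρ finrank_eight]; rfl
    obtain ⟨t, -, -, -, h5⟩ := conj_Phi_plus le_rfl (τ ^ k) h1
    have h6 : Phi _ (zorn F).ρ * τ * (Phi _ (zorn F).ρ)⁻¹ = τ⁻¹ := (omModel _).rho_tau (zorn F) finrank_eight hτ
    have h7 : Phi _ (zorn F).ρ * Phi _ (zorn F).ρ = 1 := by rw [← map_mul, SymComp.ρ_mul_self, map_one]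
    refine .inl ⟨τ ^ k, (zorn F).ρ * t, ?_⟩
    rw [map_mul, ← h5, map_mul]
    exact tri_alg h3 h6 h7 k

/-- reduction of the plus type balance theorem to the triality case -/
theorem balance_plus (hm : 4 ≤ m) (hpr : p ≠ r)
    (tri : 3 ≠ r → ∀ (x : MulAut (Cfsg.POmega F (qPlus 4 F))) M, Bal (qPlus 4 F) 3 x M → x ^ 3 = 1 →
      x ∉ (Phi (qPlus 4 F)).range → M = ⊥)
    (A : Subgroup (MulAut (Cfsg.POmega F (qPlus m F))))
    (hinn : ∀ k, MulAut.conj k ∈ A) {x : MulAut (Cfsg.POmega F (qPlus m F))}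
    (hord : orderOf x = p) (hnot : ¬ Cfsg.IsInnerDiagonalAutPOmegaPlus m x) :
    Cfsg.pPrimeCore p ↥(A ⊓ Subgroup.centralizer {x}) ≠ ⊥ ↔ Cfsg.IsFieldAutClassPOmega (qPlus m F) x ∧
      Nat.Coprime p (Nat.card (MonoidHom.eqLocus x.toMonoidHom (MonoidHom.id (Cfsg.POmega F (qPlus m F))))) := by
  by_cases h : ∃ α s, α * x * α⁻¹ = Phi _ s
  · obtain ⟨α, s, h⟩ := h
    exact balance_plus_conj hm hpr A hinn h hord hnot
  have h1 : x ∉ (Phi (qPlus m F)).range := fun ⟨s, hs⟩ => h ⟨1, s, by simp [hs]⟩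
  rcases hm.eq_or_lt with rfl | hm
  swap
  · exact absurd (Phi_surjective_plus hm x) h1
  have hx : x ^ p = 1 := hord ▸ pow_orderOf_eq_one x
  obtain rfl := (conj_range_or_three hx).resolve_left h
  refine iff_of_false (fun k => OppOf_ne_bot_iff.mpr k (tri hpr x _ (bal_of A hinn x) hx h1)) fun k => ?_
  obtain ⟨t, -, -, h2⟩ := exists_of_fieldClass_plus' le_rfl k.1
  exact h1 ⟨t, h2.symm⟩

end Plus

end Cfsg.Agent.Lib.Forms
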