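import Cfsg.Agent.Lib.Forms.OrthBalP
import Cfsg.Agent.Lib.Forms.Cyc3

/-!
# Local balance for triality automorphisms of `PΩ⁺₈`
-/

set_option autoImplicit false
set_option linter.unusedSectionVars false
set_option maxHeartbeats 400000

namespace Cfsg.Agent.Lib.Forms

open Module QuadraticMap

section General

variable {F V : Type*} [Field F] [AddCommGroup V] [Module F V] {Q : QuadraticForm F V}

theorem exists_cubic_zero {K : Type*} [Field K] [Finite K] (t : Fin 4 → Fin 4 → Fin 4 → K) :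
    ∃ x : Fin 4 → K, x ≠ 0 ∧ ∑ i, ∑ j, ∑ k, t i j k * (x i * x j * x k) = 0 := by
  classical
  have := Fintype.ofFinite K
  obtain ⟨p, hp⟩ := CharP.exists K
  have hpp : p.Prime := CharP.char_is_prime K p
  let P : MvPolynomial (Fin 4) K := ∑ i, ∑ j, ∑ k, .C (t i j k) * (.X i * .X j * .X k)
  have hdeg : P.totalDegree < Fintype.card (Fin 4) := by
    rw [Fintype.card_fin, Nat.lt_succ_iff]
    refine MvPolynomial.totalDegree_finsetSum_le fun i _ => MvPolynomial.totalDegree_finsetSum_le fun j _ =>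
      MvPolynomial.totalDegree_finsetSum_le fun k _ => (MvPolynomial.totalDegree_mul _ _).trans ?_
    rw [MvPolynomial.totalDegree_C, zero_add]
    refine (MvPolynomial.totalDegree_mul _ _).trans ?_
    have := MvPolynomial.totalDegree_mul (.X i : MvPolynomial (Fin 4) K) (.X j)
    simp only [MvPolynomial.totalDegree_X] at this ⊢
    omega
  have hdvd := char_dvd_card_solutions p hdeg
  by_contra hc
  push Not at hc
  have : Fintype.card { x : Fin 4 → K // MvPolynomial.eval x P = 0 } = 1 := by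
    rw [Fintype.card_eq_one_iff]
    refine ⟨⟨0, by simp [P]⟩, ?_⟩
    rintro ⟨x, hx⟩
    apply Subtype.ext
    by_contra hx0
    exact hc x hx0 (by simpa [P] using hx)
  rw [this] at hdvd
  exact hpp.one_lt.ne' (Nat.dvd_one.mp hdvd)

theorem Cyc.exists_abs [Finite F] [FiniteDimensional F V] (C : Cyc Q) (h3 : (3 : F) ≠ 0) {W : Submodule F V}
    (hW : ∀ v ∈ W, Q v = 0) (h4 : 4 ≤ finrank F W) : ∃ e, e ≠ 0 ∧ C.μ e e = 0 := by
  obtain ⟨u, hu⟩ := exists_linearIndependent_of_le_finrank h4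
  let K : Subfield F := (C.σ : F →+* F).eqLocusField (RingHom.id F)
  let T : Fin 4 → Fin 4 → Fin 4 → F := fun i j k => polar Q (C.μ (u i) (u j)) (u k)
  obtain ⟨x, hx0, hx⟩ := exists_cubic_zero (K := K) fun i j k => ⟨T i j k + C.σ (T i j k) + C.σ (C.σ (T i j k)), by
    change C.σ _ = _
    simp only [map_add, C.σ3, RingHom.id_apply]; ring⟩
  have hxσ : ∀ i, C.σ (x i) = x i := fun i => (x i).2
  set v : V := ∑ i, (x i : F) • (u i : V) with hv
  have hvW : v ∈ W := W.sum_mem fun i _ => W.smul_mem _ (u i).2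
  have hv0 : v ≠ 0 := fun h => hx0 (funext fun i => Subtype.ext (Fintype.linearIndependent_iff.mp hu
    (fun i => (x i : F)) (Subtype.ext (by simpa [hv] using h)) i))
  have h1 : polar Q (C.μ v v) v = ∑ i, ∑ j, ∑ k, T i j k * (x i * x j * x k) := by
    have e : ∀ a b : V, polar Q a b = polarBilin Q a b := fun _ _ => rfl
    simp only [hv, e, map_sum, AddMonoidHom.finsetSum_apply, LinearMap.sum_apply, C.smul_l, C.smul_r, hxσ,
      map_smul, LinearMap.smul_apply, smul_eq_mul, T]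
    simp only [Fin.sum_univ_four]
    ring
  have h2 : C.σ (polar Q (C.μ v v) v) = polar Q (C.μ v v) v := (C.cyc' v v v).symm
  have h5 : polar Q (C.μ v v) v = 0 := by
    have := congrArg Subtype.val hx
    simp only [AddSubmonoidClass.coe_finsetSum, MulMemClass.coe_mul, ZeroMemClass.coe_zero, add_mul,
      Finset.sum_add_distrib] at this
    have h6 := congrArg C.σ h1
    have h7 := congrArg C.σ h6
    simp only [map_sum, map_mul, hxσ, h2] at h6 h7
    exact (mul_eq_zero.mp (show (3 : F) * polar Q (C.μ v v) v = 0 by linear_combination this + h1 + h6 + h7)).resolve_left h3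
  by_cases h : C.μ v v = 0
  · exact ⟨v, hv0, h⟩
  · exact ⟨_, h, by rw [C.left₂, polar_comm, h5, C.left, hW v hvW]; simp⟩

theorem polar_smul_form (m : F) (x y : V) : polar (m • Q : QuadraticForm F V) x y = m * polar Q x y := by
  simp only [polar, _root_.smul_apply, smul_eq_mul]; ring

theorem Nondeg.smul_form (hQ : Nondeg Q) {m : F} (hm : m ≠ 0) : Nondeg (m • Q : QuadraticForm F V) :=
  nondeg_of fun x hx => hQ.eq_zero fun v => (mul_eq_zero.mp ((polar_smul_form m x v).symm.trans (hx v))).resolve_left hm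

theorem exists_cyc [Nontrivial V] (hQ : Nondeg Q) {σ : F ≃+* F} (σ3 : ∀ a, σ (σ (σ a)) = a) (μ : V →+ V →+ V)
    (smul_l : ∀ (c : F) a b, μ (c • a) b = σ (σ c) • μ a b) (smul_r : ∀ (c : F) a b, μ a (c • b) = σ c • μ a b)
    {c ρ : F} (hc : c ≠ 0) (hρ : ρ ≠ 0) (norm : ∀ a b, Q (μ a b) = c * (σ (σ (Q a)) * σ (Q b)))
    (cyc : ∀ a b z, polar Q (μ a b) z = ρ * σ (σ (polar Q (μ b z) a))) :
    ∃ (k m : F) (C : Cyc (m • Q : QuadraticForm F V)), k ≠ 0 ∧ m ≠ 0 ∧ C.σ = σ ∧ ∀ a b, C.μ a b = k • μ a b := by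
  obtain ⟨v, hv⟩ := hQ.exists_Q_ne_zero
  have hv1 : σ (Q v) ≠ 0 := by simpa using hv
  have hv2 : σ (σ (Q v)) ≠ 0 := by simpa using hv
  have h0 : μ v v ≠ 0 := fun h => by simpa [h, hc, hv] using norm v v
  obtain ⟨z, hz⟩ := hQ.exists_polar_eq_one h0
  have h1 : ρ * σ (σ ρ) * σ ρ = 1 := by
    have := cyc v v z
    rw [cyc v z v, cyc z v v, hz] at this
    simp only [map_mul, σ3, map_one] at this
    linear_combination -this
  have h2 : ∀ y, μ (μ v y) v = (ρ * σ (σ c) * σ (Q v)) • y := fun y => hQ.eq_of_polar fun w => by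
    have := norm v (w + y)
    rw [map_add, Q_add, Q_add, norm, norm, map_add, map_add] at this
    rw [cyc, show polar Q (μ v w) (μ v y) = c * (σ (σ (Q v)) * σ (polar Q w y)) by linear_combination this,
      polar_smul_left, polar_comm Q y]
    simp only [map_mul, σ3, smul_eq_mul]
    ring
  have h3 : c = ρ * ρ * σ (σ c) := by
    have := congrArg Q (h2 v)
    rw [norm, norm, Q_smul] at this
    simp only [map_mul, σ3] at this
    refine mul_right_cancel₀ (b := σ (σ c) * σ (Q v) * σ (Q v) * Q v) (by simp [hc, hv]) ?_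
    linear_combination this
  have hρ1 : σ ρ ≠ 0 := by simpa using hρ
  have hρ2 : σ (σ ρ) ≠ 0 := by simpa using hρ
  set k := c / (ρ * ρ * σ (σ ρ)) with hk
  have hk0 : k ≠ 0 := by simp [hk, hc, hρ]
  have h4 : σ (σ k) = ρ * k := by
    simp only [hk, map_div₀, map_mul, σ3]
    field_simp
    linear_combination -σ (σ c) * ρ * h1 - σ (σ ρ) * σ ρ * h3
  have h5 : σ (σ (k * k * c)) = k * k * c := by
    rw [map_mul, map_mul, map_mul, map_mul, h4]
    linear_combination -k * k * h3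
  have h6 : σ (k * k * c) = k * k * c := by rw [← h5, σ3, h5]
  refine ⟨k, k * k * c, ⟨σ, σ3, AddMonoidHom.mk' (fun a => AddMonoidHom.mk' (fun b => k • μ a b) fun _ _ => by simp)
    fun _ _ => by ext; simp, fun s a b => ?_, fun s a b => ?_, hQ.smul_form (by simp [hk0, hc]), fun a b => ?_,
    fun a b w => ?_⟩, hk0, by simp [hk0, hc], rfl, fun _ _ => rfl⟩
  · simp [smul_l, smul_comm k]
  · simp [smul_r, smul_comm k]
  · simp only [AddMonoidHom.mk'_apply, _root_.smul_apply, smul_eq_mul, Q_smul, norm]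
    rw [map_mul σ (k * k * c), map_mul σ (k * k * c), h6, map_mul σ (k * k * c), h6]
    ring
  · simp only [AddMonoidHom.mk'_apply, polar_smul_form, polar_smul_left, smul_eq_mul]
    rw [map_mul σ k, map_mul σ (σ k), map_mul σ (k * k * c), h6, map_mul σ (k * k * c), h6, h4, cyc]
    ring

/-- Forgetting a rescaling of the form. -/
def Semi.resc {m : F} (hm : m ≠ 0) : Semi (m • Q : QuadraticForm F V) →* Semi Q where
  toFun s := ⟨s.e, s.σ, Units.mk0 (m⁻¹ * s.c * s.σ m) (by simp [hm]), s.map_smul, fun v => by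
    have := s.map_Q v
    simp only [_root_.smul_apply, smul_eq_mul, map_mul] at this
    simp only [Units.val_mk0]
    field_simp
    linear_combination this⟩
  map_one' := Semi.ext' (fun _ => rfl) rfl (by simp [hm])
  map_mul' s t := Semi.ext' (fun _ => rfl) rfl (by
    have : s.σ m ≠ 0 := by simpa using hm
    simp only [Units.val_mk0, Semi.mul_c_val, Semi.mul_σ, map_mul, map_inv₀, RingAut.mul_apply]
    field_simp)

theorem Semi.resc_surjective {m : F} (hm : m ≠ 0) : Function.Surjective (Semi.resc (Q := Q) hm) := fun s =>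
  ⟨⟨s.e, s.σ, Units.mk0 (m * s.c * (s.σ m)⁻¹) (by simp [hm]), s.map_smul, fun v => by
    have : s.σ m ≠ 0 := by simpa using hm
    simp only [_root_.smul_apply, smul_eq_mul, map_mul, Units.val_mk0, s.map_Q]
    field_simp⟩, Semi.ext' (fun _ => rfl) rfl (by
    have : s.σ m ≠ 0 := by simpa using hm
    simp only [Semi.resc, MonoidHom.coe_mk, OneHom.coe_mk, Units.val_mk0]
    field_simp)⟩

@[simp] theorem Semi.resc_e {m : F} (hm : m ≠ 0) (s : Semi (m • Q : QuadraticForm F V)) (v : V) :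
    (Semi.resc hm s).e v = s.e v := rfl

@[simp] theorem Semi.resc_σ {m : F} (hm : m ≠ 0) (s : Semi (m • Q : QuadraticForm F V)) :
    (Semi.resc hm s).σ = s.σ := rfl

theorem SymComp.exists_cyc_tau [Finite F] [FiniteDimensional F V] [Nontrivial V] (D : SymComp Q) {X : Type*} [Group X]
    (Φ : Semi Q →* X) (hker : ∀ s, Φ s = 1 ↔ ∃ a, s = Semi.scal Q a) {τ : X}
    (hτ : ∀ s₁ s₂ s₃, D.Rel3 s₁ s₂ s₃ → τ * Φ s₁ * τ⁻¹ = Φ s₂) (hτ3 : τ ^ 3 = 1)
    (hr : ∀ s, par s = 1 → ∃ s₁ s₂, D.Rel3 s₁ s₂ s) {a : Semi Q} (ha : par a = 1) (h3 : (τ * Φ a) ^ 3 = 1) :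
    ∃ (m : F) (hm : m ≠ 0) (C : Cyc (m • Q : QuadraticForm F V)),
      (∀ s₁ s₂ s₃, C.Rel3 s₁ s₂ s₃ → τ * Φ a * Φ (Semi.resc hm s₁) * (τ * Φ a)⁻¹ = Φ (Semi.resc hm s₂)) ∧
      ∀ s, par (Semi.resc hm s) = 1 → Commute (Φ (Semi.resc hm s)) (τ * Φ a) → C.Rel3 s s s := by
  have hk : ∀ s t, Φ s = Φ t → ∃ l, s = Semi.scal Q l * t := fun s t h => by
    obtain ⟨l, hl⟩ := (hker (s * t⁻¹)).mp (by rw [map_mul, map_inv, h, mul_inv_cancel])
    exact ⟨l, by rw [← hl, inv_mul_cancel_right]⟩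
  obtain ⟨b, c, h⟩ := hr a ha
  replace h := h.cyc.cyc
  obtain ⟨l, hl⟩ : ∃ l, b * c * a = Semi.scal Q l := by
    refine (hker _).mp ?_
    rw [map_mul, map_mul, ← hτ _ _ _ h.cyc, ← hτ _ _ _ h, ← h3]
    calc _ = τ * Φ a * (τ * Φ a) * (τ ^ 3)⁻¹ * τ * Φ a := by rw [pow_three]; group
      _ = _ := by rw [hτ3, pow_three]; group
  have hb : b.σ = a.σ := h.σ₂.trans h.σ₁.symm
  have hc : c.σ = a.σ := h.σ₁.symm
  have σ3 : ∀ x, a.σ (a.σ (a.σ x)) = x := fun x => by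
    have := congrArg (fun s : Semi Q => s.σ x) hl
    simpa [hb, hc] using this
  have hi : ∀ x, (a.σ⁻¹ : F ≃+* F) x = a.σ (a.σ x) := fun x => a.σ.injective (by rw [σ3, a.σ_inv_σ])
  obtain ⟨n, hn, h4⟩ := h.inv.cyc.ex
  have h5 : ∀ z, a.e z = (c⁻¹).e ((b⁻¹).e ((l : F) • z)) := fun z => by
    rw [← Semi.scal_e (Q := Q), ← hl]; simp
  obtain ⟨k, m, C, hk0, hm, h6, h7⟩ := exists_cyc D.nondeg σ3
    (AddMonoidHom.mk' (fun x => AddMonoidHom.mk' (fun y => (a⁻¹).e (D.μ x ((b⁻¹).e y))) fun _ _ => by simp)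
      fun _ _ => by ext; simp) (fun s x y => by simp [Semi.map_smul, hi])
    (fun s x y => by simp [Semi.map_smul, hi, hb, σ3]) (c := (a⁻¹).c * a.σ (a.σ (b⁻¹).c))
    (ρ := (a⁻¹).c * a.σ (a.σ (n * a.σ l))) (by simp) (by simp [hn]) (fun x y => by
      simp only [AddMonoidHom.mk'_apply, Semi.map_Q, D.norm, map_mul, Semi.inv_σ, hi, hb, σ3]
      ring) (fun x y z => by
      have := (a⁻¹).map_polar (D.μ x ((b⁻¹).e y)) (a.e z)
      rw [Semi.inv_e_e, D.cyc, h5, h4, Semi.map_smul, map_smul, Semi.map_smul] at this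
      simp only [AddMonoidHom.mk'_apply, this, polar_smul_left, smul_eq_mul, map_mul, Semi.inv_σ, hi, hb, σ3]
      ring)
  simp only [AddMonoidHom.mk'_apply] at h7
  refine ⟨m, hm, C, fun s₁ s₂ s₃ ⟨k1, k2, k0, p, hp, k3⟩ => ?_, fun s hs hc => ?_⟩
  · have : D.Rel3 (Semi.resc hm s₁) (b⁻¹ * Semi.resc hm s₂ * b) (a * Semi.resc hm s₃ * a⁻¹) := by
      have k4 : a.σ * s₃.σ = s₃.σ * a.σ := RingEquiv.ext fun x => by simpa [h6] using k0 x
      refine ⟨by simp [k1, k4], by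
        simp only [Semi.mul_σ, Semi.inv_σ, Semi.resc_σ, k2, hb]
        rw [mul_assoc, ← k4, inv_mul_cancel_left, k4, mul_inv_cancel_right], a.σ (k⁻¹ * p * s₃.σ k), by simp [hk0, hp],
        fun x y => ?_⟩
      have := congrArg a.e (k3 x (b.e y))
      simp only [h7, Semi.map_smul, Semi.e_inv_e, Semi.inv_e_e, smul_smul] at this
      have h8 : a.σ k ≠ 0 := by simpa using hk0
      refine smul_right_injective V h8 ?_
      simp only [Semi.mul_e, Semi.resc_e, this, smul_smul, map_mul, map_inv₀]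
      congr 1
      field_simp
    have := hτ _ _ _ (h.conj this)
    simp only [map_mul, map_inv] at this
    calc _ = τ * (Φ a * Φ (Semi.resc hm s₁) * (Φ a)⁻¹) * τ⁻¹ := by group
      _ = _ := by rw [this]; group
  · obtain ⟨t₂, t₃, k1⟩ := hr _ hs
    replace k1 := k1.cyc.cyc
    have k2 := hτ _ _ _ (h.conj k1)
    have k3 := hτ _ _ _ k1.cyc.cyc
    simp only [map_mul, map_inv] at k2
    have k4 : τ * (Φ a * Φ (Semi.resc hm s) * (Φ a)⁻¹) * τ⁻¹ = Φ (Semi.resc hm s) := by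
      calc _ = τ * Φ a * Φ (Semi.resc hm s) * (τ * Φ a)⁻¹ := by group
        _ = _ := by rw [← hc.eq, mul_inv_cancel_right]
    obtain ⟨p, hp⟩ := hk (b⁻¹ * Semi.resc hm s * b) t₂ (by
      simp only [map_mul, map_inv]; rw [← k4, k2]; group)
    obtain ⟨q, hq⟩ := hk (a * Semi.resc hm s * a⁻¹) t₃ (by
      simp only [map_mul, map_inv]
      exact mul_left_cancel (mul_right_cancel (k4.trans k3.symm)))
    have k5 := (SymComp.Rel3.scal (C := D) 1 p q).mul k1
    rw [← hp, ← hq, map_one, one_mul] at k5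
    obtain ⟨k6, -, r, hr0, k7⟩ := k5
    refine ⟨rfl, rfl, fun x => ?_, k * (a⁻¹).σ r * (s.σ k)⁻¹, by simp [hk0, hr0], fun x y => ?_⟩
    · have := congrArg (fun φ : F ≃+* F => φ (a.σ x)) k6
      simpa [h6, a.inv_σ_σ] using this.symm
    · have := k7 x ((b⁻¹).e y)
      simp only [Semi.mul_e, Semi.resc_e, Semi.e_inv_e] at this
      have h8 : s.σ k ≠ 0 := by simpa using hk0
      simp only [h7, this, Semi.map_smul, Semi.inv_e_e, smul_smul]
      congr 1
      field_simp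

end General

universe u

theorem exists_S3_abs {R : Type*} {X : Type u} [Group R] [Group X] (Φ : R →* X) (p : R →* ℤˣ)
    (hn : ∀ α s, p s = 1 → ∃ s', p s' = 1 ∧ α * Φ s * α⁻¹ = Φ s') {τ : X} (h0 : τ ∉ Φ.range) (h3 : τ ^ 3 = 1) {ρ : R}
    (h7 : ρ * ρ = 1) (hρ : p ρ = -1) (h6 : Φ ρ * τ * (Φ ρ)⁻¹ = τ⁻¹) (hX : ∀ α, ∃ (k : ℕ) (s : R), α = τ ^ k * Φ s) :
    ∃ (S : Type u) (_ : Group S) (π : X →* S) (ρ : S), (∀ α, π α = 1 ↔ ∃ s, p s = 1 ∧ α = Φ s) ∧ π τ ≠ 1 ∧
      π τ ^ 3 = 1 ∧ ρ * ρ = 1 ∧ ρ * π τ * ρ⁻¹ = (π τ)⁻¹ ∧ ∀ α, ∃ k : ℕ, π α = π τ ^ k ∨ π α = π τ ^ k * ρ := by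
  let A := p.ker.map Φ
  have : A.Normal := ⟨by
    rintro _ ⟨s, hs, rfl⟩ α
    obtain ⟨s', h1, h2⟩ := hn α s hs
    exact ⟨s', h1, h2.symm⟩⟩
  have h1 : ∀ α, QuotientGroup.mk' A α = 1 ↔ ∃ s, p s = 1 ∧ α = Φ s := fun α =>
    (QuotientGroup.eq_one_iff _).trans ⟨fun ⟨s, h1, h2⟩ => ⟨s, h1, h2.symm⟩, fun ⟨s, h1, h2⟩ => ⟨s, h1, h2.symm⟩⟩
  generalize QuotientGroup.mk' A = π at h1
  have h2 : π (Φ ρ) * π (Φ ρ) = 1 := by rw [← map_mul, ← map_mul, h7, map_one, map_one]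
  refine ⟨_, inferInstance, π, π (Φ ρ), h1, fun h => ?_, ?_, h2, ?_, fun α => ?_⟩
  · obtain ⟨s, -, hs⟩ := (h1 _).mp h
    exact h0 ⟨s, hs.symm⟩
  · rw [← map_pow, h3, map_one]
  · simpa only [map_mul, map_inv] using congrArg π h6
  · obtain ⟨k, s, rfl⟩ := hX α
    refine ⟨k, ?_⟩
    rw [map_mul, map_pow]
    rcases Int.units_eq_one_or (p s) with hs | hs
    · exact .inl (by rw [(h1 _).mpr ⟨s, hs, rfl⟩, mul_one])
    · have := (h1 _).mpr ⟨ρ * s, by rw [map_mul, hs, hρ]; rfl, rfl⟩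
      rw [map_mul, map_mul] at this
      exact .inr (congrArg _ (mul_left_cancel (this.trans h2.symm)))

section Eight

variable {F : Type u} [Field F] [Finite F] {τ : MulAut (Cfsg.POmega F (qPlus 4 F))}
  (hτ : ∀ s₁ s₂ s₃, (zorn F).Rel3 s₁ s₂ s₃ → τ * Phi _ s₁ * τ⁻¹ = Phi _ s₂)
include hτ

theorem exists_S3_quot : ∃ (S : Type u) (_ : Group S) (π : MulAut (Cfsg.POmega F (qPlus 4 F)) →* S) (ρ : S),
    (∀ α, π α = 1 ↔ ∃ s, par s = 1 ∧ α = Phi _ s) ∧ π τ ≠ 1 ∧ π τ ^ 3 = 1 ∧ ρ * ρ = 1 ∧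
      ρ * π τ * ρ⁻¹ = (π τ)⁻¹ ∧ ∀ α, ∃ k : ℕ, π α = π τ ^ k ∨ π α = π τ ^ k * ρ := by
  have : Fintype F := Fintype.ofFinite F
  have hQ := nondeg_qPlus (F := F) 4
  have hN := nonExc_qPlus (F := F) (m := 4) (.inr (by omega))
  exact exists_S3_abs (Phi _) (parHom hQ hN) (fun α s hs => by
      obtain ⟨s', -, -, h1, h2⟩ := conj_Phi_plus le_rfl α hs
      exact ⟨s', h1, h2⟩) ((omModel _).tau_notMem (zorn F) finrank_eight hτ)
    ((omModel _).tau_pow_three (zorn F) finrank_eight hτ) (zorn F).ρ_mul_self ((zorn F).par_ρ finrank_eight)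
    ((omModel _).rho_tau (zorn F) finrank_eight hτ) (exists_tau_pow_plus hτ)

theorem exists_tau_mul {x : MulAut (Cfsg.POmega F (qPlus 4 F))} (hx : x ^ 3 = 1)
    (hx' : x ∉ (Phi (qPlus 4 F)).range) : ∃ s, par s = 1 ∧ (x = τ * Phi _ s ∨ x⁻¹ = τ * Phi _ s) := by
  obtain ⟨S, _, π, ρ, h1, h2, h3, h4, h5, h6⟩ := exists_S3_quot hτ
  have h7 : π x ≠ 1 := fun h => by
    obtain ⟨s, -, hs⟩ := (h1 x).mp h
    exact hx' ⟨s, hs.symm⟩
  obtain ⟨k, hk | hk⟩ := h6 x
  · rw [pow_eq_pow_mod _ h3] at hk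
    have := Nat.mod_lt k (show 0 < 3 by norm_num)
    generalize k % 3 = j at *
    interval_cases j
    · exact absurd hk (by simpa using h7)
    · obtain ⟨s, hs, h⟩ := (h1 (τ⁻¹ * x)).mp (by simp [hk])
      exact ⟨s, hs, .inl (by rw [← h]; group)⟩
    · obtain ⟨s, hs, h⟩ := (h1 (τ⁻¹ * x⁻¹)).mp (by
        rw [map_mul, map_inv, map_inv, hk, ← mul_inv_rev, ← pow_succ, h3, inv_one])
      exact ⟨s, hs, .inr (by rw [← h]; group)⟩
  · have h8 : π x * π x = 1 := by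
      calc _ = π τ ^ k * (ρ * π τ ^ k * ρ⁻¹) * (ρ * ρ) := by rw [hk]; group
        _ = 1 := by rw [← conj_pow, h5, h4]; group
    have h9 := congrArg π hx
    rw [map_pow, pow_three, h8, mul_one, map_one] at h9
    exact absurd h9 h7

theorem exists_par_of_commute {s : Semi (qPlus 4 F)} (hs : par s = 1) {y : MulAut (Cfsg.POmega F (qPlus 4 F))}
    (hy : Commute y (τ * Phi _ s)) {n : ℕ} (hn : ¬ 3 ∣ n) (hyn : y ^ n = 1) : ∃ t, par t = 1 ∧ y = Phi _ t := by
  obtain ⟨S, _, π, ρ, h1, h2, h3, h4, h5, h6⟩ := exists_S3_quot hτ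
  have h7 := hy.map π
  rw [map_mul, (h1 _).mpr ⟨s, hs, rfl⟩, mul_one] at h7
  obtain ⟨k, hk | hk⟩ := h6 y
  · refine (h1 y).mp (orderOf_eq_one_iff.mp (Nat.eq_one_of_dvd_coprimes
      ((Nat.Prime.coprime_iff_not_dvd Nat.prime_three).mpr hn) (orderOf_dvd_of_pow_eq_one ?_)
      (orderOf_dvd_of_pow_eq_one ?_)))
    · rw [hk, ← pow_mul, mul_comm, pow_mul, h3, one_pow]
    · rw [← map_pow, hyn, map_one]
  · have h8 : Commute ρ (π τ) := by
      have := ((Commute.refl (π τ)).pow_left k).inv_left.mul_left h7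
      rwa [hk, inv_mul_cancel_left] at this
    rw [h8.eq, mul_inv_cancel_right, eq_inv_iff_mul_eq_one] at h5
    rw [pow_three, h5, mul_one] at h3
    exact absurd h3 h2

omit hτ in
theorem Bal.triality {r : ℕ} [Fact r.Prime] [CharP F r] (hr : 3 ≠ r)
    {x : MulAut (Cfsg.POmega F (qPlus 4 F))} {M : Subgroup (MulAut (Cfsg.POmega F (qPlus 4 F)))}
    (B : Bal (qPlus 4 F) 3 x M) (hx : x ^ 3 = 1) (hx' : x ∉ (Phi (qPlus 4 F)).range) : M = ⊥ := by
  have hQ := nondeg_qPlus (F := F) 4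
  obtain ⟨τ, hτ⟩ := exists_triality (F := F)
  obtain ⟨a, ha, h⟩ := exists_tau_mul hτ hx hx'
  wlog h1 : x = τ * Phi _ a generalizing x
  · exact this (x := x⁻¹) ⟨B.nd, fun y hy => (B.comm y hy).inv_right, fun g hg k => B.norm g hg (by simpa using k)⟩
      (by rw [inv_pow, hx, inv_one]) (by simpa using hx') (.inl (h.resolve_left h1)) (h.resolve_left h1)
  subst h1
  obtain ⟨m, hm, C, h1, h2⟩ := (zorn F).exists_cyc_tau (Phi _) (fun _ => Phi_eq_one_iff hQ (by simp)) hτ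
    ((omModel _).tau_pow_three (zorn F) finrank_eight hτ)
    (fun _ => (zorn F).exists_rel3 finrank_eight fun σ => ⟨_, rfl, zorn_field σ⟩) ha hx
  have h3 : (3 : F) ≠ 0 := fun h => hr ((Nat.prime_dvd_prime_iff_eq Fact.out Nat.prime_three).mp
    ((CharP.cast_eq_zero_iff F r 3).mp (by simpa using h))).symm
  have hU := isLag_ker_funLeft_inr (F := F) 4
  obtain ⟨e, he0, he⟩ := C.exists_abs h3 (W := LinearMap.ker (LinearMap.funLeft F F Sum.inr))
    (fun v hv => by simp [hU.ts v hv]) (by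
    have := hU.dim
    rw [finrank_eight] at this
    omega)
  have := finite_aut_POmega (Q := qPlus 4 F)
  refine C.eq_bot hr (by simp) he0 he ((Phi _).comp (Semi.resc hm)) (fun s => ?_) (Cfsg.Inn _)
    (fun e w he hw => ?_) hx h1 B.nd (fun y hy => ?_) fun z hz k y hy => ?_
  · refine (Phi_eq_one_iff hQ (by simp)).trans (exists_congr fun b => ⟨fun h => ?_, ?_⟩)
    · exact Semi.ext_of_nondeg C.nondeg fun v => congrArg (fun s : Semi (qPlus 4 F) => s.e v) h
    · rintro rfl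
      exact Semi.ext_of_nondeg hQ fun v => rfl
  · have he' : qPlus 4 F e = 0 := by simpa [hm] using he
    have hw' : polar (qPlus 4 F) e (m • w) = 0 := by rwa [polar_smul_form, ← smul_eq_mul, ← polar_smul_right] at hw
    have : Semi.resc hm (Semi.ofOG _ (eich _ e w)) = Semi.ofOG _ (eich _ e (m • w)) :=
      Semi.ext_of_nondeg hQ fun v => by
        simp only [Semi.resc_e, Semi.ofOG_e, eich_apply he hw, eich_apply he' hw', polar_smul_form, Q_smul,
          polar_smul_right, _root_.smul_apply, smul_eq_mul]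
        match_scalars <;> ring
    rw [MonoidHom.comp_apply, this, Phi_mem_Inn hQ (by simp)]
    have : Fintype F := Fintype.ofFinite F
    exact ofOG_mem_NO (hQ.eich_mem_Om (nonExc_qPlus (.inr (by omega))) he' hw')
  · obtain ⟨t, ht, rfl⟩ := exists_par_of_commute hτ ha (B.comm y hy) B.nd
      (congrArg Subtype.val (pow_card_eq_one' (x := (⟨y, hy⟩ : M))))
    obtain ⟨s, rfl⟩ := Semi.resc_surjective hm t
    exact ⟨s, h2 s ht (B.comm _ hy), rfl⟩
  · rw [Inn_eq_map hQ (by simp)] at hz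
    obtain ⟨_, ⟨b, g, hg, rfl⟩, rfl⟩ := hz
    rw [Phi_scal_mul] at k ⊢
    exact B.norm g hg k y hy

end Eight

end Cfsg.Agent.Lib.Forms
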