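import Cfsg.Agent.Lib.Forms.OrthTri4

/-!
# Involutory graph automorphisms of even-dimensional orthogonal groups in odd characteristic
-/

set_option autoImplicit false
set_option linter.unusedSectionVars false
set_option maxHeartbeats 400000

namespace Cfsg.Agent.Lib.Forms

open Module QuadraticMap Matrix Cfsg.Agent.Lib.Aut

section General

variable {F V : Type*} [Field F] [AddCommGroup V] [Module F V] {Q : QuadraticForm F V}

/-- The `ε`-eigenspace of an isometry. -/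
def eig (g : OG Q) (ε : F) : Submodule F V := LinearMap.ker ((g.1 : V →ₗ[F] V) - ε • LinearMap.id)

theorem mem_eig {g : OG Q} {ε : F} {v : V} : v ∈ eig g ε ↔ g.1 v = ε • v := by
  simp [eig, sub_eq_zero]

theorem invol_apply {g : OG Q} (hg : g * g = 1) (v : V) : g.1 (g.1 v) = v := by
  rw [← OG.mul_apply, hg, OG.one_apply]

theorem exists_eig_add (h2 : (2 : F) ≠ 0) {g : OG Q} (hg : g * g = 1) (v : V) :
    ∃ a ∈ eig g 1, ∃ b ∈ eig g (-1), v = a + b :=
  ⟨(2 : F)⁻¹ • (v + g.1 v), by simp [mem_eig, invol_apply hg, add_comm], (2 : F)⁻¹ • (v - g.1 v), by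
    simp [mem_eig, invol_apply hg, smul_sub, sub_eq_neg_add, add_comm], by
    rw [← smul_add, add_add_sub_cancel, ← two_smul F v, smul_smul, inv_mul_cancel₀ h2, one_smul]⟩

theorem polar_eig (h2 : (2 : F) ≠ 0) {g : OG Q} {a b : V} (ha : a ∈ eig g 1) (hb : b ∈ eig g (-1)) :
    polar Q a b = 0 := by
  have := OG.map_polar g a b
  rw [mem_eig.mp ha, mem_eig.mp hb] at this
  simp only [one_smul, neg_smul, polar_neg_right] at this
  exact (mul_eq_zero.mp (show 2 * polar Q a b = 0 by linear_combination -this)).resolve_left h2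

theorem eig_inf_perp (hQ : Nondeg Q) (h2 : (2 : F) ≠ 0) {g : OG Q} (hg : g * g = 1) {ε : F} (hε : ε = 1 ∨ ε = -1) :
    eig g ε ⊓ perp Q (eig g ε) = ⊥ := by
  rw [eq_bot_iff]
  rintro x ⟨h1, h3⟩
  refine hQ.eq_zero fun v => ?_
  obtain ⟨a, ha, b, hb, rfl⟩ := exists_eig_add h2 hg v
  rcases hε with rfl | rfl
  · rw [polar_add_right, polar_eig h2 h1 hb, polar_comm, mem_perp.mp h3 a ha, add_zero]
  · rw [polar_add_right, polar_comm, polar_eig h2 ha h1, polar_comm, mem_perp.mp h3 b hb, add_zero]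

theorem resSp_eq_eig (h2 : (2 : F) ≠ 0) {g : OG Q} (hg : g * g = 1) : resSp g = eig g (-1) := by
  ext y
  rw [mem_resSp, mem_eig]
  constructor
  · rintro ⟨x, rfl⟩
    simp [invol_apply hg]
  · intro h
    refine ⟨-(2 : F)⁻¹ • y, ?_⟩
    rw [map_smul, h, ← smul_sub, show (-1 : F) • y - y = (-2 : F) • y by module, smul_smul]
    simp [h2]

theorem fixSp_eq_eig (g : OG Q) : fixSp g = eig g 1 := by
  ext y; simp [mem_fixSp, mem_eig]

theorem eig_neg (g : OG Q) (ε : F) : eig (g * negOG Q) ε = eig g (-ε) := by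
  ext y; simp [mem_eig, OG.mul_apply, negOG_apply, neg_eq_iff_eq_neg]

theorem commute_refl_of_eig {g : OG Q} {ε : F} (hε : ε ≠ 0) {v : V} (hv : v ∈ eig g ε) : Commute g (refl Q v) := by
  have := conj_refl g v
  rwa [mem_eig.mp hv, refl_smul hε, mul_inv_eq_iff_eq_mul] at this

variable [FiniteDimensional F V]

theorem finrank_eig_add (h2 : (2 : F) ≠ 0) {g : OG Q} (hg : g * g = 1) :
    finrank F (eig g (-1)) + finrank F (eig g 1) = finrank F V := by
  rw [← resSp_eq_eig h2 hg, ← fixSp_eq_eig, finrank_res_add_fix]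

theorem dick_invol (h2 : (2 : F) ≠ 0) {g : OG Q} (hg : g * g = 1) : dick g = (-1) ^ finrank F (eig g (-1)) := by
  rw [dick, resSp_eq_eig h2 hg]

theorem eig_cj (s : Semi Q) (g : OG Q) {ε : F} (hε : ε = 1 ∨ ε = -1) :
    eig (Semi.cj Q s g) ε = simg s (eig g ε) := by
  ext y
  obtain ⟨y, rfl⟩ := s.e.surjective y
  have : s.σ ε = ε := by rcases hε with rfl | rfl <;> simp
  rw [e_mem_simg, mem_eig, mem_eig, Semi.cj_apply_e, ← s.e.apply_eq_iff_eq (x := g.1 y), s.map_smul, this]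

variable [Finite F]

theorem exists_spin_neg_of_invol (hQ : Nondeg Q) (h2 : (2 : F) ≠ 0) (h3 : 3 ≤ finrank F V) {g : OG Q}
    (hg : g * g = 1) : ∃ h : OG Q, dick h = 1 ∧ spin h = -1 ∧ Commute g h := by
  obtain ⟨ε, hε, h4⟩ : ∃ ε : F, (ε = 1 ∨ ε = -1) ∧ 2 ≤ finrank F (eig g ε) := by
    have := finrank_eig_add h2 hg
    by_cases h : 2 ≤ finrank F (eig g 1)
    · exact ⟨1, .inl rfl, h⟩
    · exact ⟨-1, .inr rfl, by omega⟩
  have hε0 : ε ≠ 0 := by rcases hε with rfl | rfl <;> simp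
  obtain ⟨μ, hμ0, hμ⟩ := exists_nonsquare_of_two h2
  obtain ⟨u, hu, hQu⟩ := exists_Q_eq_of_restrict (eig_inf_perp hQ h2 hg hε) h4 1
  obtain ⟨v, hv, hQv⟩ := exists_Q_eq_of_restrict (eig_inf_perp hQ h2 hg hε) h4 μ
  have hu0 : Q u ≠ 0 := by simp [hQu]
  have hv0 : Q v ≠ 0 := by simp [hQv, hμ0]
  refine ⟨refl Q u * refl Q v, by rw [hQ.dick_refl_mul hu0, hQ.dick_refl hv0, neg_neg], ?_,
    (commute_refl_of_eig hε0 hu).mul_right (commute_refl_of_eig hε0 hv)⟩
  rw [hQ.spin_mul (hQ.nonExc_of_two h2), hQ.spin_refl hu0, hQ.spin_refl hv0, hQu, hQv, sqc_one, one_mul,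
    sqc_eq_neg_one_iff.mpr hμ]

omit [FiniteDimensional F V] [Finite F] in
theorem Semi.polar_swap {s : Semi Q} (hs : s.σ = 1) {l : Fˣ} (hc : s.c = l) (h : s * s = Semi.scal Q l) (u v : V) :
    polar Q (s.e u) v = polar Q u (s.e v) := by
  have h1 := s.map_polar u (s.e v)
  rw [← Semi.mul_e, h, Semi.scal_e, polar_smul_right, hc, hs] at h1
  exact mul_left_cancel₀ l.ne_zero h1

theorem exists_perp_image (hQ : Nondeg Q) (h2 : (2 : F) ≠ 0) (h5 : 5 ≤ finrank F V) {s : Semi Q} (hs : s.σ = 1)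
    {l : Fˣ} (hl : ¬ IsSquare (l : F)) (hc : s.c = l) (h : s * s = Semi.scal Q l) :
    ∃ v, Q v ≠ 0 ∧ polar Q v (s.e v) = 0 := by
  by_contra hcon
  push Not at hcon
  let β : QuadraticForm F V := LinearMap.BilinMap.toQuadraticMap ((polarBilin Q).compl₂ (s.toLin hs : V →ₗ[F] V))
  have hβ : ∀ v, β v = polar Q v (s.e v) := fun v => rfl
  have hβ2 : ∀ u v, polar β u v = 2 * polar Q u (s.e v) := fun u v => by
    rw [polar, hβ, hβ, hβ, map_add, polar_add_left, polar_add_right, polar_add_right, ← Semi.polar_swap hs hc h v u,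
      polar_comm Q (s.e v) u]
    ring
  have hβn : Nondeg β := nondeg_of fun x hx => hQ.eq_zero fun v => by
    obtain ⟨v, rfl⟩ := s.e.surjective v
    exact (mul_eq_zero.mp ((hβ2 x v).symm.trans (hx v))).resolve_left h2
  obtain ⟨σ, c, hc0, h3, h4⟩ := exists_semi_of_additive hβn hQ h5 (AddEquiv.refl V)
    (fun w hw => not_not.mp fun h => hcon w h hw) (fun w _ t => ⟨t, rfl⟩) fun w w' _ t h => ⟨t, h⟩
  have : Nontrivial V := Module.nontrivial_of_finrank_pos (R := F) (by omega)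
  obtain ⟨x, hx⟩ := exists_ne (0 : V)
  have hσ : ∀ t, σ t = t := fun t => (smul_left_injective F hx (h3 t x)).symm
  have h6 : ∀ v, v = (2 * c) • s.e v := fun v => hQ.eq_of_polar fun u => by
    have := hβ2 u v
    simp only [AddEquiv.refl_apply, hσ] at h4
    rw [polar_smul_left, polar_comm, polar_comm Q (s.e v), smul_eq_mul, polar, h4, h4, h4]
    rw [polar] at this
    linear_combination c * this
  have h7 : x = ((2 * c) * (2 * c) * l) • x := by
    conv_lhs => rw [h6 x, h6 (s.e x), ← Semi.mul_e, h, Semi.scal_e, smul_smul, smul_smul]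
  have h8 : (2 * c) * (2 * c) * l = 1 := smul_left_injective F hx (by simpa using h7.symm)
  exact hl ⟨(2 * c)⁻¹, by field_simp; linear_combination h8⟩

theorem exists_spin_neg_of_sq (hQ : Nondeg Q) (h2 : (2 : F) ≠ 0) (h5 : 5 ≤ finrank F V) {s : Semi Q} (hs : s.σ = 1)
    {l : Fˣ} (hl : ¬ IsSquare (l : F)) (hc : s.c = l) (h : s * s = Semi.scal Q l) :
    ∃ g : OG Q, dick g = 1 ∧ spin g = -1 ∧ Commute s (Semi.ofOG Q g) := by
  obtain ⟨v, hv, hvs⟩ := exists_perp_image hQ h2 h5 hs hl hc h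
  have hv' : Q (s.e v) ≠ 0 := mt (s.Q_eq_zero_iff v).mp hv
  refine ⟨refl Q v * refl Q (s.e v), by rw [hQ.dick_refl_mul hv, hQ.dick_refl hv', neg_neg], ?_, ?_⟩
  · rw [hQ.spin_mul (hQ.nonExc_of_two h2), hQ.spin_refl hv, hQ.spin_refl hv', s.map_Q, hc, hs, ← sqc_mul hv
      (by simpa using hv), show Q v * (l * (1 : F ≃+* F) (Q v)) = l * (Q v * Q v) by simp; ring,
      sqc_mul l.ne_zero (mul_ne_zero hv hv), sqc_mul_self, mul_one, sqc_eq_neg_one_iff.mpr hl]
  · have h1 := Semi.ofOG_cj s (refl Q v * refl Q (s.e v))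
    have h3 := conj_refl (refl Q (s.e v)) v
    rw [refl_of_polar_eq_zero hvs, mul_inv_eq_iff_eq_mul] at h3
    rw [map_mul (Semi.cj Q s), Semi.cj_refl, Semi.cj_refl, ← Semi.mul_e, h, Semi.scal_e, refl_smul l.ne_zero, h3,
      eq_mul_inv_iff_mul_eq] at h1
    exact h1.symm

theorem par_eq_one_of_anti (hQ : Nondeg Q) (h2 : (2 : F) ≠ 0) {s : Semi Q} (hs : s.σ = 1) (hc : (s.c : F) = -1)
    (h : s * s = 1) : ∃ U, IsLag Q U ∧ simg s U = U := by
  have hss : ∀ v, s.e (s.e v) = v := fun v => by rw [← Semi.mul_e, h, Semi.one_e]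
  let E : F → Submodule F V := fun ε => LinearMap.ker ((s.toLin hs : V →ₗ[F] V) - ε • LinearMap.id)
  have hE : ∀ ε v, v ∈ E ε ↔ s.e v = ε • v := fun ε v => by simp [E, sub_eq_zero]
  have h1 : ∀ ε, ε * ε = 1 → ∀ v ∈ E ε, Q v = 0 := fun ε hε v hv => by
    have := s.map_Q v
    rw [(hE ε v).mp hv, Q_smul, hε, hc, hs] at this
    exact (mul_eq_zero.mp (show 2 * Q v = 0 by simp at this; linear_combination this)).resolve_left h2
  have hsm : ∀ (a : F) v, s.e (a • v) = a • s.e v := fun a v => by rw [s.map_smul, hs]; rfl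
  have h3 : E 1 ⊔ E (-1) = ⊤ := eq_top_iff.mpr fun v _ => Submodule.mem_sup.mpr
    ⟨(2 : F)⁻¹ • (v + s.e v), by simp [hE, hsm, hss, add_comm], (2 : F)⁻¹ • (v - s.e v), by
      simp [hE, hsm, hss, smul_sub, sub_eq_neg_add, add_comm], by
      rw [← smul_add, add_add_sub_cancel, ← two_smul F v, smul_smul, inv_mul_cancel₀ h2, one_smul]⟩
  have h4 := Submodule.finrank_sup_add_finrank_inf_eq (E 1) (E (-1))
  have h5 := hQ.two_mul_finrank_le_of_ts (h1 1 (by simp))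
  have h6 := hQ.two_mul_finrank_le_of_ts (h1 (-1) (by simp))
  rw [h3, finrank_top] at h4
  exact ⟨E 1, ⟨h1 1 (by simp), by omega⟩, simg_eq_of_le fun x hx => by rwa [(hE 1 x).mp hx, one_smul]⟩

end General

section Coord

universe u

variable {F : Type u} [Field F] [Finite F] {ι : Type} [Fintype ι] [DecidableEq ι] {Q : QuadraticForm F (ι → F)}
  (hQ : Nondeg Q) (hN : NonExc Q) (hev : Even (Fintype.card ι)) (h2 : (2 : F) ≠ 0) (h5 : 5 ≤ Fintype.card ι)
include hQ hN hev h2 h5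

/-- The two types of involutory graph automorphisms. -/
theorem graph_invol_cases {s : Semi Q} (hs : s.σ = 1) (hd : dl s = -1) (h : Phi Q s ^ 2 = 1) :
    (∃ a g, s = Semi.scal Q a * Semi.ofOG Q g ∧ g * g = 1 ∧ dick g = -1) ∨
      ∃ l : Fˣ, ¬ IsSquare (l : F) ∧ s.c = l ∧ s * s = Semi.scal Q l ∧ Odd (Fintype.card ι / 2) := by
  rw [← map_pow, Phi_eq_one_iff hQ h5, _root_.sq] at h
  obtain ⟨l, h⟩ := h
  have hc : (s.c : F) = l ∨ (s.c : F) = -l := by
    have := congrArg (fun t : Semi Q => (t.c : F)) h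
    simp only [Semi.mul_c_val, hs, Semi.scal_c, Units.val_mul] at this
    exact mul_self_eq_mul_self_iff.mp this
  by_cases hl : IsSquare (l : F)
  · obtain ⟨a, ha⟩ := hl
    have ha0 : a ≠ 0 := by rintro rfl; simp at ha
    set s' := Semi.scal Q (Units.mk0 a ha0)⁻¹ * s with hs'
    have h1 : s' * s' = 1 := by
      rw [hs', mul_assoc, ← mul_assoc s, Semi.scal_comm hs, mul_assoc, h, ← map_mul, ← map_mul, ← map_one (Semi.scal Q)]
      congr 1
      ext; simp [ha, ha0]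
    have h3 : s'.σ = 1 := by simp [hs', hs]
    have h4 : s = Semi.scal Q (Units.mk0 a ha0) * s' := by rw [hs', map_inv]; group
    have h6 : dl s' = -1 := by rw [hs', dl_mul hQ hN hev rfl hs, dl_scal hQ hN hev, hd, one_mul]
    have h7 : (s'.c : F) = a⁻¹ * a⁻¹ * s.c := by
      rw [hs', Semi.mul_c_val, Semi.scal_c]; simp
    rcases hc with hc | hc
    · obtain ⟨g, hg⟩ := Semi.exists_ofOG h3 (Units.ext (by rw [h7, hc, ha]; field_simp; simp))
      refine .inl ⟨_, g, by rw [hg]; exact h4, Semi.ofOG_injective (by rw [map_mul, hg, h1, map_one]), ?_⟩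
      rw [← dl_ofOG hQ hN hev, hg, h6]
    · obtain ⟨U, hU, h8⟩ := par_eq_one_of_anti hQ h2 h3 (by rw [h7, hc, ha]; field_simp) h1
      have := par_eq_one_of_fix hQ hN hU h8
      rw [par_eq_dl hQ hN hU h3, h6] at this
      exact absurd this (by decide)
  · have h1 := dl_of_sq_eq hQ hN hev h2 hs hl h
    rw [hd] at h1
    rcases hc with hc | hc
    · refine .inr ⟨l, hl, Units.ext hc, h, ?_⟩
      by_contra h3
      rw [hc, (Nat.not_odd_iff_even.mp h3).neg_pow] at h1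
      have : (l : F) ^ (Fintype.card ι / 2) ≠ 0 := pow_ne_zero _ l.ne_zero
      exact h2 (mul_right_cancel₀ this (by simp at h1; linear_combination -h1))
    · rw [hc] at h1
      have : (-l : F) ^ (Fintype.card ι / 2) ≠ 0 := pow_ne_zero _ (by simp)
      exact absurd (mul_right_cancel₀ this (by simp at h1; linear_combination -h1)) h2

omit hN hev h2 in
theorem cj_eq_of_commute {d : Semi Q} {g : OG Q} (h : Commute (Phi Q d) (Phi Q (Semi.ofOG Q g))) :
    Semi.cj Q d g = g ∨ Semi.cj Q d g = g * negOG Q := by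
  have : Phi Q (Semi.ofOG Q (Semi.cj Q d g)) = Phi Q (Semi.ofOG Q g) := by
    rw [Semi.ofOG_cj, map_mul, map_mul, h.eq, map_inv, mul_inv_cancel_right]
  obtain ⟨a, ha⟩ := (Phi_eq_iff hQ h5).mp this
  exact Semi.scal_mul_eq (a := a) (a' := 1) (by rw [← ha, map_one, one_mul])

theorem sc_eq_one_of_commute {s d : Semi Q} (hs : s.σ = 1) (hsd : dl s = -1) (h : Phi Q s ^ 2 = 1) (hd : d.σ = 1)
    (hd1 : dl d = 1) (hc : Commute (Phi Q d) (Phi Q s)) (hn : negOG Q ∈ Om Q ∨ Even (Fintype.card ι / 2)) :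
    Semi.sc Q d = 1 := by
  refine (Int.units_eq_one_or _).resolve_right fun h1 => ?_
  have k : ∀ (y : Semi Q) (g : OG Q), dick g = -1 → Semi.sc Q y = -1 → Commute (Phi Q y) (Phi Q (Semi.ofOG Q g)) →
      Semi.cj Q y g = g * negOG Q ∧ negOG Q ∉ Om Q := fun y g hg hy hyg => by
    have h3 := (hQ.dick_spin_cj hN y g).2
    rw [hg, if_neg (by decide), hy] at h3
    rcases cj_eq_of_commute hQ h5 hyg with h4 | h4
    · rw [h4] at h3
      exact absurd (mul_eq_left.mp h3.symm) (by decide)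
    · refine ⟨h4, fun h5 => ?_⟩
      rw [h4, hQ.spin_mul hN, ((hQ.mem_Om_iff hN _).mp h5).2] at h3
      exact absurd (mul_left_cancel h3) (by decide)
  rcases graph_invol_cases hQ hN hev h2 h5 hs hsd h with ⟨a, g, rfl, hg, hg1⟩ | ⟨l, hl, h3, h4, h6⟩
  · obtain ⟨k1, k2⟩ := k d g hg1 h1 (by rwa [Phi_scal_mul] at hc)
    have k3 := finrank_simg d (eig g 1)
    rw [← eig_cj d g (.inl rfl), k1, eig_neg] at k3
    have k4 := finrank_eig_add h2 hg
    rw [dick_invol h2 hg, (by rw [Module.finrank_fintype_fun_eq_card] at k4; have := hn.resolve_left k2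
                              convert this using 1; omega : Even (finrank F (eig g (-1)))).neg_one_pow] at hg1
    exact absurd hg1 (by decide)
  · have k1 : Semi.sc Q s = -1 := by rw [Semi.sc_apply, h3, sqc_eq_neg_one_iff.mpr hl]
    obtain ⟨a, g, hg⟩ := Semi.exists_scal_mul (s := d * s) (by simp [hd, hs])
      (sqc_eq_one_iff.mp (by rw [← Semi.sc_apply, map_mul, h1, k1]; rfl))
    have k2 : dick g = -1 := by rw [← dl_scal_mul hQ hN hev a, ← hg, dl_mul hQ hN hev hd hs, hd1, hsd, one_mul]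
    refine (k s g k2 k1 ?_).2 (hn.resolve_right (Nat.not_even_iff_odd.mpr h6))
    rw [← Phi_scal_mul a (Semi.ofOG Q g), ← hg, map_mul]
    exact hc.symm.mul_right (Commute.refl _)

theorem exists_spin_neg_commute {s : Semi Q} (hs : s.σ = 1) (hsd : dl s = -1) (h : Phi Q s ^ 2 = 1) :
    ∃ g : OG Q, dick g = 1 ∧ spin g = -1 ∧ Commute (Phi Q (Semi.ofOG Q g)) (Phi Q s) := by
  rcases graph_invol_cases hQ hN hev h2 h5 hs hsd h with ⟨a, g, rfl, hg, -⟩ | ⟨l, hl, h3, h4, -⟩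
  · obtain ⟨k, k1, k2, k3⟩ := exists_spin_neg_of_invol hQ h2 (by simp; omega) hg
    exact ⟨k, k1, k2, by rw [Phi_scal_mul]; exact (k3.symm.map _).map _⟩
  · obtain ⟨k, k1, k2, k3⟩ := exists_spin_neg_of_sq hQ h2 (by simpa using h5) hs hl h3 h4
    exact ⟨k, k1, k2, k3.symm.map _⟩

theorem split_graph_two {s : Semi Q} (hs : s.σ = 1) (hsd : dl s = -1) (h : Phi Q s ^ 2 = 1)
    (hn : negOG Q ∈ Om Q ∨ Even (Fintype.card ι / 2)) :
    Cfsg.splitClassCount ((DG hQ hN hev).map (Phi Q)) (Cfsg.Inn (Cfsg.POmega F Q)) (Phi Q s) = 2 := by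
  have : Nonempty ι := Fintype.card_pos_iff.mp (by omega)
  obtain ⟨y, y1, y2, y3⟩ := exists_dl_sc hQ hN hev h2
  obtain ⟨k, k1, k2, k3⟩ := exists_spin_neg_commute hQ hN hev h2 h5 hs hsd h
  refine (split_eq_card hQ h5 _ (NO_le_DG hQ hN hev) _ ((Semi.sc Q).comp (DG hQ hN hev).subtype)
    (sign_surjective (a := ⟨y, mem_DG.mpr ⟨y1, y2⟩⟩) (by simp [y3]))
    (fun c hc => sc_eq_one_of_commute hQ hN hev h2 h5 hs hsd h (mem_DG.mp c.2).1 (mem_DG.mp c.2).2 hc hn)
    (fun c => sc_of_mem_NO) fun d hd => ?_).trans (by simp)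
  obtain ⟨a, g, hg, h3⟩ := exists_of_dl_sc hQ hN hev (mem_DG.mp d.2).1 (mem_DG.mp d.2).2 hd
  rcases Int.units_eq_one_or (spin g) with h4 | h4
  · exact ⟨1, one_mem _, by simp, a, g, (hQ.mem_Om_iff hN g).mpr ⟨hg, h4⟩, by simpa using h3⟩
  · refine ⟨Semi.ofOG Q k, mem_DG.mpr ⟨rfl, by rw [dl_ofOG hQ hN hev, k1]⟩, k3, a, k⁻¹ * g,
      (hQ.mem_Om_iff hN _).mpr ⟨?_, ?_⟩, by rw [h3, ← mul_assoc, ← map_inv, Semi.scal_comm rfl, map_mul, mul_assoc]⟩
    · exact (map_mul (hQ.dickHom hN) _ _).trans (by rw [map_inv]; change (dick k)⁻¹ * dick g = 1; rw [k1, hg]; rfl)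
    · exact (map_mul (hQ.spinHom hN) _ _).trans (by rw [map_inv]; change (spin k)⁻¹ * spin g = 1; rw [k2, h4]; rfl)

theorem split_one_or_two (hn : negOG Q ∉ Om Q) (x : MulAut (Cfsg.POmega F Q)) :
    Cfsg.splitClassCount ((DG hQ hN hev).map (Phi Q)) (Cfsg.Inn (Cfsg.POmega F Q)) x = 1 ∨
      Cfsg.splitClassCount ((DG hQ hN hev).map (Phi Q)) (Cfsg.Inn (Cfsg.POmega F Q)) x = 2 := by
  have : Nonempty ι := Fintype.card_pos_iff.mp (by omega)
  by_cases h : ∀ c : DG hQ hN hev, Commute (Phi Q c) x → Semi.sc Q c = 1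
  · obtain ⟨y, y1, y2, y3⟩ := exists_dl_sc hQ hN hev h2
    exact .inr ((split_eq_card hQ h5 _ (NO_le_DG hQ hN hev) _ ((Semi.sc Q).comp (DG hQ hN hev).subtype)
      (sign_surjective (a := ⟨y, mem_DG.mpr ⟨y1, y2⟩⟩) (by simp [y3])) h (fun c => sc_of_mem_NO) fun d hd =>
        ⟨1, one_mem _, by simp, by
          simpa using mem_NO_of_notMem hQ hN hev hn (mem_DG.mp d.2).1 (mem_DG.mp d.2).2 hd⟩).trans (by simp))
  push Not at h
  obtain ⟨c, h3, h4⟩ := h
  refine .inl ((split_eq_card hQ h5 _ (NO_le_DG hQ hN hev) _ (1 : _ →* Unit) (fun _ => ⟨1, rfl⟩) (fun _ _ => rfl)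
    (fun _ _ => rfl) fun d _ => ?_).trans (by simp))
  rcases Int.units_eq_one_or (Semi.sc Q d) with h6 | h6
  · exact ⟨1, one_mem _, by simp, by
      simpa using mem_NO_of_notMem hQ hN hev hn (mem_DG.mp d.2).1 (mem_DG.mp d.2).2 h6⟩
  · have := mem_DG.mp (c⁻¹ * d).2
    exact ⟨c, c.2, h3, mem_NO_of_notMem hQ hN hev hn this.1 this.2 (by
      simp [h6, (Int.units_eq_one_or _).resolve_left h4])⟩

omit hQ hN hev h2 h5 in
theorem exists_fixed_field (σ : F ≃+* F) :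
    ∃ (F₀ : Type u) (_ : Field F₀) (_ : Fintype F₀) (j : F₀ →+* F), ∀ x, σ x = x ↔ x ∈ j.range :=
  ⟨GL.H90.fixedSub σ, inferInstance, Fintype.ofFinite _, _, fixedSub_iff σ⟩

omit hQ hN hev h2 h5 in
theorem σ_eq_one_of_minus {m : ℕ} (hm : 2 ≤ m) {a b : F}
    (hab : ∀ z₁ z₂ : F, z₁ ^ 2 + a * z₁ * z₂ + b * z₂ ^ 2 = 0 → z₁ = 0 ∧ z₂ = 0) {s : Semi (qMinus m F a b)}
    (h : Phi _ s ^ 2 = 1) : s.σ = 1 := by
  by_contra h1
  have : Fintype F := Fintype.ofFinite F
  have hQ := nondeg_qMinus m (disc_ne_zero_of_anisotropic hab)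
  obtain ⟨h3, μ, hμ⟩ := exists_normalize hQ (by simp; omega) Nat.prime_two h h1
  replace h3 : orderOf (Semi.scal _ μ * s).σ = 2 := by simpa using h3
  obtain ⟨F₀, _, _, j, hj⟩ := exists_fixed_field (Semi.scal _ μ * s).σ
  obtain ⟨a₀, b₀, hab₀⟩ := exists_aniso F₀
  obtain ⟨D, hD⟩ := desc_minus hQ (nonExc_qMinus m hab) (m := m) (by simp; omega) two_pos h3 hμ hj hab₀
    fun ⟨U, hU⟩ => absurd hU (not_isLag_qMinus hab)
  obtain ⟨U, hU⟩ := D.lag_minus_of_two hQ hab₀ (by rw [h3]; exact even_two) hj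
  exact not_isLag_qMinus hab hU

end Coord

end Cfsg.Agent.Lib.Forms
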