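import Cfsg.Agent.Lib.Forms.OrthGraph
import Cfsg.Agent.Lib.Core.Cores

/-!
# Iwasawa's argument for orthogonal groups
-/

set_option autoImplicit false
set_option linter.unusedSectionVars false
set_option maxHeartbeats 400000

namespace Cfsg.Agent.Lib.Forms

open Module QuadraticMap
open scoped commutatorElement

variable {F V : Type*} [Field F] [AddCommGroup V] [Module F V] {Q : QuadraticForm F V}

/-- the group generated by the Eichler transformations -/
def EG (Q : QuadraticForm F V) : Subgroup (OG Q) :=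
  Subgroup.closure {g | ∃ e w, Q e = 0 ∧ polar Q e w = 0 ∧ g = eich Q e w}

theorem eich_mem_EG {e w : V} (he : Q e = 0) (hw : polar Q e w = 0) : eich Q e w ∈ EG Q :=
  Subgroup.subset_closure ⟨e, w, he, hw, rfl⟩

theorem EG_le {H : Subgroup (OG Q)} (h : ∀ e w, Q e = 0 → polar Q e w = 0 → eich Q e w ∈ H) : EG Q ≤ H :=
  (Subgroup.closure_le _).mpr (by rintro _ ⟨e, w, he, hw, rfl⟩; exact h e w he hw)

instance instNormalEG : (EG Q).Normal := ⟨fun g hg a =>
  EG_le (H := (EG Q).comap (MulAut.conj a).toMonoidHom) (fun e w he hw => by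
    change a * eich Q e w * a⁻¹ ∈ EG Q
    rw [conj_eich a he hw]
    exact eich_mem_EG (by simpa) (by simpa)) hg⟩

theorem exists_eich_map {e y z : V} (he : Q e = 0) (hy : Q y = 0) (hz : Q z = 0) (h1 : polar Q y e ≠ 0)
    (h2 : polar Q z e ≠ 0) : ∃ w, polar Q e w = 0 ∧ ∃ c : F, c ≠ 0 ∧ (eich Q e w).1 y = c • z := by
  have hw : polar Q e ((polar Q z e)⁻¹ • z - (polar Q y e)⁻¹ • y) = 0 := by
    simp [polar_comm Q e, h1, h2]
  refine ⟨_, hw, polar Q y e * (polar Q z e)⁻¹, mul_ne_zero h1 (inv_ne_zero h2), ?_⟩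
  rw [eich_apply he hw, Q_sub, Q_smul, Q_smul, hy, hz]
  simp only [polar_sub_right, polar_smul_right, polar_smul_left, polar_self', hy, smul_eq_mul,
    polar_comm Q z y]
  match_scalars <;> field_simp <;> ring

theorem exists_swap {e f w : V} (he : Q e = 0) (hf : Q f = 0) (hef : polar Q e f = 1) (h1 : polar Q e w = 0)
    (h2 : polar Q f w = 0) (hw : Q w ≠ 0) :
    ∃ n ∈ EG Q, ∃ a b : F, n.1 e = a • f ∧ n.1 f = b • e := by
  have hfe : polar Q f e = 1 := by rw [polar_comm, hef]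
  obtain ⟨w₂, k2, c₂, hc₂, k2'⟩ := exists_eich_map (e := f) (y := (eich Q e w).1 f) (z := e) hf (by simpa) he
    (by rw [eich_apply he h1]; simp [hfe, h2, polar_self', hf, hef, polar_comm Q w f, hw]) (by simp [hef])
  have k : polar Q ((eich Q f w₂).1 e) e ≠ 0 := fun h => by
    have := OG.map_polar (eich Q f w₂ * eich Q e w) e f
    rw [OG.mul_apply, OG.mul_apply, k2', eich_apply_self he h1, polar_smul_right, h, hef] at this
    simp at this
  obtain ⟨w₃, k3, c₃, -, k3'⟩ := exists_eich_map (e := e) (y := (eich Q f w₂).1 e) (z := f) he (by simpa) hf k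
    (by simp [hfe])
  exact ⟨eich Q e w₃ * eich Q f w₂ * eich Q e w,
    mul_mem (mul_mem (eich_mem_EG he k3) (eich_mem_EG hf k2)) (eich_mem_EG he h1), c₃, c₂,
    by rw [OG.mul_apply, OG.mul_apply, eich_apply_self he h1, k3'],
    by rw [OG.mul_apply, OG.mul_apply, k2', map_smul, eich_apply_self he k3]⟩

theorem not_swap_odd {e f : V} (he : Q e = 0) (hef : polar Q e f = 1) {n : OG Q} {a b : F} (h1 : n.1 e = a • f)
    (h2 : n.1 f = b • e) {k : ℕ} (hk : Odd k) : ¬ (n ^ k = 1 ∨ n ^ k = negOG Q) := by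
  obtain ⟨k, rfl⟩ := hk
  obtain ⟨d, hd⟩ : ∃ d : F, (n ^ (2 * k + 1)).1 e = d • f := by
    induction k with
    | zero => exact ⟨a, by simpa using h1⟩
    | succ k ih =>
      obtain ⟨d, hd⟩ := ih
      exact ⟨d * b * a, by
        rw [show 2 * (k + 1) + 1 = 2 * k + 1 + 1 + 1 by ring, pow_succ', pow_succ', OG.mul_apply,
          OG.mul_apply, hd, map_smul, h2, map_smul, map_smul, h1, smul_smul, smul_smul]⟩
  have k : ∀ c : F, c ≠ 0 → c • e ≠ d • f := fun c hc h => by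
    have h3 := congrArg (polar Q e) h
    rw [polar_smul_right, polar_smul_right, polar_self', he, hef] at h3
    have h4 : d = 0 := by simpa using h3.symm
    rw [h4, zero_smul, smul_eq_zero_iff_right hc] at h
    simp [h] at hef
  rintro (h | h) <;> rw [h] at hd
  · exact k 1 one_ne_zero (by simpa using hd)
  · exact k (-1) (by simp) (by simpa [negOG_apply] using hd)

variable [FiniteDimensional F V] [Finite F]

theorem Nondeg.exists_hyp_pair (hQ : Nondeg Q) (h3 : 3 ≤ finrank F V) :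
    ∃ e f w, Q e = 0 ∧ Q f = 0 ∧ polar Q e f = 1 ∧ polar Q e w = 0 ∧ polar Q f w = 0 ∧ Q w ≠ 0 := by
  obtain ⟨e, f, h⟩ := hQ.exists_hypSys 1 h3
  obtain ⟨w, hw, hw0⟩ := h.exists_Q_ne_zero_compl hQ (by simp; omega)
  exact ⟨e 0, f 0, w, h.qe 0, h.qf 0, by simpa using h.ef 0 0, hw.1 0, hw.2 0, hw0⟩

theorem Nondeg.exists_EG_map (hQ : Nondeg Q) (h4 : 4 ≤ finrank F V) {e f : V} (he : Q e = 0) (hf : Q f = 0)
    (hef : polar Q e f = 1) {u : V} (hu : Q u ≠ 0) : ∃ g ∈ EG Q, g.1 u = f + Q u • e := by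
  have H := isHypSys_unit he hf hef
  have hfe : polar Q f e = 1 := by rw [polar_comm, hef]
  have hW : 2 ≤ finrank F (IsHypSys.compl Q (fun _ : Unit => e) (fun _ => f)) := by
    have := H.finrank_compl; simp at this; omega
  set W := IsHypSys.compl Q (fun _ : Unit => e) (fun _ => f)
  have h1 : u - (polar Q f u • e + polar Q e u • f) ∈ W := by simpa [IsHypSys.comb] using H.sub_comb_mem u
  set w := u - (polar Q f u • e + polar Q e u • f) with hw
  have k : ∀ w' ∈ W, polar Q u w' = polar Q w w' := fun w' hw' => by simp [hw, hw'.1 (), hw'.2 ()]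
  obtain ⟨w', hw', h2⟩ : ∃ w' ∈ W, polar Q u w' + Q w' * polar Q u f = polar Q e u - 1 := by
    by_cases ha : polar Q u f = 0
    · have h0 : w ≠ 0 := fun h0 => hu (by
        rw [hw, sub_eq_zero, polar_comm Q f u, ha] at h0
        rw [h0]; simp [Q_smul, hf])
      obtain ⟨v, hv⟩ := (H.nondeg_compl hQ).exists_polar_eq_one (x := ⟨w, h1⟩) (by simpa using h0)
      refine ⟨(polar Q e u - 1) • v, W.smul_mem _ v.2, ?_⟩
      have : polar Q w v = 1 := hv
      rw [ha, k _ (W.smul_mem _ v.2)]; simp [this]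
    · obtain ⟨v, hv⟩ := (H.nondeg_compl hQ).exists_Q_eq hW (Q w + polar Q u f * (polar Q e u - 1))
      have hm := W.smul_mem (polar Q u f)⁻¹ (W.sub_mem v.2 h1)
      refine ⟨_, hm, ?_⟩
      have : Q v = Q w + polar Q u f * (polar Q e u - 1) := hv
      rw [k _ hm, Q_smul, Q_sub, this]
      simp only [polar_smul_right, polar_sub_right, polar_self', smul_eq_mul, polar_comm Q w v]
      field_simp
      ring
  have h3 : polar Q ((eich Q f w').1 u) e = 1 := by
    rw [eich_apply hf (hw'.2 ())]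
    simp only [polar_sub_left, polar_add_left, polar_smul_left, hfe, polar_comm Q w' e, hw'.1 (), h2,
      polar_comm Q u e, smul_eq_mul]
    ring
  obtain ⟨u', hu'⟩ : ∃ u', u' = (eich Q f w').1 u := ⟨_, rfl⟩
  have h4 : Q u' = Q u := by rw [hu', OG.map_Q]
  rw [← hu'] at h3
  have h5 : polar Q e (f + Q u • e - u') = 0 := by simp [hef, polar_self', he, polar_comm Q e u', h3]
  refine ⟨eich Q e (f + Q u • e - u') * eich Q f w', mul_mem (eich_mem_EG he h5) (eich_mem_EG hf (hw'.2 ())), ?_⟩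
  rw [OG.mul_apply, ← hu', eich_apply he h5, h3, Q_sub, Q_add, Q_smul, he, hf, h4]
  simp only [polar_sub_right, polar_add_right, polar_add_left, polar_smul_right, polar_smul_left, polar_self', h3,
    h4, hfe, polar_comm Q f u', polar_comm Q e u', smul_eq_mul]
  match_scalars <;> ring

theorem Nondeg.Om_le_EG (hQ : Nondeg Q) (hN : NonExc Q) (h4 : 4 ≤ finrank F V) : Om Q ≤ EG Q := by
  obtain ⟨e, f, -, he, hf, hef, -⟩ := hQ.exists_hyp_pair (by omega)
  let π := QuotientGroup.mk' (EG Q)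
  have k1 : ∀ u v, Q u ≠ 0 → Q v = Q u → π (refl Q v) = π (refl Q u) := fun u v hu h => by
    obtain ⟨a, ha, h1⟩ := hQ.exists_EG_map h4 he hf hef hu
    obtain ⟨b, hb, h2⟩ := hQ.exists_EG_map h4 he hf hef (h ▸ hu : Q v ≠ 0)
    have h3 : a * refl Q u * a⁻¹ = b * refl Q v * b⁻¹ := by rw [conj_refl, conj_refl, h1, h2, h]
    have h4 := congrArg π h3
    have ha' : π a = 1 := (QuotientGroup.eq_one_iff a).mpr ha
    have hb' : π b = 1 := (QuotientGroup.eq_one_iff b).mpr hb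
    simpa [ha', hb'] using h4.symm
  have k2 : ∀ u, Q u ≠ 0 → ∀ g, Commute (π (refl Q u)) (π g) := fun u hu g => by
    have := k1 u (g.1 u) hu (by simp)
    rw [← conj_refl, map_mul, map_mul, map_inv, mul_inv_eq_iff_eq_mul] at this
    exact this.symm
  have k3 : ∀ g h, Commute (π g) (π h) := fun g h =>
    hQ.refl_induction hN (fun g => Commute (π g) (π h)) (by simp)
      (fun v hv g hg => by rw [map_mul]; exact (k2 v hv h).mul_left hg) g
  rw [Om, commutator_def, Subgroup.commutator_le]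
  intro g _ h _
  rw [← QuotientGroup.eq_one_iff]
  change π _ = 1
  rw [map_commutatorElement, commutatorElement_eq_one_iff_commute]
  exact k3 g h

theorem Nondeg.EG_le_Om (hQ : Nondeg Q) (hN : NonExc Q) : EG Q ≤ Om Q := EG_le fun _ _ => hQ.eich_mem_Om hN

/-- A group of semisimilarities normalised by the Eichler transformations is scalar or transitive on the singular
points. -/
theorem Nondeg.trans_of_normal (hQ : Nondeg Q) (h3 : 3 ≤ finrank F V) (h4 : finrank F V ≠ 4) (H : Subgroup (Semi Q))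
    (hH : ∀ e w, Q e = 0 → polar Q e w = 0 → ∀ t ∈ H,
      Semi.ofOG Q (eich Q e w) * t * (Semi.ofOG Q (eich Q e w))⁻¹ ∈ H)
    {t : Semi Q} (ht : t ∈ H) (hs : ∀ a, t ≠ Semi.scal Q a) {x y : V} (hx0 : x ≠ 0) (hx : Q x = 0) (hy0 : y ≠ 0)
    (hy : Q y = 0) : ∃ t ∈ H, ∃ c : F, c ≠ 0 ∧ t.e x = c • y := by
  let R : V → V → Prop := fun x y => ∃ t ∈ H, ∃ c : F, c ≠ 0 ∧ t.e x = c • y
  have Rs : ∀ {x y}, R x y → R y x := by
    rintro x y ⟨t, ht, c, hc, h⟩
    refine ⟨t⁻¹, inv_mem ht, t⁻¹.σ c⁻¹, (map_ne_zero _).mpr (inv_ne_zero hc), ?_⟩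
    rw [← t.inv_e_e x, ← Semi.map_smul, h, inv_smul_smul₀ hc]
  have Rt : ∀ {x y z}, R x y → R y z → R x z := by
    rintro x y z ⟨t, ht, c, hc, h⟩ ⟨t', ht', c', hc', h'⟩
    exact ⟨t' * t, mul_mem ht' ht, t'.σ c * c', mul_ne_zero ((map_ne_zero _).mpr hc) hc',
      by rw [Semi.mul_e, h, Semi.map_smul, h', smul_smul]⟩
  have Rc : ∀ {x y e w}, Q e = 0 → polar Q e w = 0 → (eich Q e w).1 x = x → R x y → R x ((eich Q e w).1 y) := by
    rintro x y e w he hw h1 ⟨t, ht, c, hc, h⟩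
    refine ⟨_, hH e w he hw t ht, c, hc, ?_⟩
    rw [← map_inv, Semi.mul_e, Semi.mul_e, Semi.ofOG_e, Semi.ofOG_e, ← map_smul, ← h]
    conv_lhs => rw [← h1, OG.inv_apply_apply]
  have Rsm : ∀ {x y} {c : F}, c ≠ 0 → R x (c • y) → R x y := by
    rintro x y c hc ⟨t, ht, c', hc', h⟩
    exact ⟨t, ht, c' * c, mul_ne_zero hc' hc, by rw [h, smul_smul]⟩
  have k1 : ∀ {e y z}, Q e = 0 → Q y = 0 → Q z = 0 → R e y → polar Q y e ≠ 0 → polar Q z e ≠ 0 → R e z := by
    intro e y z he hy hz h h1 h2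
    obtain ⟨w, hw, c, hc, h3⟩ := exists_eich_map he hy hz h1 h2
    exact Rsm hc (h3 ▸ Rc he hw (eich_apply_self he hw) h)
  have k2 : ∀ {e y}, Q e = 0 → Q y = 0 → R e y → polar Q y e ≠ 0 → ∀ z, z ≠ 0 → Q z = 0 → R e z := by
    intro e y he hy h h1 z hz0 hz
    by_cases h2 : polar Q z e = 0
    · have he0 : e ≠ 0 := by rintro rfl; simp at h1
      obtain ⟨l, -, hl1, hl2⟩ := IsWittForm.exists_dual_ne_zero_two (F := F) ⊥ (u := e) (u' := z)
        (by simpa) (by simpa)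
      obtain ⟨v, hv⟩ := hQ.repr l
      have h5 : polar Q (v - Q v • e) e = 1 := by simp [polar_comm Q v, hv, hl1, polar_self', he]
      have h6 : Q (v - Q v • e) = 0 := by rw [Q_sub, Q_smul, he]; simp [polar_comm Q v, hv, hl1]
      have h7 := k1 he hy h6 h h1 (by simp [h5])
      exact Rt h7 (k1 h6 he hz (Rs h7) (by rw [polar_comm, h5]; simp) (by simpa [hv, h2] using hl2))
    · exact k1 he hy hz h h1 h2
  suffices ∃ e, ∀ z, z ≠ 0 → Q z = 0 → R e z by
    obtain ⟨e, h⟩ := this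
    exact Rt (Rs (h x hx0 hx)) (h y hy0 hy)
  obtain ⟨e, he, hm⟩ : ∃ e, Q e = 0 ∧ ∀ c : F, t.e e ≠ c • e := by
    by_contra hc
    push Not at hc
    obtain ⟨a, ha⟩ := t.eq_scal_of_fix hQ h3 hc
    exact hs a ha
  have he0 : e ≠ 0 := by rintro rfl; exact hm 0 (by simp)
  have hy : Q (t.e e) = 0 := (t.Q_eq_zero_iff e).mpr he
  have hR : R e (t.e e) := ⟨t, ht, 1, one_ne_zero, by simp⟩
  by_cases h1 : polar Q (t.e e) e = 0
  · have hl := li_pair_of_ne he0 hm
    have h5 := hQ.two_mul_finrank_le_of_ts (ts_span_pair he hy (by rw [polar_comm, h1]))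
    rw [finrank_span_pair hl] at h5
    obtain ⟨e₀, f₀, h₀⟩ := hQ.exists_hypSys 2 (by omega)
    obtain ⟨e', f', h', h6, h7⟩ := hQ.exists_hypSys_pair (k := 0) h₀ he hy (by rw [polar_comm, h1]) hl
    obtain ⟨w, hw, hw0⟩ := h'.exists_Q_ne_zero_compl hQ (by simp; omega)
    have h8 : (eich Q (f' 1) w).1 e = e := by
      rw [eich_apply_of_perp (h'.qf 1) (hw.2 1) (by rw [← h6, h'.ef]; simp), ← h6, hw.1 0]; simp
    refine ⟨t.e e, k2 hy (y := (eich Q (f' 1) w).1 (t.e e)) (by simpa using hy)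
      (Rt (Rs hR) (Rc (h'.qf 1) (hw.2 1) h8 hR)) ?_⟩
    rw [eich_apply (h'.qf 1) (hw.2 1), ← h7]
    simp [h'.ef, h'.fe, h'.ee, hw.1 1, polar_comm Q w, hw0]
  · exact ⟨e, k2 he hy hR h1⟩

variable {X : Type*} [Group X] [Finite X] {p r : ℕ} [Fact p.Prime] [Fact r.Prime] [CharP F r]

/-- Iwasawa's argument. -/
theorem Nondeg.iwasawa (hQ : Nondeg Q) (h3 : 3 ≤ finrank F V) (h4 : finrank F V ≠ 4) (hpr : p ≠ r)
    (ε : OG Q →* X) {M : Subgroup X} (hM : ¬ p ∣ Nat.card M)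
    (hn : ∀ g ∈ Om Q, ∀ y ∈ M, ε g * y * (ε g)⁻¹ ∈ M) {y : X} (hy : y ∈ M) {t : Semi Q}
    (ht : ∀ g ∈ Om Q, y * ε g * y⁻¹ = ε (Semi.cj Q t g)) (hs : ∀ a, t ≠ Semi.scal Q a) {g : OG Q} (hg : g ∈ EG Q) :
    ¬ p ∣ orderOf (ε g) := by
  have hN := hQ.nonExc_of_finrank h4
  let H : Subgroup (Semi Q) :=
    { carrier := {t | ∃ y ∈ M, ∀ g ∈ Om Q, y * ε g * y⁻¹ = ε (Semi.cj Q t g)}
      mul_mem' := by
        rintro s t ⟨y, hy, h⟩ ⟨z, hz, h'⟩
        refine ⟨y * z, mul_mem hy hz, fun g hg => ?_⟩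
        rw [map_mul, MulAut.mul_apply, ← h _ (cj_mem_Om t hg), ← h' g hg]; group
      one_mem' := ⟨1, one_mem _, fun g _ => by simp⟩
      inv_mem' := by
        rintro s ⟨y, hy, h⟩
        refine ⟨y⁻¹, inv_mem hy, fun g hg => ?_⟩
        have := h _ (cj_mem_Om s⁻¹ hg)
        rw [← MulAut.mul_apply, ← map_mul, mul_inv_cancel, map_one, MulAut.one_apply] at this
        rw [← this]; group }
  obtain ⟨e, f, -, he, -, hef, -⟩ := hQ.exists_hyp_pair h3
  have he0 : e ≠ 0 := by rintro rfl; simp at hef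
  let A : Subgroup X :=
    { carrier := {a | ∃ w, polar Q e w = 0 ∧ a = ε (eich Q e w)}
      mul_mem' := by
        rintro _ _ ⟨u, hu, rfl⟩ ⟨w, hw, rfl⟩
        exact ⟨u + w, by simp [hu, hw], by rw [← map_mul, eich_mul he hu hw]⟩
      one_mem' := ⟨0, by simp, by rw [eich_zero, map_one]⟩
      inv_mem' := by
        rintro _ ⟨u, hu, rfl⟩
        exact ⟨-u, by simp [hu], by rw [← map_inv, eich_inv he hu]⟩ }
  have hA : IsPGroup r A := by
    rintro ⟨_, w, hw, rfl⟩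
    refine ⟨1, Subtype.ext ?_⟩
    simp only [pow_one, SubmonoidClass.coe_pow, OneMemClass.coe_one]
    rw [← map_pow, eich_pow he hw, ← Nat.cast_smul_eq_nsmul F, CharP.cast_eq_zero, zero_smul, eich_zero, map_one]
  have hAM : ¬ p ∣ Nat.card ↥(A ⊔ M) := Core.not_dvd_card_sup (Core.not_dvd_card_of_isPGroup hA hpr) hM (by
    rintro _ ⟨w, hw, rfl⟩
    exact Core.mem_normalizer_of_conj_mem (hn _ (hQ.eich_mem_Om hN he hw)))
  have : ε g ∈ A ⊔ M := EG_le (H := (A ⊔ M).comap ε) (fun v w hv hw => by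
    change ε _ ∈ A ⊔ M
    by_cases hv0 : v = 0
    · rw [eich_eq_one_of_not_linearIndependent hv hw (fun h => li_pair_left h hv0), map_one]; exact one_mem _
    obtain ⟨s, ⟨z, hz, h⟩, c, hc, h1⟩ := hQ.trans_of_normal h3 h4 H (by
      rintro e w he hw s ⟨z, hz, h⟩
      have h0 := hQ.eich_mem_Om hN he hw
      refine ⟨_, hn _ h0 z hz, fun g hg => ?_⟩
      rw [← map_inv (Semi.ofOG Q), map_mul, map_mul, MulAut.mul_apply, MulAut.mul_apply, Semi.cj_ofOG, Semi.cj_ofOG,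
        map_mul, map_mul, ← h _ (by simpa using (inferInstance : (Om Q).Normal).conj_mem g hg (eich Q e w)⁻¹)]
      simp only [map_mul, map_inv]; group) ⟨y, hy, ht⟩ hs he0 he hv0 hv
    have h2 : polar Q e (s⁻¹.e ((s.c * c⁻¹ : F) • w)) = 0 := by
      rw [← s.polar_eq_zero_iff, h1]; simp [hw]
    have h5 := h _ (hQ.eich_mem_Om hN he h2)
    rw [s.cj_eich he h2, h1, Semi.e_inv_e, eich_smul_left hv (by simp [hw]), smul_smul, smul_smul,
      show c * (s.c : F)⁻¹ * (s.c * c⁻¹) = 1 by field_simp, one_smul] at h5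
    rw [← h5]
    exact mul_mem (mul_mem (Subgroup.mem_sup_right hz) (Subgroup.mem_sup_left ⟨_, h2, rfl⟩))
      (inv_mem (Subgroup.mem_sup_right hz))) hg
  exact fun h => hAM (h.trans (Subgroup.orderOf_dvd_natCard _ this))

theorem Nondeg.iwasawa_two (hQ : Nondeg Q) (h3 : 3 ≤ finrank F V) (h4 : finrank F V ≠ 4) (hr : 2 ≠ r)
    (ε : OG Q →* X) (hε : ∀ g, ε g = 1 → g = 1 ∨ g = negOG Q) {M : Subgroup X} (hM : ¬ 2 ∣ Nat.card M)
    (hn : ∀ g ∈ Om Q, ∀ y ∈ M, ε g * y * (ε g)⁻¹ ∈ M) {y : X} (hy : y ∈ M) {t : Semi Q}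
    (ht : ∀ g ∈ Om Q, y * ε g * y⁻¹ = ε (Semi.cj Q t g)) : ∃ a, t = Semi.scal Q a := by
  by_contra hs
  push Not at hs
  obtain ⟨e, f, w, he, hf, hef, h5, h6, h7⟩ := hQ.exists_hyp_pair h3
  obtain ⟨n, hn', a, b, h1, h2⟩ := exists_swap he hf hef h5 h6 h7
  have := hQ.iwasawa h3 h4 hr ε hM hn hy ht hs hn'
  exact not_swap_odd he hef h1 h2 (Nat.not_even_iff_odd.mp fun h => this h.two_dvd)
    (hε _ (by rw [map_pow, pow_orderOf_eq_one]))

end Cfsg.Agent.Lib.Forms
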